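import Mathlib

set_option autoImplicit false

namespace Cfsg.Agent.H77

section
variable {K V : Type*} [Field K] [AddCommGroup V] [Module K V]

/-- `GL(V)` is transitive on linearly independent `k`-tuples. -/
theorem exists_equiv_of_li [FiniteDimensional K V] (k : ℕ) (u v : Fin k → V)
    (hu : LinearIndependent K u) (hv : LinearIndependent K v) :
    ∃ A : V ≃ₗ[K] V, ∀ i, A (u i) = v i := by
  have hk : k ≤ Module.finrank K V := by simpa using hu.fintype_card_le_finrank
  obtain ⟨m, hm⟩ := Nat.exists_eq_add_of_le hk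
  induction m generalizing k with
  | zero =>
    have h1 : Fintype.card (Fin k) = Module.finrank K V := by simp [hm]
    let bu := basisOfLinearIndependentOfCardEqFinrank' u hu h1
    let bv := basisOfLinearIndependentOfCardEqFinrank' v hv h1
    refine ⟨bu.equiv bv (Equiv.refl _), fun i => ?_⟩
    have h2 : u i = bu i := by simp [bu]
    rw [h2, Module.Basis.equiv_apply]; simp [bv]
  | succ m ih =>
    obtain ⟨x, hx⟩ := exists_linearIndependent_cons_of_lt_finrank hu (by omega)
    obtain ⟨y, hy⟩ := exists_linearIndependent_cons_of_lt_finrank hv (by omega)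
    obtain ⟨A, hA⟩ := ih (k + 1) _ _ hx hy (by omega) (by omega)
    exact ⟨A, fun i => by simpa using hA i.succ⟩

/-- A linear automorphism can be corrected to determinant one without changing it on a proper
subspace. -/
theorem exists_det_one_eq_on [FiniteDimensional K V] (W : Submodule K V) (hW : W < ⊤)
    (A : V ≃ₗ[K] V) : ∃ B : V ≃ₗ[K] V, LinearMap.det (B : V →ₗ[K] V) = 1 ∧ ∀ w ∈ W, B w = A w := by
  obtain ⟨f, hf, hle⟩ := W.exists_le_ker_of_lt_top hW
  obtain ⟨x, hx⟩ : ∃ x, f x ≠ 0 := by
    by_contra h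
    push Not at h
    exact hf (LinearMap.ext h)
  set d := LinearMap.det (A : V →ₗ[K] V) with hd
  have hd0 : d ≠ 0 := A.isUnit_det'.ne_zero
  let D := LinearMap.transvection f (((d⁻¹ - 1) / f x) • x)
  have hD : LinearMap.det D = d⁻¹ := by
    simp only [D, LinearMap.transvection.det, map_smul, smul_eq_mul]
    field_simp
    ring
  have hu : IsUnit (LinearMap.det D) := by rw [hD]; exact (inv_ne_zero hd0).isUnit
  refine ⟨(LinearMap.equivOfIsUnitDet hu).trans A, ?_, fun w hw => ?_⟩
  · rw [LinearEquiv.coe_trans, LinearMap.det_comp, LinearMap.coe_equivOfIsUnitDet, hD, ← hd]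
    exact mul_inv_cancel₀ hd0
  · have : f w = 0 := hle hw
    simp [D, LinearMap.transvection, this]

/-- A map preserving affine combinations of two points is affine when `2 ≠ 0`. -/
theorem exists_linear_of_line (h2 : (2 : K) ≠ 0) (σ : V → V)
    (h : ∀ (x y : V) (c : K), σ (x + c • (y - x)) = σ x + c • (σ y - σ x)) :
    ∃ L : V →ₗ[K] V, ∀ x, σ x = L x + σ 0 := by
  have hs : ∀ (c : K) (y : V), σ (c • y) - σ 0 = c • (σ y - σ 0) := by
    intro c y
    have := h 0 y c
    rw [zero_add, sub_zero] at this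
    rw [this]; abel
  refine ⟨⟨⟨fun x => σ x - σ 0, fun x y => ?_⟩, fun c x => hs c x⟩, fun x => by simp⟩
  have h1 := h x y (2⁻¹)
  have h3 : x + y = (2 : K) • (x + (2⁻¹ : K) • (y - x)) := by
    rw [smul_add, smul_smul, mul_inv_cancel₀ h2, one_smul, two_smul]; abel
  rw [h3, hs, h1, smul_sub, smul_add, smul_smul, mul_inv_cancel₀ h2, one_smul, two_smul, two_smul]
  abel

/-- An element of the 3-closure of a group of affine maps is affine when `2 ≠ 0`. -/
theorem affine_of_three_closure [FiniteDimensional K V] (h2 : (2 : K) ≠ 0) (σ : Equiv.Perm V)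
    (h : ∀ t : Fin 3 → V, ∃ (A : V ≃ₗ[K] V) (b : V), ∀ i, σ (t i) = A (t i) + b) :
    ∃ (A : V ≃ₗ[K] V) (b : V), ∀ x, σ x = A x + b := by
  obtain ⟨L, hL⟩ := exists_linear_of_line h2 σ (fun x y c => by
    obtain ⟨A, b, hA⟩ := h ![x, y, x + c • (y - x)]
    have h0 : σ x = A x + b := hA 0
    have h1 : σ y = A y + b := hA 1
    have h2 : σ (x + c • (y - x)) = A (x + c • (y - x)) + b := hA 2
    rw [h2, h1, h0, map_add, map_smul, map_sub, add_sub_add_right_eq_sub]; abel)
  have hinj : Function.Injective L := fun x y hxy => σ.injective (by rw [hL x, hL y, hxy])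
  exact ⟨LinearEquiv.ofInjectiveEndo L hinj, σ 0, hL⟩

end

end Cfsg.Agent.H77
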