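import Mathlib.GroupTheory.Transfer
import Mathlib.Analysis.PSeries
import Cfsg.Agent.H77.Factor
import Cfsg.Agent.H46.Generation

/-! No non-abelian finite simple group has all centralisers self-normalising and constant along
cyclic subgroups. -/

set_option autoImplicit false

namespace Cfsg.Agent.H77

open Subgroup

variable {T : Type*} [Group T]

theorem mem_cent_iff {x y : T} : y ∈ centralizer ({x} : Set T) ↔ x * y = y * x := by
  simp [mem_centralizer_iff]

/-- Burnside's transfer theorem for a non-abelian simple group. -/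
theorem not_normalizer_le_centralizer [Finite T] [IsSimpleGroup T] (hc : ¬ IsMulCommutative T)
    {p : ℕ} [hp : Fact p.Prime] (Q : Sylow p T) (hQ : (Q : Subgroup T) ≠ ⊥) :
    ¬ normalizer ((Q : Subgroup T) : Set T) ≤ centralizer ((Q : Subgroup T) : Set T) := by
  intro h
  have hcomp := MonoidHom.ker_transferSylow_isComplement' Q h
  rcases IsSimpleGroup.eq_bot_or_eq_top_of_normal (MonoidHom.transferSylow Q h).ker inferInstance
    with h1 | h1
  · have h2 := hcomp.sup_eq_top
    rw [h1, bot_sup_eq] at h2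
    have h3 := Q.isPGroup'
    rw [h2] at h3
    exact not_isPGroup_of_simple hc hp.out (h3.of_equiv Subgroup.topEquiv)
  · have h2 := hcomp.disjoint
    rw [h1, top_disjoint] at h2
    exact hQ h2

theorem exists_central_mem [Finite T] {p : ℕ} [Fact p.Prime] {Q : Subgroup T} (hQ : IsPGroup p Q)
    (h : Q ≠ ⊥) : ∃ z ∈ Q, z ≠ 1 ∧ Q ≤ centralizer ({z} : Set T) := by
  have : Nontrivial Q := (Subgroup.nontrivial_iff_ne_bot Q).mpr h
  obtain ⟨z, hz, hz1⟩ := exists_ne_one_mem hQ.bot_lt_center.ne'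
  refine ⟨z, z.2, fun h => hz1 (Subtype.ext h), fun y hy => mem_cent_iff.mpr ?_⟩
  exact (congrArg Subtype.val (mem_center_iff.mp hz ⟨y, hy⟩)).symm

theorem exists_pow_prime_orderOf [Finite T] {x : T} (hx : x ≠ 1) :
    ∃ i : ℕ, (orderOf (x ^ i)).Prime := by
  have h1 : orderOf x ≠ 1 := fun h => hx (orderOf_eq_one_iff.mp h)
  obtain ⟨p, hp, hpd⟩ := Nat.exists_prime_and_dvd h1
  refine ⟨orderOf x / p, ?_⟩
  rw [orderOf_pow_orderOf_div (orderOf_pos x).ne' hpd]
  exact hp

theorem ne_one_of_prime_orderOf {x : T} (hx : (orderOf x).Prime) : x ≠ 1 := by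
  rintro rfl
  rw [orderOf_one] at hx
  exact Nat.not_prime_one hx

section
variable (ha : ∀ (x : T) (i : ℕ), x ^ i ≠ 1 → centralizer ({x ^ i} : Set T) = centralizer {x})
include ha

theorem cent_eq_of_primes {u v : T} (hu : (orderOf u).Prime) (hv : (orderOf v).Prime)
    (hne : orderOf u ≠ orderOf v) (huv : u * v = v * u) :
    centralizer ({u} : Set T) = centralizer {v} := by
  have h1 : (u * v) ^ orderOf v = u ^ orderOf v := by
    rw [Commute.mul_pow huv, pow_orderOf_eq_one, mul_one]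
  have h2 : (u * v) ^ orderOf u = v ^ orderOf u := by
    rw [Commute.mul_pow huv, pow_orderOf_eq_one, one_mul]
  have h3 : u ^ orderOf v ≠ 1 := fun h =>
    hne ((Nat.prime_dvd_prime_iff_eq hu hv).mp (orderOf_dvd_of_pow_eq_one h))
  have h4 : v ^ orderOf u ≠ 1 := fun h =>
    hne ((Nat.prime_dvd_prime_iff_eq hv hu).mp (orderOf_dvd_of_pow_eq_one h)).symm
  rw [← ha u _ h3, ← h1, ha _ _ (h1 ▸ h3), ← ha v _ h4, ← h2, ha _ _ (h2 ▸ h4)]

variable [Finite T] [IsSimpleGroup T] (hc : ¬ IsMulCommutative T)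
  (hb : ∀ x : T, x ≠ 1 → normalizer (centralizer ({x} : Set T) : Set T) ≤ centralizer {x})
include hc hb

theorem isPGroup_cent {x : T} (hx : (orderOf x).Prime) :
    IsPGroup (orderOf x) (centralizer ({x} : Set T)) := by
  by_contra hP
  have := Fact.mk hx
  obtain ⟨y, hyC, hy, hyx⟩ : ∃ y ∈ centralizer ({x} : Set T), (orderOf y).Prime ∧
      orderOf y ≠ orderOf x := by
    by_contra h
    push Not at h
    apply hP
    rw [IsPGroup.iff_card]
    refine ⟨_, Nat.eq_prime_pow_of_unique_prime_dvd Nat.card_pos.ne' ?_⟩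
    intro d hd hdvd
    have := Fact.mk hd
    obtain ⟨z, hz⟩ := exists_prime_orderOf_dvd_card' d hdvd
    rw [← Subgroup.orderOf_coe] at hz
    rw [← hz]
    exact h z z.2 (hz ▸ hd)
  have hxy := cent_eq_of_primes ha hx hy hyx.symm (mem_cent_iff.mp hyC)
  have hall : ∀ z ∈ centralizer ({x} : Set T), z ≠ 1 → centralizer ({z} : Set T) = centralizer {x} := by
    intro z hz hz1
    obtain ⟨i, hi⟩ := exists_pow_prime_orderOf hz1
    rw [← ha z i (ne_one_of_prime_orderOf hi)]
    by_cases h : orderOf (z ^ i) = orderOf x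
    · rw [hxy]
      exact cent_eq_of_primes ha hi hy (h ▸ hyx.symm)
        (mem_cent_iff.mp (hxy ▸ Subgroup.pow_mem _ hz i)).symm
    · exact cent_eq_of_primes ha hi hx h (mem_cent_iff.mp (Subgroup.pow_mem _ hz i)).symm
  have hx1 := ne_one_of_prime_orderOf hx
  have h1 : IsPGroup (orderOf x) (zpowers x) :=
    IsPGroup.of_card (n := 1) (by rw [Nat.card_zpowers, pow_one])
  obtain ⟨Q, hQ⟩ := h1.exists_le_sylow
  have hxQ : x ∈ (Q : Subgroup T) := hQ (mem_zpowers x)
  have hQ1 : (Q : Subgroup T) ≠ ⊥ := fun h => hx1 (by rwa [h, mem_bot] at hxQ)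
  obtain ⟨z, hz, hz1, hzQ⟩ := exists_central_mem Q.isPGroup' hQ1
  rw [hall z (mem_cent_iff.mpr (mem_cent_iff.mp (hzQ hxQ)).symm) hz1] at hzQ
  apply not_normalizer_le_centralizer hc Q hQ1
  intro g hg
  have hg1 : g ∈ centralizer ({x} : Set T) := by
    apply hb x hx1
    refine Subgroup.mem_normalizer_fintype fun c hc' => ?_
    have h2 : g * x * g⁻¹ ∈ (Q : Subgroup T) := (mem_normalizer_iff.mp hg x).mp hxQ
    have h3 : g * x * g⁻¹ ≠ 1 := fun h => hx1 (by
      have h2 : x = g⁻¹ * (g * x * g⁻¹) * g := by group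
      rw [h2, h]; simp)
    rw [SetLike.mem_coe, ← hall _ (hzQ h2) h3, mem_cent_iff]
    have := mem_cent_iff.mp hc'
    calc g * x * g⁻¹ * (g * c * g⁻¹) = g * (x * c) * g⁻¹ := by group
      _ = g * c * g⁻¹ * (g * x * g⁻¹) := by rw [this]; group
  rw [mem_centralizer_iff]
  intro s hs
  by_cases hs1 : s = 1
  · simp [hs1]
  · rw [← hall s (hzQ hs) hs1] at hg1
    exact mem_cent_iff.mp hg1

theorem exists_sylow_eq_cent {x : T} (hx : x ≠ 1) :
    ∃ p : ℕ, p.Prime ∧ p ∣ Nat.card T ∧ ∃ Q : Sylow p T, (Q : Subgroup T) = centralizer {x} := by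
  obtain ⟨i, hi⟩ := exists_pow_prime_orderOf hx
  have := Fact.mk hi
  have h1 := isPGroup_cent ha hc hb hi
  rw [ha x i (ne_one_of_prime_orderOf hi)] at h1
  obtain ⟨Q, hQ⟩ := h1.exists_le_sylow
  refine ⟨_, hi, orderOf_dvd_natCard _, Q, ?_⟩
  rcases hQ.eq_or_lt with h | h
  · exact h.symm
  · exact absurd (le_trans inf_le_right (hb x hx))
      (H46.lt_inf_normalizer_of_isPGroup Q.isPGroup' h).not_ge

theorem sylow_bound {p : ℕ} [hp : Fact p.Prime] (hd : p ∣ Nat.card T) (Q : Sylow p T) :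
    Nat.card (Sylow p T) * Nat.card Q = Nat.card T ∧ p ^ 2 * Nat.card (center Q) ≤ Nat.card Q := by
  have hQ1 := Q.ne_bot_of_dvd_card hd
  obtain ⟨z, hz, hz1, hzQ⟩ := exists_central_mem Q.isPGroup' hQ1
  obtain ⟨q, hq, -, R, hR⟩ := exists_sylow_eq_cent ha hc hb hz1
  have := Fact.mk hq
  have hpq : q = p := by
    by_contra hne
    have h1 := IsPGroup.disjoint_of_ne q p hne _ _ R.isPGroup' Q.isPGroup'
    exact hQ1 (h1.symm.eq_bot_of_le (hR ▸ hzQ))
  subst hpq
  have hQ : (Q : Subgroup T) = centralizer {z} :=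
    hR ▸ (Q.is_maximal' R.isPGroup' (hR ▸ hzQ)).symm
  have hN : normalizer ((Q : Subgroup T) : Set T) = Q :=
    le_antisymm (by rw [hQ]; exact hb z hz1) le_normalizer
  constructor
  · rw [Q.card_eq_index_normalizer, ← Q.coe_coe, hN, index_mul_card]
  · obtain ⟨k, hk⟩ := Q.isPGroup'.index (center Q)
    have h2 : 2 ≤ k := by
      by_contra h
      apply not_normalizer_le_centralizer hc Q hQ1
      have : IsCyclic (Q ⧸ center Q) := by
        rcases (by omega : k = 0 ∨ k = 1) with rfl | rfl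
        · have : Subsingleton (Q ⧸ center Q) := (Nat.card_eq_one_iff_unique.mp hk).1
          infer_instance
        · exact isCyclic_of_prime_card (p := q) (by rw [pow_one] at hk; exact hk)
      have hcomm := isMulCommutative_of_isCyclic_quotient_center_self (G := Q)
      rw [hN]
      intro a ha
      rw [mem_centralizer_iff]
      intro b hb
      exact congrArg Subtype.val (hcomm.is_comm.comm (⟨b, hb⟩ : Q) ⟨a, ha⟩)
    rw [← (center Q).index_mul_card, hk]
    exact Nat.mul_le_mul_right _ (Nat.pow_le_pow_right hq.pos h2)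

theorem cent_count_false : False := by
  classical
  have := Fintype.ofFinite T
  let S : ℕ → Finset T := fun p => Finset.univ.filter fun x => x ≠ 1 ∧
    ∃ Q : Sylow p T, (Q : Subgroup T) = centralizer {x}
  have h1 : Finset.univ.erase (1 : T) ⊆ (Nat.card T).primeFactors.biUnion S := by
    intro x hx
    obtain ⟨p, hp, hpd, Q, hQ⟩ := exists_sylow_eq_cent ha hc hb (Finset.ne_of_mem_erase hx)
    simp only [Finset.mem_biUnion, Nat.mem_primeFactors, S, Finset.mem_filter, Finset.mem_univ,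
      true_and]
    exact ⟨p, ⟨hp, hpd, Nat.card_pos.ne'⟩, Finset.ne_of_mem_erase hx, Q, hQ⟩
  have h2 : ∀ p ∈ (Nat.card T).primeFactors, ((S p).card + 1 : ℚ) ≤ Nat.card T * ((p : ℚ) ^ 2)⁻¹ := by
    intro p hp
    obtain ⟨hp, hpd, -⟩ := Nat.mem_primeFactors.mp hp
    have := Fact.mk hp
    have := Fintype.ofFinite (Sylow p T)
    let Z : Sylow p T → Finset T := fun Q =>
      (Finset.univ.image fun z : center Q => ((z : Q) : T)).erase 1
    have h3 : S p ⊆ Finset.univ.biUnion Z := by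
      intro x hx
      simp only [S, Finset.mem_filter, Finset.mem_univ, true_and] at hx
      obtain ⟨hx1, Q, hQ⟩ := hx
      simp only [Finset.mem_biUnion, Finset.mem_univ, true_and, Z, Finset.mem_erase,
        Finset.mem_image]
      have hxQ : x ∈ (Q : Subgroup T) := hQ ▸ mem_cent_iff.mpr rfl
      refine ⟨Q, hx1, ⟨⟨x, hxQ⟩, mem_center_iff.mpr fun y => Subtype.ext ?_⟩, rfl⟩
      exact (mem_cent_iff.mp (hQ ▸ y.2)).symm
    obtain ⟨Q₀⟩ : Nonempty (Sylow p T) := inferInstance
    have h4 : ∀ Q : Sylow p T, p ^ 2 * ((Z Q).card + 1) ≤ Nat.card Q₀ := by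
      intro Q
      rw [Nat.card_congr (Q₀.equiv Q).toEquiv]
      refine le_trans (Nat.mul_le_mul_left _ ?_) (sylow_bound ha hc hb hpd Q).2
      have h0 : (1 : T) ∈ Finset.univ.image fun z : center Q => ((z : Q) : T) :=
        Finset.mem_image.mpr ⟨1, Finset.mem_univ _, rfl⟩
      simp only [Z]
      rw [Finset.card_erase_add_one h0, Nat.card_eq_fintype_card]
      exact Finset.card_image_le
    have h5 := (Finset.card_le_card h3).trans Finset.card_biUnion_le
    have h6 := Finset.sum_le_sum (s := Finset.univ) fun Q _ => h4 Q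
    rw [← Finset.mul_sum, Finset.sum_add_distrib] at h6
    simp only [Finset.sum_const, Finset.card_univ, smul_eq_mul, mul_one] at h6
    rw [← Nat.card_eq_fintype_card, (sylow_bound ha hc hb hpd Q₀).1] at h6
    have h7 : 0 < Nat.card (Sylow p T) := Nat.card_pos
    have h8 : p ^ 2 * ((S p).card + 1) ≤ Nat.card T :=
      le_trans (Nat.mul_le_mul_left _ (by omega)) h6
    have h9 : (0 : ℚ) < (p : ℚ) ^ 2 := by have := hp.pos; positivity
    rw [← div_eq_mul_inv, le_div_iff₀ h9, mul_comm]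
    exact_mod_cast h8
  have h3 := (Finset.card_le_card h1).trans Finset.card_biUnion_le
  rw [Finset.card_erase_of_mem (Finset.mem_univ _), Finset.card_univ,
    ← Nat.card_eq_fintype_card] at h3
  have h4 := Finset.sum_le_sum h2
  rw [← Finset.mul_sum, Finset.sum_add_distrib] at h4
  have hT : 1 < Nat.card T := Finite.one_lt_card
  have h5 : ∑ p ∈ (Nat.card T).primeFactors, ((p : ℚ) ^ 2)⁻¹ ≤
      ∑ p ∈ Finset.Ioc 1 (Nat.card T), ((p : ℚ) ^ 2)⁻¹ := by
    apply Finset.sum_le_sum_of_subset_of_nonneg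
    · intro p hp
      obtain ⟨hp, hpd, -⟩ := Nat.mem_primeFactors.mp hp
      exact Finset.mem_Ioc.mpr ⟨hp.one_lt, Nat.le_of_dvd (by omega) hpd⟩
    · intro p _ _
      positivity
  have h6 := sum_Ioc_inv_sq_le_sub (α := ℚ) one_ne_zero hT.le
  have h7 : 1 ≤ (Nat.card T).primeFactors.card :=
    Finset.card_pos.mpr (Nat.nonempty_primeFactors.mpr hT)
  have hT' : (1 : ℚ) < Nat.card T := by exact_mod_cast hT
  have h8 : (Nat.card T : ℚ) * ∑ p ∈ (Nat.card T).primeFactors, ((p : ℚ) ^ 2)⁻¹ ≤ Nat.card T - 1 := by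
    refine le_trans (mul_le_mul_of_nonneg_left (h5.trans h6) (by positivity)) (le_of_eq ?_)
    field_simp
    simp
  have h9 : (Nat.card T : ℚ) - 1 ≤ ∑ p ∈ (Nat.card T).primeFactors, ((S p).card : ℚ) := by
    have : Nat.card T ≤ ∑ p ∈ (Nat.card T).primeFactors, (S p).card + 1 := by omega
    rw [sub_le_iff_le_add]
    exact_mod_cast this
  simp only [Finset.sum_const, nsmul_eq_mul, mul_one] at h4
  have h10 : (1 : ℚ) ≤ (Nat.card T).primeFactors.card := by exact_mod_cast h7
  linarith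

end

end Cfsg.Agent.H77
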