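import Mathlib.FieldTheory.Finite.GaloisField
import Mathlib.RingTheory.IntegralDomain

/-! An irreducible abelian normal subgroup of a linear group over a prime field. -/

set_option autoImplicit false

namespace Cfsg.Agent.H77

theorem irr_abelian {p : ℕ} [hp : Fact p.Prime] {V : Type*} [AddCommGroup V] [Module (ZMod p) V]
    [Finite V] [Nontrivial V] {H : Type*} [Group H] [Finite H]
    (ρ : H →* Module.End (ZMod p) V) (hρ : Function.Injective ρ) (T : Subgroup H) [hT : T.Normal]
    (hc : ∀ a ∈ T, ∀ b ∈ T, a * b = b * a)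
    (hirr : ∀ W : Submodule (ZMod p) V, (∀ t ∈ T, ∀ x ∈ W, ρ t x ∈ W) → W = ⊥ ∨ W = ⊤) :
    IsCyclic T ∧
    (∀ i : ℕ, 0 < i → i < Module.finrank (ZMod p) V → ¬ ∀ t ∈ T, t ^ p ^ i = t) ∧
    (Subgroup.centralizer (T : Set H)).index ∣ Module.finrank (ZMod p) V ∧
    ∃ h : H, ∀ x : H, ∃ n : ℤ, x * (h ^ n)⁻¹ ∈ Subgroup.centralizer (T : Set H) := by
  classical
  let K := Algebra.adjoin (ZMod p) (ρ '' (T : Set H))
  have hKc : IsMulCommutative K := Algebra.isMulCommutative_adjoin _ (by
    rintro _ ⟨a, ha, rfl⟩ _ ⟨b, hb, rfl⟩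
    rw [← map_mul, hc a ha b hb, map_mul])
  have hfinE : Finite (Module.End (ZMod p) V) := Finite.of_injective _ DFunLike.coe_injective
  have hmem : ∀ t ∈ T, ρ t ∈ K := fun t ht => Algebra.subset_adjoin ⟨t, ht, rfl⟩
  have hinj : ∀ k : K, k ≠ 0 → ∀ v : V, (k : Module.End (ZMod p) V) v = 0 → v = 0 := by
    intro k hk v hv
    rcases hirr (LinearMap.ker (k : Module.End (ZMod p) V)) (fun t ht x hx => by
      have h1 := congrArg Subtype.val (hKc.is_comm.comm k ⟨ρ t, hmem t ht⟩)
      simp only [MulMemClass.coe_mul] at h1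
      rw [LinearMap.mem_ker] at hx ⊢
      rw [← Module.End.mul_apply, h1, Module.End.mul_apply, hx, map_zero]) with h | h
    · have : v ∈ LinearMap.ker (k : Module.End (ZMod p) V) := hv
      rwa [h, Submodule.mem_bot] at this
    · exact absurd (Subtype.ext (LinearMap.ker_eq_top.mp h)) hk
  let _ : CommRing K := { (inferInstance : Ring K) with mul_comm := hKc.is_comm.comm }
  have : NoZeroDivisors K := ⟨fun {a b} hab => by
    by_contra h
    push Not at h
    apply h.2
    apply Subtype.ext
    ext v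
    apply hinj a h.1
    have := congrArg Subtype.val hab
    simp only [MulMemClass.coe_mul, ZeroMemClass.coe_zero] at this
    rw [← Module.End.mul_apply, this, LinearMap.zero_apply]⟩
  have : IsDomain K := NoZeroDivisors.to_isDomain K
  let _ : Field K := (Finite.isField_of_domain K).toField
  have hcard : Nat.card K = Nat.card V := by
    obtain ⟨v, hv⟩ := exists_ne (0 : V)
    let f : K →ₗ[ZMod p] V := (LinearMap.applyₗ v).comp K.val.toLinearMap
    refine Nat.card_eq_of_bijective f ⟨(injective_iff_map_eq_zero f).mpr fun k hk => ?_, ?_⟩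
    · by_contra h
      exact hv (hinj k h v hk)
    · rcases hirr (LinearMap.range f) (by
        rintro t ht _ ⟨k, rfl⟩
        exact ⟨⟨ρ t, hmem t ht⟩ * k, rfl⟩) with h | h
      · have : v ∈ LinearMap.range f := ⟨1, rfl⟩
        rw [h, Submodule.mem_bot] at this
        exact absurd this hv
      · exact LinearMap.range_eq_top.mp h
  have hrank : Module.finrank (ZMod p) K = Module.finrank (ZMod p) V := by
    have h1 := Module.natCard_eq_pow_finrank (K := ZMod p) (V := K)
    have h2 := Module.natCard_eq_pow_finrank (K := ZMod p) (V := V)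
    rw [hcard, h2, Nat.card_zmod] at h1
    exact (Nat.pow_right_injective hp.out.two_le h1).symm
  let ι : T →* K :=
    { toFun := fun t => ⟨ρ t, hmem t t.2⟩
      map_one' := Subtype.ext (by simp)
      map_mul' := fun a b => Subtype.ext (by simp) }
  have hι : Function.Injective ι := fun a b h => Subtype.ext (hρ (congrArg Subtype.val h))
  have hconj : ∀ h : H, ∀ k ∈ K, ρ h * k * ρ h⁻¹ ∈ K := by
    intro h k hk
    have h1 : ρ h⁻¹ * ρ h = 1 := by rw [← map_mul, inv_mul_cancel, map_one]
    have h2 : ρ h * ρ h⁻¹ = 1 := by rw [← map_mul, mul_inv_cancel, map_one]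
    induction hk using Algebra.adjoin_induction with
    | mem x hx =>
      obtain ⟨t, ht, rfl⟩ := hx
      rw [← map_mul, ← map_mul]
      exact hmem _ (hT.conj_mem t ht h)
    | algebraMap r =>
      rw [← Algebra.commutes, mul_assoc, h2, mul_one]
      exact K.algebraMap_mem r
    | add x y _ _ hx hy => rw [mul_add, add_mul]; exact K.add_mem hx hy
    | mul x y _ _ hx hy =>
      have : ρ h * (x * y) * ρ h⁻¹ = (ρ h * x * ρ h⁻¹) * (ρ h * y * ρ h⁻¹) := by
        simp only [mul_assoc]
        rw [← mul_assoc (ρ h⁻¹), h1, one_mul]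
      rw [this]; exact K.mul_mem hx hy
  let ψ : H →* (K →ₐ[ZMod p] K) :=
    { toFun := fun h =>
        { toFun := fun k => ⟨ρ h * k * ρ h⁻¹, hconj h k k.2⟩
          map_one' := Subtype.ext (by simp [← map_mul])
          map_mul' := fun x y => Subtype.ext (by
            have h1 : ρ h⁻¹ * ρ h = 1 := by rw [← map_mul, inv_mul_cancel, map_one]
            simp only [MulMemClass.coe_mul, mul_assoc]
            rw [← mul_assoc (ρ h⁻¹), h1, one_mul])
          map_zero' := Subtype.ext (by simp)
          map_add' := fun x y => Subtype.ext (by simp [mul_add, add_mul])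
          commutes' := fun r => Subtype.ext (by
            have h2 : ρ h * ρ h⁻¹ = 1 := by rw [← map_mul, mul_inv_cancel, map_one]
            change ρ h * algebraMap _ _ r * ρ h⁻¹ = algebraMap _ _ r
            rw [← Algebra.commutes, mul_assoc, h2, mul_one]) }
      map_one' := AlgHom.ext fun k => Subtype.ext (by simp)
      map_mul' := fun g h => AlgHom.ext fun k => Subtype.ext (by simp [mul_assoc]) }
  let φ : H →* (K ≃ₐ[ZMod p] K) := (AlgEquiv.algHomUnitsEquiv (ZMod p) K).toMonoidHom.comp
    ψ.toHomUnits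
  have hφ : φ.ker = Subgroup.centralizer (T : Set H) := by
    ext h
    rw [MonoidHom.mem_ker, Subgroup.mem_centralizer_iff]
    constructor
    · intro h1 t ht
      have h2 : ψ h ⟨ρ t, hmem t ht⟩ = ⟨ρ t, hmem t ht⟩ := DFunLike.congr_fun h1 _
      have h3 : ρ h * ρ t * ρ h⁻¹ = ρ t := congrArg Subtype.val h2
      rw [← map_mul, ← map_mul] at h3
      conv_lhs => rw [← hρ h3]
      group
    · intro h1
      apply AlgEquiv.coe_algHom_injective
      apply AlgHom.ext_of_eq_adjoin rfl
      rintro _ ⟨t, ht, rfl⟩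
      apply Subtype.ext
      change ρ h * ρ t * ρ h⁻¹ = ρ t
      rw [← map_mul, ← map_mul, ← h1 t ht, mul_inv_cancel_right]
  refine ⟨isCyclic_of_injective_ringHom ι hι, fun i hi hid h => ?_, ?_, ?_⟩
  · have : CharP K p := charP_of_injective_algebraMap (algebraMap (ZMod p) K).injective p
    have h1 : ∀ k : K, k ^ p ^ i = k := by
      let F : K →ₐ[ZMod p] K :=
        { iterateFrobenius K p i with
          commutes' := fun r => by
            change (algebraMap _ K r) ^ p ^ i = _
            rw [← map_pow, ZMod.pow_card_pow] }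
      have : F = AlgHom.id _ _ := by
        apply AlgHom.ext_of_eq_adjoin rfl
        rintro _ ⟨t, ht, rfl⟩
        apply Subtype.ext
        change (ρ t) ^ p ^ i = ρ t
        rw [← map_pow, h t ht]
      exact fun k => DFunLike.congr_fun this k
    obtain ⟨g, hg⟩ := IsCyclic.exists_ofOrder_eq_natCard (α := Kˣ)
    have h2 : g ^ (p ^ i - 1) = 1 := by
      have h3 : g ^ p ^ i = g := Units.ext (by simpa using h1 g)
      have h4 : p ^ i = (p ^ i - 1) + 1 := (Nat.sub_add_cancel (Nat.one_le_pow _ _ hp.out.pos)).symm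
      rw [h4, pow_succ] at h3
      simpa using h3
    have h3 := orderOf_dvd_of_pow_eq_one h2
    rw [hg, Nat.card_units, hcard, Module.natCard_eq_pow_finrank (K := ZMod p), Nat.card_zmod] at h3
    have h4 : 1 < p ^ i := Nat.one_lt_pow hi.ne' hp.out.one_lt
    have h5 := Nat.pow_lt_pow_right hp.out.one_lt hid
    have h6 := Nat.le_of_dvd (by omega) h3
    omega
  · rw [← hφ, Subgroup.index_ker, ← hrank, ← IsGalois.card_aut_eq_finrank]
    exact Subgroup.card_subgroup_dvd_card _
  · obtain ⟨⟨_, h, rfl⟩, hg⟩ := IsCyclic.exists_generator (α := φ.range)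
    refine ⟨h, fun x => ?_⟩
    obtain ⟨n, hn⟩ := hg ⟨φ x, x, rfl⟩
    refine ⟨n, ?_⟩
    rw [← hφ, MonoidHom.mem_ker, map_mul, map_inv, map_zpow, mul_inv_eq_one]
    exact (congrArg Subtype.val hn).symm

end Cfsg.Agent.H77
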