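import Cfsg.Agent.H3.PresSL2
import Cfsg.Agent.H3.PresFam
import Cfsg.Agent.H77.TC

/-! General tools for short presentations. -/

set_option autoImplicit false

namespace Cfsg.Agent.H77

open Function Polynomial H3 Monoid

universe v

variable {J G : Type*} [Group J] [Group G] {Γ : Type v} [Group Γ] {ψ : Γ →* G} {F : Type*} [Field F]

theorem pow_mem_of_card [Finite F] (S : AddSubgroup F) {κ : F} (hκ : ∀ t ∈ S, κ * t ∈ S) {r : ℕ}
    (h : Nat.card F < (orderOf κ + 1) ^ (r + 1)) {l : F} (hl : ∀ i < r, l ^ i ∈ S) : l ^ r ∈ S := by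
  have hp : ∀ c, (∀ t ∈ S, c * t ∈ S) → ∀ k : ℕ, ∀ t ∈ S, c ^ k * t ∈ S := fun c hc k => by
    induction k with
    | zero => simp
    | succ k ih => exact fun t ht => by rw [pow_succ', mul_assoc]; exact hc _ (ih t ht)
  let E : Subfield F :=
    { carrier := {c | ∀ t ∈ S, c * t ∈ S}
      mul_mem' := fun ha hb t ht => by rw [mul_assoc]; exact ha _ (hb t ht)
      one_mem' := by simp
      add_mem' := fun ha hb t ht => by rw [add_mul]; exact add_mem (ha t ht) (hb t ht)
      zero_mem' := by simp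
      neg_mem' := fun ha t ht => by rw [neg_mul]; exact neg_mem (ha t ht)
      inv_mem' := fun c hc => by
        by_cases h0 : c = 0
        · simp [h0]
        obtain ⟨k, hk⟩ : ∃ k, orderOf c = k + 1 := ⟨_, (Nat.succ_pred_eq_of_pos (order_pos h0)).symm⟩
        have := pow_orderOf_eq_one c
        rw [hk, pow_succ] at this
        rw [← eq_inv_of_mul_eq_one_left this]
        exact hp c hc k }
  have h1 : orderOf κ + 1 ≤ Nat.card E := by
    by_cases h0 : κ = 0
    · rw [h0, orderOf_zero]; exact Nat.card_pos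
    have h2 : (⟨κ, hκ⟩ : E) ≠ 0 := fun e => h0 (congrArg Subtype.val e)
    have h3 := orderOf_le_card (x := Units.mk0 _ h2)
    rw [← orderOf_units, Nat.card_units, ← orderOf_injective E.subtype.toMonoidHom E.subtype.injective] at h3
    have : 0 < Nat.card E := Nat.card_pos
    change orderOf κ ≤ _ at h3
    omega
  have h2 : Module.finrank E F < r + 1 := by
    rw [Module.natCard_eq_pow_finrank (K := E)] at h
    exact (Nat.pow_lt_pow_iff_right Finite.one_lt_card).1 (h.trans_le (Nat.pow_le_pow_left h1 _))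
  have hi : IsIntegral E l := Algebra.IsIntegral.isIntegral l
  have h3 := natDegree_modByMonic_lt (X ^ r) (minpoly.monic hi) (minpoly.ne_one E l)
  have h4 := aeval_eq_sum_range' (h3.trans_le ((minpoly.natDegree_le l).trans (Nat.le_of_lt_succ h2))) l
  rw [aeval_modByMonic_eq_self_of_root (minpoly.aeval E l), map_pow, aeval_X] at h4
  rw [h4]
  exact sum_mem fun i hi => (coeff (X ^ r %ₘ minpoly E l) i).2 _ (hl i (Finset.mem_range.1 hi))

theorem conj_pow' (a b : J) (n : ℕ) : (a⁻¹ * b * a) ^ n = a⁻¹ * b ^ n * a := by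
  simpa using conj_pow (i := n) (a := a⁻¹) (b := b)

theorem baumslag3 {d u : J} {j : ℕ} (h1 : ∀ i ≤ 3, Commute u (cjp d u i))
    (h : cjp d u j = u * (cjp d u 1 ^ 3 * cjp d u 2 ^ 3 * cjp d u 3)) (i : ℕ) : Commute u (cjp d u i) := by
  have key : ∀ k, ∀ i ≤ k + 3, Commute u (cjp d u i) := by
    intro k
    induction k with
    | zero => simpa using h1
    | succ k ih =>
      intro i hi
      rcases Nat.lt_or_eq_of_le hi with hi | rfl
      · exact ih i (by omega)
      have e : cjp d u (j + (k + 1)) = (cjp d u (k + 1) * (cjp d u (k + 1 + 1) ^ 3 * cjp d u (k + 1 + 2) ^ 3)) *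
          cjp d u (k + 1 + 3) := by
        rw [add_comm, ← conj_cjp, h, conj_mul', conj_mul', conj_mul', ← conj_pow, ← conj_pow, conj_cjp, conj_cjp,
          conj_cjp, ← mul_assoc]; rfl
      have : Commute (cjp d u j) _ := Commute.cj (ih (k + 1) (by omega)) (d ^ j)
      rw [conj_cjp, e, h] at this
      have c : ∀ {a b : ℕ}, a ≤ b + (k + 3) → b ≤ a + (k + 3) → Commute (cjp d u a) (cjp d u b) :=
        fun h1 h2 => comm_cjp ih h1 h2
      have c' : ∀ b, 3 ≤ b + (k + 3) → b ≤ 1 + (k + 3) →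
          Commute (cjp d u 1 ^ 3 * cjp d u 2 ^ 3 * cjp d u 3) (cjp d u b) := fun b h1 h2 =>
        (((c (by omega) h2).pow_left 3).mul_left ((c (by omega) (by omega)).pow_left 3)).mul_left (c h1 (by omega))
      exact comm_of_mul this ((c' _ (by omega) (by omega)).mul_right (((c' _ (by omega) (by omega)).pow_right
        3).mul_right ((c' _ (by omega) (by omega)).pow_right 3))) (c' _ (by omega) (by omega))
        ((ih _ (by omega)).mul_right (((ih _ (by omega)).pow_right 3).mul_right ((ih _ (by omega)).pow_right 3)))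
  exact key i i (by omega)

theorem Pk.mod3 [Finite F] {x : F → G} {u d : Γ} {l : F} (hx : Ad x) (hu : ψ u = x 1) (hd : Act (ψ d) x l)
    (hl : Gn l) {j : ℕ} (hj : l ^ j = (1 + l) ^ 3) : Pk ψ 5 fun J _ f => Commute (f u) (f (cjp d u 1)) →
      ∃ y : F → J, Ad y ∧ y 1 = f u ∧ Act (f d) y l := by
  obtain ⟨p, hp, _⟩ := exists_char F
  have := Fact.mk hp
  have hcm : ∀ i, Pk ψ 1 fun _ _ f => Commute (f u) (f (cjp d u i)) := fun i =>
    Pk.comm u _ (by rw [map_cjp, hu, cjp_x hd]; exact hx.comm _ _)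
  refine (((((hcm 2).and (hcm 3)).and (Pk.eq (cjp d u j) (u * (cjp d u 1 ^ 3 * cjp d u 2 ^ 3 * cjp d u 3))
    ?_)).and (Pk.eq (u ^ p) 1 ?_)).and (Pk.poly p hl hx hu hd)).imp fun J _ f hf h1 => ?_
  · simp only [map_mul, map_pow, map_cjp, hu, cjp_x hd]
    rw [← hx.nsmul, ← hx.nsmul, ← hx, ← hx, ← hx, hj]; congr 1; push_cast; ring
  · rw [map_pow, hu, hx.pow_char, map_one]
  simp only [map_mul, map_pow, map_cjp, map_one] at hf h1
  refine hf.2 (baumslag3 (fun i hi => ?_) hf.1.1.2) hf.1.2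
  interval_cases i
  exacts [by rw [cjp_zero], h1, hf.1.1.1.1, hf.1.1.1.2]

/-- Relators modulo a subgroup. -/
theorem Pk.quot {G' : Type*} [Group G'] {ψ' : Γ →* G'} (N : Subgroup Γ) (hN : ∀ w, ψ' w = 1 → ψ w ∈ N.map ψ)
    {r : ℕ} {Q : ∀ (J : Type v) [Group J], (Γ →* J) → Prop} (h : Pk ψ' r Q) : Pk ψ r fun J _ f =>
      ∀ (J' : Type v) [Group J'] (π : J →* J'), (∀ n ∈ N, π (f n) = 1) → Q J' (π.comp f) := by
  obtain ⟨W, h1, h2, h3⟩ := h
  refine ((Pk.list (r := 1) W fun w hw => Pk.mem w N (hN w (h2 w hw))).imp fun J _ f hf => ?_).mono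
    (by simpa using h1)
  refine fun J' _ π hπ => h3 J' _ fun w hw => ?_
  obtain ⟨n, hn, e⟩ := hf w hw
  rw [MonoidHom.comp_apply, ← e, hπ n hn]

theorem comm_all {K : Type*} [Field K] {y : K → J} {d u : J} {l : K} (hy : Ad y) (hd : Act d y l)
    (hl : ∀ t, t ≠ 0 → ∃ k : ℕ, l ^ k = t) {e m : ℕ} (he : l ^ e = 1) (hm : 0 < m) (ho : d ^ m = 1)
    (h : ∀ i < 3, Commute (cjp d u i) (y 1))
    (h3 : cjp d u 3 ∈ Subgroup.closure ({g | ∃ i < 3, ∃ j, cjp d u (e * j + i) = g} ∪ Set.range y)) (s : K) :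
    Commute u (y s) := by
  set M := Subgroup.closure ({g | ∃ i < 3, ∃ j, cjp d u (e * j + i) = g} ∪ Set.range y)
  have k1 : ∀ k, (∀ i < 3, ∀ j, cjp d u (k + (e * j + i)) ∈ M) → ∀ g ∈ M, d ^ k * g * (d ^ k)⁻¹ ∈ M := by
    intro k hk g hg
    refine (show M ≤ M.comap (MulAut.conj (d ^ k)).toMonoidHom from (Subgroup.closure_le _).2 ?_) hg
    rintro _ (⟨i, hi, j, rfl⟩ | ⟨s, rfl⟩)
    · exact ((conj_cjp d u k _).symm ▸ hk i hi j : d ^ k * _ * _ ∈ M)
    · change d ^ k * y s * (d ^ k)⁻¹ ∈ M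
      rw [conj_pow_x hd]; exact Subgroup.subset_closure (Or.inr ⟨_, rfl⟩)
  have k0 : ∀ i < 3, ∀ j, cjp d u (e * j + i) ∈ M := fun i hi j => Subgroup.subset_closure (Or.inl ⟨i, hi, j, rfl⟩)
  have k2 := k1 1 fun i hi j => by
    rcases Nat.lt_or_eq_of_le (Nat.succ_le_of_lt hi) with hi | hi
    · simpa only [add_comm 1, add_assoc] using k0 _ hi j
    have := k1 (e * j) (fun i hi k => by simpa only [mul_add, add_assoc] using k0 i hi (j + k)) _ h3
    rwa [conj_cjp, ← hi, Nat.succ_eq_add_one, ← add_assoc, add_comm] at this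
  have k3 : ∀ n, cjp d u n ∈ M := fun n => by
    induction n with
    | zero => simpa using k0 0 (by omega) 0
    | succ n ih => simpa only [conj_cjp, add_comm 1] using k2 _ ih
  have k4 : M ≤ Subgroup.centralizer {y 1} := (Subgroup.closure_le _).2 (by
    rintro _ (⟨i, hi, j, rfl⟩ | ⟨s, rfl⟩)
    · have := Commute.cj (h i hi) (d ^ (e * j))
      rw [conj_cjp, conj_pow_x hd, pow_mul, he, one_pow, one_mul] at this
      exact Subgroup.mem_centralizer_singleton_iff.2 this
    · exact Subgroup.mem_centralizer_singleton_iff.2 (hy.comm _ _))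
  by_cases hs : s = 0
  · simp [hs, hy.zero]
  obtain ⟨k, rfl⟩ := hl s hs
  obtain ⟨m, rfl⟩ : ∃ n, m = n + 1 := ⟨m - 1, by omega⟩
  have := Commute.cj (Subgroup.mem_centralizer_singleton_iff.1 (k4 (k3 (m * k)))) (d ^ k)
  rwa [conj_cjp, conj_pow_x hd, mul_one, add_comm, ← add_one_mul, cjp, pow_mul, ho, one_pow, inv_one, one_mul,
    mul_one] at this

namespace TC

variable {Ω : Type*} {P : Type v} [MulAction G Ω] [Group P] (T : TC G Ω P (FreeGroup Unit))

theorem lift_self (f : Coprod P (FreeGroup Unit) →* J) : Coprod.lift (f.comp Coprod.inl) (f.comp Coprod.inr) = f := by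
  ext <;> simp

/-- The cocycle of a homomorphism on the free product. -/
noncomputable def cf (f : Coprod P (FreeGroup Unit) →* J) : Ω → Ω → J := T.c (f.comp Coprod.inl) (f.comp Coprod.inr)

theorem cf_eq (f : Coprod P (FreeGroup Unit) →* J) (x y : Ω) : T.cf f x y = f (T.cw x y) := by
  rw [cf, c, lift_self]

theorem pk_tri {x y z : Ω} (h1 : T.R x y) (h2 : T.R y z) (h3 : T.R x z) :
    Pk (Coprod.lift T.i T.j) 1 fun _ _ f => T.cf f x y * T.cf f y z = T.cf f x z :=
  (Pk.eq (T.cw x y * T.cw y z) (T.cw x z) (by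
    rw [map_mul]
    exact (congrArg₂ _ (c_self h1) (c_self h2)).trans ((by group : _ = _).trans (c_self h3).symm))).imp
    fun _ _ f hf => by simpa only [map_mul, cf_eq] using hf

theorem pk_symm {x y : Ω} (h1 : T.R x y) (h2 : T.R y x) :
    Pk (Coprod.lift T.i T.j) 1 fun _ _ f => T.cf f x y * T.cf f y x = 1 :=
  (Pk.eq (T.cw x y * T.cw y x) 1 (by
    rw [map_mul, map_one]
    exact (congrArg₂ _ (c_self h1) (c_self h2)).trans (by group))).imp
    fun _ _ f hf => by simpa only [map_mul, map_one, cf_eq] using hf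

theorem hp {X : Type} {γ : X → P} {r s : ℕ} (hγ : HP γ r) (hS : T.S = {.of ()})
    (conn : ∀ g : G, Relation.ReflTransGen T.R T.v (g • T.v)) (adj : T.R T.v (T.j (.of ()) • T.v)) {a : P}
    (ha : T.i a • T.j (.of ()) • T.v = T.j (.of ()) • T.v)
    (ha' : ∀ p, T.i p • T.j (.of ()) • T.v = T.j (.of ()) • T.v → ∃ k : ℕ, a ^ k = p)
    (h : Pk (Coprod.lift T.i T.j) s fun J _ f => T.Cmp (f.comp Coprod.inl) (f.comp Coprod.inr) →
      ∃ c : Ω → J, ∀ x y, T.R x y → c y = c x * T.cf f x y) :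
    HP (Sum.elim (fun x => T.i (γ x)) fun _ : Unit => T.j (.of ())) (r + (1 + s)) := by
  obtain ⟨a', e⟩ := T.stab ((T.j (.of ()))⁻¹ * T.i a * T.j (.of ())) (by
    rw [mul_smul, mul_smul, ha, inv_smul_smul])
  have hs : Surjective (Coprod.lift T.i T.j) := fun g =>
    T.top_of_conn conn (Coprod.lift T.i T.j).range (fun p => ⟨.inl p, by simp⟩) (fun k _ => ⟨.inr k, by simp⟩) g
  have := (hγ.coprod_free Unit).pk hs (((Pk.eq (ψ := Coprod.lift T.i T.j) (.inl a')
    ((Coprod.inr (.of ()))⁻¹ * .inl a * .inr (.of ())) (by simpa using e)).and h).imp fun J _ f hf θ hs hθ => ?_)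
  · convert this using 2 with x
    rcases x with x | x <;> simp
  have hc : T.Cmp (f.comp Coprod.inl) (f.comp Coprod.inr) := by
    intro p p' k hk k' hk' h
    rw [hS] at hk hk'
    subst hk hk'
    obtain ⟨n, rfl⟩ := ha' p (by rw [← mul_smul, h, mul_smul, T.fix])
    obtain rfl : a' ^ n = p' := T.inj (by
      rw [map_pow, e, conj_pow', mul_assoc, ← map_pow, h, inv_mul_cancel_left])
    have := hf.1
    simp only [map_mul, map_inv] at this
    simp only [MonoidHom.comp_apply, map_pow, this]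
    rw [conj_pow']; group
  obtain ⟨c, hc'⟩ := hf.2 hc
  obtain ⟨Φ, h1, h2⟩ := exists_hom hc conn (by rw [hS]; rintro _ rfl; exact adj) c hc'
  have : (Φ.comp θ).comp f = f := by
    rw [MonoidHom.comp_assoc, hθ]
    ext
    · simp [h1]
    · simpa using h2 _ (by rw [hS]; rfl)
  refine LeftInverse.injective (g := Φ) fun x => ?_
  obtain ⟨w, rfl⟩ := hs x
  exact DFunLike.congr_fun this w

end TC

end Cfsg.Agent.H77
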