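import Cfsg.Agent.H77.PU3B

/-! A short presentation of `SU₃(q)`. -/

set_option autoImplicit false
set_option linter.unusedSectionVars false

namespace Cfsg.Agent.H77

open Function H3 H10 Matrix Monoid

variable {F : Type*} [Field F] [Fintype F] {q : ℕ} [hF : Fact (Fintype.card F = q ^ 2)]

local notation "σ" => cj F q

variable (q) in
/-- The Hermitian form in a Witt basis. -/
def hw (x y : Fin 3 → F) : F := x 0 * σ (y 2) + x 1 * σ (y 1) + x 2 * σ (y 0)

variable (F q) in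
/-- The special unitary group in a Witt basis. -/
def SUW : Subgroup (SpecialLinearGroup (Fin 3) F) := preserving (slToMat 3 F) (hw q)

/-- The matrix of an element. -/
def wm (g : SUW F q) : Matrix (Fin 3) (Fin 3) F := g.1.1

theorem wm_mul (g g' : SUW F q) : wm (g * g') = wm g * wm g' := rfl
theorem wm_one : wm (1 : SUW F q) = 1 := rfl
theorem wm_det (g : SUW F q) : (wm g).det = 1 := g.1.2
theorem wm_hw (g : SUW F q) (x y : Fin 3 → F) : hw q (wm g *ᵥ x) (wm g *ᵥ y) = hw q x y := g.2 x y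
theorem wm_inj {g g' : SUW F q} (h : wm g = wm g') : g = g' := Subtype.ext (Subtype.ext h)

/-- An element with given matrix. -/
def mkW (M : Matrix (Fin 3) (Fin 3) F) (h : M.det = 1) (h' : ∀ x y, hw q (M *ᵥ x) (M *ᵥ y) = hw q x y) : SUW F q :=
  ⟨⟨M, h⟩, h'⟩

theorem sw_equiv : Nonempty (SUW F q ≃* SU 3 F q) := by
  obtain ⟨d, hd⟩ := exists_trace_eq (F := F) (q := q) (t := 1) (map_one _)
  obtain ⟨i, hi⟩ := exists_norm_eq (F := F) (q := q) (t := -1) (by simp)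
  let P : GL (Fin 3) F := GeneralLinearGroup.mkOfDetNeZero !![1, 0, d; 0, 1, 0; i, 0, -σ d * i] (by
    simp only [det_fin_three]; simp
    rintro h
    have : i = 0 := by linear_combination -h - i * hd
    simp [this] at hi)
  have hP : ∀ x y, hermForm 3 F q (P.1 *ᵥ x) (P.1 *ᵥ y) = hw q x y := fun x y => by
    simp only [herm_eq, hw, Fin.sum_univ_three, mulVec, dotProduct]
    simp [P, cj_cj]
    linear_combination (x 0 * σ (y 2) + x 2 * σ (y 0)) * hd + (x 0 - σ d * x 2) * (σ (y 0) - d * σ (y 2)) * hi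
  have e : (SUW F q).map (slConj P) = SU 3 F q := by
    ext g
    constructor
    · rintro ⟨g, hg, rfl⟩
      rw [mem_SU_iff, coe_slConj]
      intro x y
      rw [← mulVec_mulVec, ← mulVec_mulVec, ← mulVec_mulVec, ← mulVec_mulVec, hP]
      refine (hg _ _).trans ?_
      rw [← hP, mulVec_mulVec, mulVec_mulVec]
      simp
    · refine fun hg => ⟨slConj P⁻¹ g, fun x y => ?_, Subtype.ext ?_⟩
      · rw [← hP, ← hP x, ← hg (P.1 *ᵥ x)]
        simp [← mul_assoc, slToMat, coe_slConj]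
      · simp [coe_slConj, ← mul_assoc]
  exact ⟨((SUW F q).equivMapOfInjective _ (slConj_injective P)).trans (MulEquiv.subgroupCongr e)⟩

/-- The elements of the Borel subgroup. -/
def bi0 (a : BM F q) : SUW F q := mkW !![a.t, -(σ a.x * σ a.t / a.t), a.y / σ a.t;
    0, σ a.t / a.t, a.x / σ a.t; 0, 0, (σ a.t)⁻¹] (by
      have := a.ht; have := a.ht'
      simp [det_fin_three]; field_simp) fun x y => by
      have := a.ht; have := a.ht'
      simp only [hw, mulVec, dotProduct, Fin.sum_univ_three]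
      simp [cj_cj]; field_simp
      linear_combination σ a.t * a.t * x 2 * σ (y 2) * a.h

theorem bi0_val (a : BM F q) : wm (bi0 a) = !![a.t, -(σ a.x * σ a.t / a.t), a.y / σ a.t;
    0, σ a.t / a.t, a.x / σ a.t; 0, 0, (σ a.t)⁻¹] := rfl

/-- The Borel subgroup. -/
def bi : BM F q →* SUW F q := MonoidHom.mk' bi0 fun a b => wm_inj (by
    have := a.ht; have := a.ht'; have := b.ht; have := b.ht'
    ext i j
    fin_cases i <;> fin_cases j <;> simp [cj_cj, wm_mul, bi0_val] <;> field_simp <;> ring)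

theorem bi_val (a : BM F q) : wm (bi a) = !![a.t, -(σ a.x * σ a.t / a.t), a.y / σ a.t;
    0, σ a.t / a.t, a.x / σ a.t; 0, 0, (σ a.t)⁻¹] := rfl

theorem bi_inj : Injective (bi : BM F q → _) := (injective_iff_map_eq_one _).2 fun a h => by
  have h1 := congrArg wm h
  have e1 := congrFun₂ h1 0 0
  have e2 := congrFun₂ h1 1 2
  have e3 := congrFun₂ h1 0 2
  simp [bi_val, a.ht', wm_one] at e1 e2 e3
  exact BM.ext e1 e2 e3

variable (F q) in
/-- The Weyl element. -/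
def w0 : SUW F q := mkW !![0, 0, 1; 0, -1, 0; 1, 0, 0] (by simp [det_fin_three]) fun x y => by
  simp only [hw, mulVec, dotProduct, Fin.sum_univ_three]
  simp; ring

theorem w0_val : wm (w0 F q) = !![0, 0, 1; 0, -1, 0; 1, 0, 0] := rfl

theorem mem_bi {g : SUW F q} (h : wm g 2 0 = 0) : g ∈ (bi : BM F q →* _).range := by
  have k := fun i j => wm_hw g (Pi.single i 1) (Pi.single j 1)
  have hd := wm_det g
  have k00 := k 0 0
  have k01 := k 0 1
  have k02 := k 0 2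
  have k12 := k 1 2
  have k22 := k 2 2
  simp [hw, h, cj_eq_zero] at k00
  simp [hw, h, cj_eq_zero, k00] at k01 k02 k12 k22
  have h0 : wm g 0 0 ≠ 0 := fun e => by simp [e] at k02
  have h1 := cj_ne_zero (q := q).2 h0
  have h2 : wm g 2 1 = 0 := k01.resolve_left h0
  have h3 : wm g 2 2 = (σ (wm g 0 0))⁻¹ := eq_inv_of_mul_eq_one_right (by simpa [cj_cj] using congrArg σ k02)
  simp [det_fin_three, h, k00, h2, h3] at hd
  simp only [h2, h3, map_inv₀, cj_cj] at k12 k22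
  field_simp at hd k12 k22
  refine ⟨⟨wm g 0 0, wm g 1 2 * σ (wm g 0 0), wm g 0 2 * σ (wm g 0 0), h0, ?_⟩, wm_inj ?_⟩
  · simp only [map_mul, cj_cj]; linear_combination k22
  ext i j
  fin_cases i <;> fin_cases j <;> simp [bi_val, h, k00, h1, h2, h3, cj_cj] <;> field_simp
  · linear_combination -k12 + σ (wm g 1 2) * hd
  · exact hd.symm

variable (F q) in
/-- The isotropic points. -/
abbrev IP := SUW F q ⧸ (bi : BM F q →* _).range

/-- The affine points. -/
def pt (a : BM F q) : IP F q := (bi a * w0 F q : SUW F q)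

/-- The point at infinity. -/
def oo : IP F q := (1 : SUW F q)

theorem smul_oo (g : SUW F q) : g • (oo : IP F q) = (g : SUW F q) := by simp [oo]

theorem bi_pt (a b : BM F q) : bi a • pt b = pt (a * b) := by simp [pt, mul_assoc]

theorem bi_oo (a : BM F q) : bi a • (oo : IP F q) = oo := by simp [oo, QuotientGroup.eq]

theorem w0_oo : w0 F q • (oo : IP F q) = pt 1 := by simp [oo, pt]

theorem coe_eq {g g' : SUW F q} : (g : IP F q) = g' ↔ hw q (wm g' *ᵥ Pi.single 0 1) (wm g *ᵥ Pi.single 0 1) = 0 := by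
  have := wm_hw g (wm (g⁻¹ * g') *ᵥ Pi.single 0 1) (Pi.single 0 1)
  rw [mulVec_mulVec, ← wm_mul, mul_inv_cancel_left] at this
  rw [QuotientGroup.eq, show hw q _ _ = wm (g⁻¹ * g') 2 0 from this.trans (by simp [hw])]
  exact ⟨by rintro ⟨a, e⟩; simp [← e, bi_val], mem_bi⟩

theorem pt_col (a : BM F q) : wm (bi a * w0 F q) *ᵥ Pi.single 0 1 = (σ a.t)⁻¹ • ![a.y, a.x, 1] := by
  ext i; fin_cases i <;> simp [bi_val, w0_val, div_eq_inv_mul, wm_mul]

theorem pt_ne (a : BM F q) : oo ≠ pt a := by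
  rw [oo, pt, Ne, coe_eq, pt_col]
  simp [hw, a.ht', wm_one]

theorem pt_eq {a b : BM F q} : pt a = pt b ↔ (a⁻¹ * b).y = 0 := by
  rw [← smul_left_cancel_iff (bi a⁻¹), bi_pt, bi_pt, inv_mul_cancel, pt, pt, coe_eq, pt_col, pt_col]
  simp [hw, -BM.mul_y, (a⁻¹ * b).ht', -BM.mul_t]

theorem BM.x_eq {a : BM F q} (h : a.y = 0) : a.x = 0 := by simpa [h, cj_eq_zero] using a.h

theorem pt_congr {a b : BM F q} (h1 : a.x = b.x) (h2 : a.y = b.y) : pt a = pt b := by
  rw [pt, pt, coe_eq, pt_col, pt_col, ← h1, ← h2]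
  simp [hw, cj_cj]
  linear_combination (σ b.t)⁻¹ * a.t⁻¹ * a.h

theorem w0_pt {a b : BM F q} (h : a.y * b.y = 1) (h' : a.y * b.x = -a.x) : w0 F q • pt a = pt b := by
  have : wm (w0 F q * (bi a * w0 F q)) *ᵥ Pi.single 0 1 = ((σ a.t)⁻¹ * a.y) • ![b.y, b.x, 1] := by
    rw [wm_mul, ← mulVec_mulVec, pt_col]
    ext i; fin_cases i <;> simp [w0_val, mul_assoc, h, h']
  rw [pt, MulAction.Quotient.smul_coe, smul_eq_mul, pt, coe_eq, pt_col, this]
  simp [hw, cj_cj]
  linear_combination (σ b.t)⁻¹ * a.t⁻¹ * σ a.y * b.h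

theorem w0_pt_one : w0 F q • (pt 1 : IP F q) = oo := by
  simp [oo, pt, coe_eq, hw, w0_val, wm_mul, wm_one]

theorem ip_cases (x : IP F q) : x = oo ∨ ∃ a, x = pt a := by
  obtain ⟨g, rfl⟩ := QuotientGroup.mk_surjective x
  by_cases h : wm g 2 0 = 0
  · exact Or.inl (by simp [oo, QuotientGroup.eq, mem_bi h])
  have k := wm_hw g (Pi.single 0 1) (Pi.single 0 1)
  have h' := cj_ne_zero (q := q).2 h
  simp [hw] at k
  refine Or.inr ⟨⟨1, wm g 1 0 / wm g 2 0, wm g 0 0 / wm g 2 0, one_ne_zero, ?_⟩, ?_⟩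
  · simp only [map_div₀]; field_simp; linear_combination k
  · rw [pt, coe_eq, pt_col]
    simp [hw]; field_simp; linear_combination k

variable (F q) in
/-- The complete graph on the isotropic points. -/
def T3 : TC (SUW F q) (IP F q) (BM F q) (FreeGroup Unit) where
  i := bi
  j := FreeGroup.lift fun _ => w0 F q
  v := oo
  R := (· ≠ ·)
  S := {.of ()}
  inj := bi_inj
  fix := bi_oo
  stab g h := by simpa [oo, QuotientGroup.eq] using h
  inv g _ _ h := fun e => h (smul_left_cancel g e)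
  nbr y h := by
    obtain ⟨a, rfl⟩ := (ip_cases y).resolve_left h.symm
    exact ⟨a, _, rfl, by simp [w0_oo, bi_pt]⟩
  orb x _ _ := by
    obtain ⟨g, rfl⟩ := QuotientGroup.mk_surjective x
    exact ⟨g, smul_oo g⟩

section good

variable {J : Type*} [Group J] {c : IP F q → IP F q → J}
  (hc : ∀ g : SUW F q, ∃ β : IP F q → J, ∀ x y, x ≠ y → c (g • x) (g • y) = β x * c x y * (β y)⁻¹)
  (hs : c oo (pt 1) * c (pt 1) oo = 1)

variable (c) in
/-- Good triangles. -/
def G3 (x y z : IP F q) : Prop := c x y * c y z = c x z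

variable (c) in
/-- Good types. -/
def Ty (y : F) : Prop := ∀ a : BM F q, a.y = y → G3 c oo (pt 1) (pt a)

theorem pt_ne_one {a : BM F q} (h : a.y ≠ 0) : pt 1 ≠ pt a := by simpa [pt_eq] using h

include hc

theorem G3.smul {x y z : IP F q} (h1 : x ≠ y) (h2 : y ≠ z) (h3 : x ≠ z) (h : G3 c x y z) (g : SUW F q) :
    G3 c (g • x) (g • y) (g • z) := by
  obtain ⟨β, e⟩ := hc g
  rw [G3, e _ _ h1, e _ _ h2, e _ _ h3, ← h]; group

theorem G3.mul {a : BM F q} (h0 : a.y ≠ 0) (h : G3 c oo (pt 1) (pt a)) (b : BM F q) :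
    G3 c oo (pt b) (pt (b * a)) := by
  simpa only [bi_oo, bi_pt, mul_one] using h.smul hc (pt_ne 1) (pt_ne_one h0) (pt_ne a) (bi b)

theorem G3.tor {a b : BM F q} (h0 : a.y ≠ 0) (h : G3 c oo (pt 1) (pt a)) {t : F} (ht : t ≠ 0)
    (h1 : σ t ^ 2 / t * a.x = b.x) (h2 : t * σ t * a.y = b.y) : G3 c oo (pt 1) (pt b) := by
  have := h.mul hc h0 (BM.tor t ht)
  rwa [pt_congr (a := BM.tor t ht) (b := 1) rfl rfl, pt_congr (a := _ * a) (b := b) (by simpa [BM.tor])
    (by simpa [BM.tor])] at this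

theorem Ty.scale {y s : F} (h0 : y ≠ 0) (h : Ty c y) (hs : σ s = s) (hs0 : s ≠ 0) : Ty c (s * y) := fun a ha => by
  obtain ⟨t, rfl⟩ := exists_norm_eq hs
  have ht := left_ne_zero_of_mul hs0
  have ht' := right_ne_zero_of_mul hs0
  have e : ((BM.tor t ht)⁻¹ * a).y = y := by simp [BM.tor, ha]; field_simp
  exact (h _ e).tor hc (e ▸ h0) ht (by simp [BM.tor]; field_simp) (by rw [e, ha])

include hs

theorem symm_pt (a : BM F q) : c oo (pt a) * c (pt a) oo = 1 := by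
  obtain ⟨β, e⟩ := hc (bi a)
  have e1 := e _ _ (pt_ne 1)
  have e2 := e _ _ (pt_ne 1).symm
  rw [bi_oo, bi_pt, mul_one] at e1 e2
  rw [e1, e2, eq_inv_of_mul_eq_one_right hs]; group

theorem symm_all {x y : IP F q} (h : x ≠ y) : c y x = (c x y)⁻¹ := by
  obtain ⟨g, rfl⟩ := QuotientGroup.mk_surjective x
  rw [← smul_oo] at h ⊢
  obtain ⟨a, ha⟩ := (ip_cases (g⁻¹ • y)).resolve_left fun e => h (by rw [← e, smul_inv_smul])
  obtain rfl := inv_smul_eq_iff.1 ha
  obtain ⟨β, e⟩ := hc g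
  rw [e _ _ (pt_ne a), e _ _ (pt_ne a).symm, eq_inv_of_mul_eq_one_right (symm_pt hc hs a)]; group

theorem G3.w0 {a b z : BM F q} (h : a.y * b.y = 1) (h' : a.y * b.x = -a.x) {x : IP F q} (hx : oo ≠ pt z)
    (h1 : w0 F q • pt z = x) (h2 : pt z ≠ pt a) (H : G3 c oo (pt z) (pt a)) : G3 c x (pt 1) (pt b) := by
  have := H.smul hc hx h2 (pt_ne a) (H77.w0 F q)
  rw [w0_oo, w0_pt h h', h1] at this
  rw [G3, ← this, symm_all hc hs (x := x) (y := pt 1) (by
    rw [← h1, ← w0_oo]; exact fun e => hx (smul_left_cancel _ e).symm)]; group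

theorem exists_inv {a : BM F q} (h : a.y ≠ 0) : ∃ b : BM F q, b.y * a.y = 1 ∧ b.y * a.x = -b.x := by
  have h' := cj_ne_zero (q := q).2 h
  refine ⟨⟨1, -(a.x / a.y), a.y⁻¹, one_ne_zero, ?_⟩, by simp [h], by simp [div_eq_inv_mul]⟩
  simp only [map_neg, map_div₀, map_inv₀]; field_simp; linear_combination a.h

theorem Ty.inv {y : F} (h0 : y ≠ 0) (h : Ty c y) : Ty c y⁻¹ := fun a ha => by
  obtain ⟨b, h1, h2⟩ := exists_inv hc hs (a := a) (ha ▸ inv_ne_zero h0)
  have e : b.y = y := by rw [eq_inv_of_mul_eq_one_left h1, ha, inv_inv]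
  exact G3.w0 hc hs h1 h2 (pt_ne 1) w0_pt_one (pt_ne_one (e ▸ h0)) (h b e)

theorem Ty.step {y s : F} (h0 : y ≠ 0) (hs0 : s ≠ 0) (hy : y ≠ s) (hs' : σ s = -s) (h1 : Ty c s) (h2 : Ty c (y - s))
    (h3 : Ty c (y⁻¹ - s⁻¹)) : Ty c y := fun a ha => by
  let p : BM F q := ⟨1, 0, s, one_ne_zero, by simp [hs']⟩
  obtain ⟨p', e1, e2⟩ := exists_inv hc hs (a := p) hs0
  obtain ⟨a', e3, e4⟩ := exists_inv hc hs (a := a) (ha ▸ h0)
  have e5 : p'.x = 0 := by simpa [p] using e2.symm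
  have e6 : (p⁻¹ * a).y = y - s := by simp [p, hs', ha]; ring
  have e7 : (p'⁻¹ * a').y = p'.t⁻¹ * σ p'.t⁻¹ * (y⁻¹ - s⁻¹) := by
    have := p'.ht; have := p'.ht'
    have e8 := p'.h
    rw [e5, zero_mul, add_zero] at e8
    simp only [BM.mul_y, BM.inv_y, BM.inv_t, BM.inv_x, e5, mul_zero, neg_zero, map_zero, zero_mul, sub_zero,
      eq_neg_of_add_eq_zero_right e8, eq_inv_of_mul_eq_one_left e1, eq_inv_of_mul_eq_one_left e3, ha, p, map_inv₀, hs']
    field_simp; ring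
  have n1 : y⁻¹ - s⁻¹ ≠ 0 := sub_ne_zero.2 fun e => hy (inv_injective e)
  have n2 : p'.t⁻¹ * σ p'.t⁻¹ ≠ 0 := by simp [p'.ht, p'.ht']
  have k1 := h1 p rfl
  have k2 := (h2 _ e6).mul hc (e6 ▸ sub_ne_zero.2 hy) p
  have k3 := (h3.scale hc n1 (cj_norm _) n2 _ e7).mul hc (e7 ▸ mul_ne_zero n2 n1) p'
  rw [mul_inv_cancel_left] at k2 k3
  have k4 := G3.w0 hc hs e3 e4 (pt_ne p') (w0_pt e1 e2) (by rw [Ne, pt_eq, e7]; exact mul_ne_zero n2 n1) k3
  rw [G3, ← k2, ← k1, ← k4, symm_all hc hs (pt_ne_one (a := p) hs0)]; group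

theorem Ty.all {d ζ : F} (hd0 : d ≠ 0) (hd : σ d = -d) (h0 : ζ ≠ 0) (hζ : ∀ t, t ≠ 0 → ∃ k : ℕ, ζ ^ k = t)
    (h1 : Ty c d) (h2 : Ty c (d * ζ)) {y : F} (hy : y ≠ 0) : Ty c y := by
  have hz : ζ - σ ζ ≠ 0 := fun e => by
    obtain ⟨a, ha⟩ := exists_cj_ne F q
    obtain ⟨k, rfl⟩ := hζ a (by rintro rfl; simp at ha)
    exact ha (by rw [map_pow, ← sub_eq_zero.1 e])
  have sk : ∀ s, s ≠ 0 → σ s = -s → Ty c s := fun s h h' => by
    simpa [hd0] using h1.scale hc hd0 (s := s / d) (by rw [map_div₀, h', hd, neg_div_neg_eq]) (div_ne_zero h hd0)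
  obtain ⟨k, hk⟩ := hζ (y / d) (div_ne_zero hy hd0)
  obtain rfl : y = d * ζ ^ k := by rw [hk, mul_div_cancel₀ _ hd0]
  clear hk hy
  induction k with
  | zero => simpa using h1
  | succ k ih =>
    have n0 := pow_ne_zero k h0
    have n1 : d * ζ ^ (k + 1) ≠ 0 := mul_ne_zero hd0 (pow_ne_zero _ h0)
    obtain ⟨a, ha⟩ : ∃ a, a = (ζ ^ (k + 1) - σ (ζ ^ (k + 1))) / (ζ - σ ζ) := ⟨_, rfl⟩
    have a1 : σ a = a := by rw [ha, map_div₀, map_sub, map_sub, cj_cj, cj_cj, ← neg_div_neg_eq]; simp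
    have a2 : σ (d * ζ ^ (k + 1) - a * (d * ζ)) = -(d * ζ ^ (k + 1) - a * (d * ζ)) := by
      rw [eq_div_iff hz] at ha
      rw [map_sub, map_mul, map_mul, map_mul, a1, hd]; linear_combination -d * ha
    by_cases a3 : a = 0
    · exact sk _ n1 (by simpa [a3] using a2)
    have k1 := h2.scale hc (mul_ne_zero hd0 h0) a1 a3
    obtain ⟨s, e⟩ : ∃ s, s = d * ζ ^ (k + 1) - a * (d * ζ) := ⟨_, rfl⟩
    rw [← e] at a2
    by_cases a4 : s = 0
    · rwa [sub_eq_zero.1 (e.symm.trans a4)]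
    refine Ty.step hc hs n1 a4 (fun h => ?_) a2 (sk s a4 a2) (by rwa [e, sub_sub_cancel]) ?_
    · rw [← sub_eq_zero, e, sub_sub_cancel] at h
      simp [a3, hd0, h0] at h
    have := (ih.inv hc hs (mul_ne_zero hd0 n0)).scale hc (inv_ne_zero (mul_ne_zero hd0 n0)) (s := -(a * d / s))
      (by rw [map_neg, map_div₀, map_mul, a1, a2, hd, mul_neg, neg_div_neg_eq]) (by simp [a3, hd0, a4])
    convert this using 1
    field_simp
    rw [e]; ring

end good

theorem pres_sw (hq : q ≠ 2) : Pr (SUW F q) 3 (if q = 3 then 18 else 20) := by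
  obtain ⟨ζ, h0, hζ⟩ := exists_prim F
  obtain ⟨d, hd0, hd⟩ := exists_skew F q
  obtain ⟨x0, hx0⟩ := exists_norm_eq (F := F) (q := q) (t := -(d * ζ + σ (d * ζ))) (by rw [map_neg, cj_trace])
  have h0' := cj_ne_zero (q := q).2 h0
  have hk : ∀ i : ℕ, (ζ / σ ζ) ^ i * σ ((ζ / σ ζ) ^ i) = 1 := fun i => by
    rw [map_pow, ← mul_pow, map_div₀, cj_cj, div_mul_div_cancel₀ h0', div_self h0, one_pow]
  let b : ℕ → BM F q := fun i => ⟨1, (ζ / σ ζ) ^ i * x0, d * ζ, one_ne_zero, by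
    rw [map_mul σ _ x0]; linear_combination hx0 + x0 * σ x0 * hk i⟩
  let p : BM F q := ⟨1, 0, d, one_ne_zero, by simp [hd]⟩
  have P := (((T3 F q).pk_symm (pt_ne 1) (pt_ne 1).symm).and ((T3 F q).pk_tri (pt_ne 1)
    (pt_ne_one (a := p) hd0) (pt_ne p))).and (Pk.list (r := 1) (List.range (if q = 3 then 1 else 3)) fun i _ =>
      (T3 F q).pk_tri (pt_ne 1) (pt_ne_one (a := b i) (mul_ne_zero hd0 h0)) (pt_ne (b i)))
  have e : (T3 F q).j (.of ()) • (T3 F q).v = pt 1 := by simpa [T3] using w0_oo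
  refine (((T3 F q).hp (BM.hp hq h0 hζ) rfl (fun g => ?_) (e ▸ pt_ne 1) (a := BM.tor ζ h0) ?_ ?_
    (P.imp fun J _ f hf hc => ?_)).pr (by simp)).mono (by split_ifs <;> simp)
  · by_cases h : (T3 F q).v = g • (T3 F q).v
    exacts [h ▸ .refl, .single h]
  · rw [e]; exact (bi_pt _ _).trans (pt_congr (by simp [BM.tor]) (by simp [BM.tor]))
  · rw [e]
    intro a ha
    obtain ⟨k, hk⟩ := hζ _ a.ht
    have : a.y = 0 := by simpa using pt_eq.1 ((bi_pt _ _).symm.trans ha).symm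
    exact ⟨k, by rw [BM.tor_pow]; exact BM.ext hk (BM.x_eq this).symm this.symm⟩
  have hc := TC.c_smul hc
  obtain ⟨⟨hs, h1⟩, h2⟩ := hf
  have := fun y => Ty.all hc hs hd0 hd h0 hζ (fun a ha => by
    rwa [pt_congr (b := p) (by simpa [ha, hd, cj_eq_zero] using a.h) ha]) (y := y) fun a ha => by
      by_cases hx : x0 = 0
      · have := h2 0 (by split_ifs <;> simp)
        have k : a.x * σ a.x = 0 := by rw [hx, zero_mul] at hx0; linear_combination a.h - hx0 - ha - congrArg σ ha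
        rwa [pt_congr (b := b 0) (by simpa [b, hx, cj_eq_zero] using k) ha]
      have hx' := cj_ne_zero (q := q).2 hx
      obtain ⟨u, u0, hu⟩ := exists_div_cj_eq (q := q) (t := a.x / x0) (by
        rw [map_div₀]; field_simp; linear_combination a.h - hx0 - ha - congrArg σ ha)
      obtain ⟨k, rfl⟩ := hζ u u0
      rw [map_pow, ← div_pow, eq_div_iff hx] at hu
      obtain ⟨m, i, hi, e⟩ : ∃ m, ∃ i < (if q = 3 then 1 else 3), (ζ / σ ζ) ^ k = ((ζ / σ ζ) ^ m) ^ 3 * (ζ / σ ζ) ^ i := by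
        split_ifs with h3
        · refine ⟨3 * k, 0, one_pos, ?_⟩
          have := hk k
          rw [mul_cj_eq_pow, show q + 1 = 4 by omega] at this
          rw [mul_comm, pow_mul]
          linear_combination -((ζ / σ ζ) ^ k + ((ζ / σ ζ) ^ k) ^ 5) * this
        · exact ⟨k / 3, k % 3, Nat.mod_lt _ (by omega), by rw [← pow_mul, ← pow_add, Nat.div_add_mod']⟩
      have n := hk m
      refine G3.tor hc (a := b i) (mul_ne_zero hd0 h0) (h2 i (List.mem_range.2 hi)) (right_ne_zero_of_mul_eq_one n)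
        ?_ (by rw [cj_cj, mul_comm (σ _), n, one_mul, ha])
      rw [cj_cj, ← hu, e, eq_inv_of_mul_eq_one_right n, div_inv_eq_mul]; ring
  classical
  refine ⟨fun x => if x = oo then 1 else (T3 F q).cf f oo x, fun x y h => ?_⟩
  rcases ip_cases x with rfl | ⟨a, rfl⟩
  · simp [show y ≠ oo from h.symm]
  rcases ip_cases y with rfl | ⟨a', rfl⟩
  · simpa [(pt_ne a).symm, TC.cf] using (symm_pt hc hs a).symm
  simpa [(pt_ne _).symm, TC.cf] using ((this _ (mt pt_eq.2 h) _ rfl).mul hc (mt pt_eq.2 h) a).symm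

theorem pres_su3 (hq : q ≠ 2) : Pr (SU 3 F q) 3 (if q = 3 then 18 else 20) :=
  (pres_sw hq).congr sw_equiv.some

theorem pr_psu {n d r : ℕ} (hn : 2 ≤ n) (h : Pr (SU n F q) d r) : Pr (PSU n F q) d (r + 1) := by
  have k := fun g : Subgroup.center (SU n F q) => (mem_center_SU_iff hn g.1).1 g.2
  choose c hc using k
  have e : ∀ g, c g = sm g.1 ⟨0, by omega⟩ ⟨0, by omega⟩ := fun g => by simp [hc]
  have := isCyclic_of_injective_ringHom (R := F) ⟨⟨c, by simp [e, sm_one]⟩, fun a b => by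
    change c (a * b) = c a * c b
    rw [e, Subgroup.coe_mul, sm_mul, hc, hc]; simp [mul_comm]⟩ fun a b (h : c a = c b) =>
      Subtype.ext (sm_injective (by rw [hc, hc, h]))
  exact h.quot_cyclic _

end Cfsg.Agent.H77
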