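import Cfsg.Agent.H77.PGen
import Cfsg.Agent.H10.SU2

/-! A short presentation of the Borel subgroup of `SU₃(q)`. -/

set_option autoImplicit false
set_option linter.unusedSectionVars false

namespace Cfsg.Agent.H77

open Function H3 H10

/-- The model of the Borel subgroup. -/
@[ext] structure BM (F : Type*) [Field F] [Fintype F] (q : ℕ) [Fact (Fintype.card F = q ^ 2)] where
  t : F
  x : F
  y : F
  ht : t ≠ 0
  h : y + cj F q y + x * cj F q x = 0

namespace BM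

variable {F : Type*} [Field F] [Fintype F] {q : ℕ} [hF : Fact (Fintype.card F = q ^ 2)]

local notation "σ" => cj F q

theorem ht' (a : BM F q) : σ a.t ≠ 0 := cj_ne_zero.2 a.ht

instance : Mul (BM F q) := ⟨fun a b => ⟨a.t * b.t, a.x + σ a.t ^ 2 / a.t * b.x,
  a.y + a.t * σ a.t * b.y - σ a.x * (σ a.t ^ 2 / a.t * b.x), mul_ne_zero a.ht b.ht, by
    have := a.ht
    have := a.ht'
    simp only [map_add, map_mul, map_sub, map_div₀, map_pow, cj_cj]
    linear_combination (exp := 1) a.h + a.t * σ a.t * b.h + (b.x * σ b.x) * (by field_simp :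
      σ a.t ^ 2 / a.t * (a.t ^ 2 / σ a.t) = a.t * σ a.t)⟩⟩

instance : One (BM F q) := ⟨⟨1, 0, 0, one_ne_zero, by simp⟩⟩

instance : Inv (BM F q) := ⟨fun a => ⟨a.t⁻¹, -(a.t / σ a.t ^ 2 * a.x), σ a.y / (a.t * σ a.t), inv_ne_zero a.ht, by
    have := a.ht
    have := a.ht'
    simp only [map_neg, map_mul, map_div₀, map_pow, cj_cj]
    field_simp
    linear_combination a.h⟩⟩

@[simp] theorem mul_t (a b : BM F q) : (a * b).t = a.t * b.t := rfl
@[simp] theorem mul_x (a b : BM F q) : (a * b).x = a.x + σ a.t ^ 2 / a.t * b.x := rfl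
@[simp] theorem mul_y (a b : BM F q) :
    (a * b).y = a.y + a.t * σ a.t * b.y - σ a.x * (σ a.t ^ 2 / a.t * b.x) := rfl
@[simp] theorem one_t : (1 : BM F q).t = 1 := rfl
@[simp] theorem one_x : (1 : BM F q).x = 0 := rfl
@[simp] theorem one_y : (1 : BM F q).y = 0 := rfl
@[simp] theorem inv_t (a : BM F q) : a⁻¹.t = a.t⁻¹ := rfl
@[simp] theorem inv_x (a : BM F q) : a⁻¹.x = -(a.t / σ a.t ^ 2 * a.x) := rfl
@[simp] theorem inv_y (a : BM F q) : a⁻¹.y = σ a.y / (a.t * σ a.t) := rfl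

instance : Group (BM F q) := Group.ofLeftAxioms
  (fun a b c => by
    have := a.ht; have := a.ht'; have := b.ht; have := b.ht'
    ext <;> simp only [mul_t, mul_x, mul_y, map_add, map_mul, map_div₀, map_pow, cj_cj] <;> field_simp <;> ring)
  (fun a => by ext <;> simp)
  (fun a => by
    have := a.ht; have := a.ht'
    ext <;> simp only [mul_t, mul_x, mul_y, inv_t, inv_x, inv_y, one_t, one_x, one_y, map_neg, map_mul, map_div₀,
      map_pow, map_inv₀, cj_cj] <;> field_simp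
    · ring
    · linear_combination a.h)

/-- Torus elements. -/
def tor (t : F) (ht : t ≠ 0) : BM F q := ⟨t, 0, 0, ht, by simp⟩

theorem tor_pow {t : F} (ht : t ≠ 0) (k : ℕ) : (tor t ht : BM F q) ^ k = tor (t ^ k) (pow_ne_zero k ht) := by
  induction k with
  | zero => ext <;> simp [tor]
  | succ k ih => rw [pow_succ, ih]; ext <;> simp [tor, pow_succ]

theorem pow_t (a : BM F q) (k : ℕ) : (a ^ k).t = a.t ^ k := by
  induction k with
  | zero => simp
  | succ k ih => rw [pow_succ, mul_t, ih, pow_succ]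

/-- The centre of the unipotent radical. -/
def Z : Subgroup (BM F q) where
  carrier := {a | a.t = 1 ∧ a.x = 0}
  mul_mem' := fun ha hb => by simp [ha.1, ha.2, hb.1, hb.2]
  one_mem' := by simp
  inv_mem' := fun ha => by simp [ha.1, ha.2]

theorem mem_Z {a : BM F q} : a ∈ Z ↔ a.t = 1 ∧ a.x = 0 := Iff.rfl

instance : (Z : Subgroup (BM F q)).Normal := ⟨fun a ha g => by
  have := g.ht; have := g.ht'
  simp only [mem_Z, mul_t, mul_x, inv_t, inv_x, ha.1, ha.2, map_mul, map_one]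
  constructor <;> field_simp; ring⟩

/-- Central elements. -/
def xz {δ : F} (hδ : σ δ = -δ) (s : fixedSubfield F q) : BM F q :=
  ⟨1, 0, s * δ, one_ne_zero, by simp [hδ, mem_fixedSubfield.1 s.2]⟩

theorem ad_xz {δ : F} (hδ : σ δ = -δ) : Ad (xz hδ) := fun s t => by ext <;> simp [xz, add_mul]

theorem act_xz {δ : F} (hδ : σ δ = -δ) {t : F} (ht : t ≠ 0) :
    Act (tor t ht) (xz hδ) ⟨t * σ t, cj_norm t⟩ := fun s => by
  ext <;> simp [xz, tor, ht, mul_assoc]

theorem exists_xz {δ : F} (hδ : σ δ = -δ) (h0 : δ ≠ 0) {a : BM F q} (ha : a ∈ Z) : ∃ s, xz hδ s = a := by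
  have := a.h
  rw [ha.2, zero_mul, add_zero] at this
  refine ⟨⟨a.y / δ, mem_fixedSubfield.2 ?_⟩, ?_⟩
  · rw [map_div₀, hδ, eq_neg_of_add_eq_zero_right this, neg_div_neg_eq]
  · ext <;> simp [xz, ha.1, ha.2, h0]

theorem exists_y (x : F) : ∃ y : F, y + σ y + x * σ x = 0 :=
  (exists_trace_eq (q := q) (t := -(x * σ x)) (by rw [map_neg, cj_norm])).imp fun _ h => by rw [h]; ring

/-- A unipotent element with given first coordinate. -/
noncomputable def un (x : F) : BM F q := ⟨1, x, _, one_ne_zero, (exists_y x).choose_spec⟩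

@[simp] theorem un_t (x : F) : (un x : BM F q).t = 1 := rfl
@[simp] theorem un_x (x : F) : (un x : BM F q).x = x := rfl

theorem mk_eq {a b : BM F q} (h1 : a.t = b.t) (h2 : a.x = b.x) : (a : BM F q ⧸ Z) = b := by
  have := b.ht; have := b.ht'
  simp only [QuotientGroup.eq, mem_Z, mul_t, mul_x, inv_t, inv_x, h1, h2, map_inv₀]
  constructor <;> field_simp; ring

theorem ad_un : Ad fun x => ((un x : BM F q) : BM F q ⧸ Z) := fun s t =>
  mk_eq (b := un s * un t) (by simp) (by simp)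

theorem act_un {t : F} (ht : t ≠ 0) :
    Act ((tor t ht : BM F q) : BM F q ⧸ Z) (fun x => ((un x : BM F q) : BM F q ⧸ Z)) (σ t ^ 2 / t) :=
  fun s => mk_eq (a := tor t ht * un s * (tor t ht)⁻¹) (by simp [tor, ht]) (by simp [tor])

theorem cjp_un {t : F} (ht : t ≠ 0) (i : ℕ) : (cjp (tor t ht) (un 1 : BM F q) i).t = 1 ∧
    (cjp (tor t ht) (un 1 : BM F q) i).x = (σ t ^ 2 / t) ^ i := by
  rw [cjp, tor_pow]
  simp [tor, ht, div_pow, ← pow_mul, mul_comm]

/-- First coordinates of unipotent elements of a subgroup. -/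
def xs (Q : Subgroup (BM F q)) : AddSubgroup F where
  carrier := {a | ∃ p ∈ Q, p.t = 1 ∧ p.x = a}
  add_mem' := fun ⟨p, h, h1, h2⟩ ⟨p', h', h1', h2'⟩ => ⟨_, mul_mem h h', by simp [h1, h1', h2, h2']⟩
  zero_mem' := ⟨1, one_mem _, rfl, rfl⟩
  neg_mem' := fun ⟨p, h, h1, h2⟩ => ⟨_, inv_mem h, by simp [h1, h2]⟩

theorem mem_of_xs {Q : Subgroup (BM F q)} (hZ : Z ≤ Q) {p : BM F q} (h : p.t = 1) (h' : p.x ∈ xs Q) : p ∈ Q := by
  obtain ⟨p', k, k1, k2⟩ := h'
  simpa using mul_mem k (hZ (QuotientGroup.eq.1 (mk_eq (k1.trans h.symm) k2)))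

theorem xs_conj {Q : Subgroup (BM F q)} {t : F} (ht : t ≠ 0) (h : ∀ p ∈ Q, tor t ht * p * (tor t ht)⁻¹ ∈ Q) :
    ∀ a ∈ xs Q, σ t ^ 2 / t * a ∈ xs Q := fun _ ⟨p, k, k1, k2⟩ => ⟨_, h p k, by simp [tor, k1, k2, ht]⟩

section prim

variable {ζ : F} (h0 : ζ ≠ 0) (hζ : ∀ t, t ≠ 0 → ∃ k : ℕ, ζ ^ k = t)
include h0 hζ

omit hF in
theorem order_prim : orderOf ζ = Fintype.card F - 1 := by
  classical
  rw [← Fintype.card_units, ← Nat.card_eq_fintype_card, ← orderOf_eq_card_of_forall_mem_powers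
    (g := Units.mk0 ζ h0) fun a => (hζ a a.ne_zero).imp fun _ h => Units.ext (by simpa using h), ← orderOf_units]
  rfl

omit hζ in
theorem l_pow : (σ ζ ^ 2 / ζ) ^ (2 * q + 1) = ζ ^ 3 := by
  have h1 : σ ζ ^ q = ζ := cj_cj ζ
  have h2 : ζ ^ q = σ ζ := rfl
  have := cj_ne_zero (q := q).2 h0
  rw [pow_succ, mul_comm 2, pow_mul, div_pow, ← pow_mul, mul_comm 2, pow_mul, h1, h2]
  field_simp

theorem order_l (k : ℕ) : q ^ 2 - 1 ∣ 3 * (k * orderOf ((σ ζ ^ 2 / ζ) ^ k)) := by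
  rw [← hF.out, ← order_prim h0 hζ, orderOf_dvd_iff_pow_eq_one, pow_mul, ← l_pow (q := q) h0, ← pow_mul, mul_comm,
    pow_mul, pow_mul, pow_orderOf_eq_one, one_pow]

omit hζ in
theorem l_ne : σ ζ ^ 2 / ζ ≠ 0 := div_ne_zero (pow_ne_zero _ (cj_ne_zero.2 h0)) h0

theorem order_k : q + 1 ≤ 3 * orderOf ((σ ζ ^ 2 / ζ) ^ (q - 1)) := by
  have h1 := order_l (q := q) h0 hζ (q - 1)
  have h2 := two_le_q F q
  rw [← one_pow 2, Nat.sq_sub_sq, one_pow, mul_left_comm, mul_comm (q + 1)] at h1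
  exact Nat.le_of_dvd (by have := order_pos (pow_ne_zero (q - 1) (l_ne (q := q) h0)); omega)
    (Nat.dvd_of_mul_dvd_mul_left (by omega) h1)

theorem gn_l (hq : q ≠ 2) : Gn (σ ζ ^ 2 / ζ) := fun S h1 h2 t => by
  have h3 := Nat.le_of_dvd (by have := order_pos (l_ne (q := q) h0); simpa) (order_l (q := q) h0 hζ 1)
  have h4 := two_le_q F q
  rw [pow_one, one_mul] at h3
  simpa using pow_mem_of_card S h2 (r := 1) (l := t) (by
    rw [Nat.card_eq_fintype_card, hF.out]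
    refine Nat.pow_lt_pow_left ?_ two_ne_zero
    by_contra h
    have : 3 * q ≤ q ^ 2 := by rw [sq]; exact Nat.mul_le_mul_right q (by omega)
    omega) (by simpa using h1)

theorem cj_l (hq : q ≠ 2) : σ (σ ζ ^ 2 / ζ) - σ ζ ^ 2 / ζ ≠ 0 := fun h => by
  have h1 := order_k (q := q) h0 hζ
  have h2 := two_le_q F q
  rw [(pow_pred_eq_one_iff (l_ne h0)).2 (sub_eq_zero.1 h), orderOf_one] at h1
  omega

end prim

theorem hp (hq : q ≠ 2) {ζ : F} (h0 : ζ ≠ 0) (hζ : ∀ t, t ≠ 0 → ∃ k : ℕ, ζ ^ k = t) :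
    HP ![un 1, (tor ζ h0 : BM F q)] 14 := by
  have hδ0 := cj_l h0 hζ hq
  have hl := gn_l h0 hζ hq
  have hk := order_k (q := q) h0 hζ
  have hl3 := l_pow (q := q) h0
  have hc := cjp_un (q := q) h0
  have ha := act_un (q := q) h0
  have hx := fun Q => xs_conj (Q := Q) (q := q) (pow_ne_zero (q - 1) h0)
  have hx1 := fun Q => xs_conj (Q := Q) (q := q) h0
  rw [map_pow, ← pow_mul, mul_comm, pow_mul, ← div_pow] at hx
  generalize σ ζ ^ 2 / ζ = l at *
  have hδ : σ (σ l - l) = -(σ l - l) := by simp [cj_cj]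
  set lam : fixedSubfield F q := ⟨ζ * σ ζ, cj_norm ζ⟩
  have hlam : ∀ s, s ≠ 0 → ∃ k : ℕ, lam ^ k = s := fun s hs => by
    obtain ⟨a, e⟩ := exists_norm_eq (mem_fixedSubfield.1 s.2)
    obtain ⟨k, rfl⟩ := hζ a (by rintro rfl; exact hs (Subtype.ext (by simpa using e.symm)))
    exact ⟨k, Subtype.ext (by simp [lam, ← e, mul_pow])⟩
  have he : lam ^ (q - 1) = 1 := Subtype.ext ((pow_pred_eq_one_iff (mul_ne_zero h0 (cj_ne_zero.2 h0))).2 (cj_norm ζ))
  obtain ⟨j, hj⟩ : ∃ j, l ^ j = (1 + l) ^ 3 := by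
    obtain ⟨j, hj⟩ := hζ (1 + l) fun h => hδ0 (by simp [eq_neg_of_add_eq_zero_right h])
    exact ⟨(2 * q + 1) * j, by rw [pow_mul, hl3, ← pow_mul, mul_comm, pow_mul, hj]⟩
  let ψ := FreeGroup.lift ![un 1, (tor ζ h0 : BM F q)]
  set U : FreeGroup (Fin 2) := .of 0
  set D : FreeGroup (Fin 2) := .of 1
  have hu : ψ U = un 1 := by simp [ψ, U]
  have hd : ψ D = tor ζ h0 := by simp [ψ, D]
  set z := U * cjp D U 1 * U⁻¹ * (cjp D U 1)⁻¹ with hz'
  have hz : ψ z = xz hδ 1 := by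
    simp only [z, map_mul, map_inv, map_cjp, hu, hd]
    rw [mul_inv_eq_iff_eq_mul, mul_inv_eq_iff_eq_mul]
    ext <;> simp [xz, (hc 1).1, (hc 1).2] <;> ring
  have hdz : Act (ψ D) (xz hδ) lam := hd ▸ act_xz hδ h0
  have hZ : ∀ Q : Subgroup (BM F q), (∀ j, ψ (cjp D z j) ∈ Q) → Z ≤ Q := fun Q hQ a ha => by
    obtain ⟨s, rfl⟩ := exists_xz hδ hδ0 ha
    by_cases hs : s = 0
    · rw [hs, (ad_xz hδ).zero]; exact one_mem _
    obtain ⟨k, rfl⟩ := hlam s hs
    simpa only [map_cjp, hz, cjp_x hdz] using hQ k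
  have hs : Surjective ψ := fun p => by
    have k : tor ζ h0 ∈ ψ.range := ⟨D, hd⟩
    obtain ⟨i, hi⟩ := hζ _ p.ht
    have := mem_of_xs (hZ ψ.range fun _ => ⟨_, rfl⟩) (p := p * (tor ζ h0 ^ i)⁻¹) (by simp [pow_t, tor, hi, p.ht])
      (hl (xs ψ.range) ⟨_, ⟨U, hu⟩, rfl, rfl⟩ (hx1 _ fun p hp => mul_mem (mul_mem k hp) (inv_mem k)) _)
    simpa using mul_mem this (pow_mem k i)
  let M := Subgroup.closure ({g | ∃ i < 3, ∃ j, cjp D U ((q - 1) * j + i) = g} ∪ Set.range (cjp D z))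
  have hM : ψ (cjp D U 3) ∈ M.map ψ := by
    refine mem_of_xs (hZ (M.map ψ) fun j => ⟨_, Subgroup.subset_closure (Or.inr ⟨j, rfl⟩), rfl⟩)
      (by rw [map_cjp, hu, hd, (hc 3).1]) ?_
    rw [map_cjp, hu, hd, (hc 3).2]
    refine pow_mem_of_card _ (hx _ ?_) ?_ fun i hi => ⟨_, ⟨_, Subgroup.subset_closure (Or.inl ⟨i, hi, 0, rfl⟩), rfl⟩,
      by simpa only [map_cjp, hu, hd, mul_zero, zero_add] using hc i⟩
    · rintro _ ⟨w, hw, rfl⟩
      refine ⟨D ^ (q - 1) * w * (D ^ (q - 1))⁻¹, (show M ≤ M.comap (MulAut.conj (D ^ (q - 1))).toMonoidHom from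
        (Subgroup.closure_le _).2 ?_) hw, by simp [hd, tor_pow]⟩
      rintro _ (⟨i, hi, j, rfl⟩ | ⟨j, rfl⟩) <;> refine Subgroup.subset_closure ?_
      · exact Or.inl ⟨i, hi, 1 + j, by rw [mul_add, mul_one, add_assoc, ← conj_cjp]; rfl⟩
      · exact Or.inr ⟨_, (conj_cjp _ _ _ _).symm⟩
    · rw [Nat.card_eq_fintype_card, hF.out, show 3 + 1 = 2 * 2 from rfl, pow_mul]
      refine Nat.pow_lt_pow_left ?_ two_ne_zero
      generalize orderOf (l ^ (q - 1)) = m at hk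
      nlinarith [Nat.le_mul_self m]
  have P := (((((Pk.eq (ψ := ψ) (D ^ orderOf ζ) 1 (by
      rw [map_pow, hd, tor_pow, map_one]; ext <;> simp [tor, pow_orderOf_eq_one])).and
    (Pk.mod1 (ad_xz hδ) hz hdz hlam)).and (Pk.list (r := 1) (List.range 3) fun i _ => Pk.comm (cjp D U i) z (by
      rw [hz, map_cjp, hu, hd]; ext <;> simp [xz, (hc i).1, add_comm (BM.y _)]))).and (Pk.mem _ M hM)).and
    (Pk.quot (ψ' := (QuotientGroup.mk' Z).comp ψ) (Subgroup.closure (Set.range (cjp D z)))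
      (fun w hw => hZ (Subgroup.map ψ _) (fun j => Subgroup.mem_map_of_mem _ (Subgroup.subset_closure
        (Set.mem_range_self j))) ((QuotientGroup.eq_one_iff _).1 hw))
      (Pk.mod3 (u := U) (d := D) ad_un (by simp [hu]) (by simpa [hd] using ha) hl hj)))
  have := HP.free.pk hs (P.imp fun J _ f hf θ hs hθ => ?_)
  · simpa [ψ] using this
  obtain ⟨⟨⟨⟨h1, y, hy, y1, yd⟩, h3⟩, h4⟩, h5⟩ := hf
  have hθ' : ∀ g, θ (f g) = ψ g := fun g => DFunLike.congr_fun hθ g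
  rw [map_pow, map_one] at h1
  have hyc : ∀ j, f (cjp D z j) = y (lam ^ j) := fun j => by rw [map_cjp, ← y1, cjp_x yd]
  have hcm := comm_all (u := f U) hy yd hlam he (order_pos h0) h1 (fun i hi => by
    simpa only [map_cjp, y1] using h3 i (List.mem_range.2 hi)) (by
      rw [← map_cjp]
      refine (show M.map f ≤ _ from Subgroup.map_le_iff_le_comap.2 ((Subgroup.closure_le _).2 ?_)) h4
      rintro _ (⟨i, hi, j, rfl⟩ | ⟨j, rfl⟩) <;> refine Subgroup.subset_closure ?_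
      exacts [Or.inl ⟨i, hi, j, (map_cjp _ _ _ _).symm⟩, Or.inr ⟨_, (hyc j).symm⟩])
  have hJ : Subgroup.closure {f U, f D} = ⊤ := by
    have : f = FreeGroup.lift fun i => f (.of i) := by ext; simp
    rw [this, surj_lift_iff] at hs
    rw [← hs]; congr 1; ext g; simp [Fin.exists_fin_succ, eq_comm, U, D]
  let N : Subgroup J := (MonoidHom.mk' (fun s : Multiplicative _ => y s.toAdd) fun s t => hy _ _).range
  have hN : N.Normal := by
    rw [← Subgroup.normalizer_eq_top_iff, eq_top_iff, ← hJ, Subgroup.closure_le]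
    have : Finite N := Finite.Set.finite_range _
    rintro _ (rfl | rfl) <;> refine Subgroup.mem_normalizer_fintype ?_ <;> rintro _ ⟨s, rfl⟩
    · exact ⟨s, by simp [(hcm _).eq]⟩
    · exact ⟨.ofAdd _, (yd _).symm⟩
  have hθy := (gn_of_prim hlam).map_eq hy (ad_xz hδ) θ yd (by rw [hθ']; exact hdz) (by rw [y1, hθ', hz])
  obtain ⟨v, hv, v1, vd⟩ := h5 _ (QuotientGroup.mk' N) (fun n hn => (QuotientGroup.eq_one_iff _).2 ((show
      Subgroup.closure _ ≤ N.comap f from (Subgroup.closure_le _).2 (by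
        rintro _ ⟨j, rfl⟩; exact ⟨.ofAdd _, (hyc j).symm⟩)) hn)) (by
    have : QuotientGroup.mk' N (f z) = 1 := (QuotientGroup.eq_one_iff _).2 ⟨.ofAdd 1, y1⟩
    simp only [hz', map_mul, map_inv, mul_inv_eq_iff_eq_mul, one_mul] at this
    exact this)
  let θ' := QuotientGroup.map N Z θ (by
    rintro _ ⟨s, rfl⟩; exact mem_Z.2 ⟨congrArg BM.t (hθy _), congrArg BM.x (hθy _)⟩)
  have e1 : θ' ((QuotientGroup.mk' N).comp f D) = (tor ζ h0 : BM F q) := by simp [θ', hθ', hd]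
  have hθv := hl.map_eq hv ad_un θ' vd (by rw [e1]; exact ha) (by simp [v1, θ', hθ', hu])
  refine (injective_iff_map_eq_one _).2 fun g hg => ?_
  obtain ⟨s, i, e⟩ := B2_nf hv vd (order_pos h0) (by
    rw [MonoidHom.comp_apply, ← map_pow, h1, map_one]) (QuotientGroup.mk' N g) ((show
    Subgroup.closure {f U, f D} ≤ (B2 v _).comap (QuotientGroup.mk' N) from (Subgroup.closure_le _).2 (by
      rintro _ (rfl | rfl)
      exacts [(v1 ▸ x_mem_B2 v _ 1 : (QuotientGroup.mk' N).comp f U ∈ _), h_mem_B2 v _])) (hJ.ge trivial))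
  have e2 := congrArg θ' e
  rw [map_mul, map_pow, hθv, e1, show θ' _ = 1 by simp [θ', hg], ← QuotientGroup.mk_pow, ← QuotientGroup.mk_mul,
    eq_comm, QuotientGroup.eq_one_iff, tor_pow] at e2
  obtain ⟨k, rfl⟩ := orderOf_dvd_of_pow_eq_one (show ζ ^ i = 1 by simpa [tor] using e2.1)
  obtain rfl : s = 0 := by simpa [tor] using e2.2
  rw [hv.zero, one_mul, MonoidHom.comp_apply, ← map_pow, pow_mul, h1, one_pow, map_one] at e
  obtain ⟨s, rfl⟩ := (QuotientGroup.eq_one_iff _).1 e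
  have := congrArg BM.y ((hθy _).symm.trans hg)
  obtain rfl : s = 1 := by simpa [xz, hδ0] using this
  exact map_one _

end BM

end Cfsg.Agent.H77
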