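import Cfsg.Agent.H77.PU3
import Cfsg.Agent.H77.UPhan
import Cfsg.Agent.H3.PresWr
import Cfsg.Agent.H3.TG1

/-! From `SU₃(q)` to `SU₄(q)` by few relations. -/

set_option autoImplicit false
set_option linter.unusedSectionVars false

namespace Cfsg.Agent.H77

open Function H3 H10 Matrix Monoid

universe v

section general

variable {G G' A : Type*} [Group G] [Group G'] [Group A] {Γ Γ' : Type v} [Group Γ] [Group Γ'] {ψ : Γ →* G} {r : ℕ}

theorem Pk.comp {ψ' : Γ' →* G'} {P : ∀ (J : Type v) [Group J], (Γ' →* J) → Prop} (h : Pk ψ' r P) (ι : Γ' →* Γ)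
    (e : G' →* G) (he : ψ.comp ι = e.comp ψ') : Pk ψ r fun J _ f => P J (f.comp ι) := by
  obtain ⟨W, h1, h2, h3⟩ := h
  refine ⟨W.map ι, by simpa using h1, ?_, fun J _ f hf => h3 J _ fun w hw => hf _ (List.mem_map_of_mem hw)⟩
  simp only [List.forall_mem_map]
  exact fun w hw => (DFunLike.congr_fun he w).trans (by simp [h2 w hw])

theorem Pk.eq_gens {L : List A} (α β : A →* Γ) (h : ∀ a ∈ L, ψ (α a) = ψ (β a)) :
    Pk ψ L.length fun _ _ f => ∀ a ∈ Subgroup.closure {s | s ∈ L}, f (α a) = f (β a) :=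
  ((Pk.list L fun a ha => Pk.eq (α a) (β a) (h a ha)).imp fun _ _ f hf _ ha =>
    (Subgroup.closure_le (MonoidHom.eqLocus (f.comp α) (f.comp β))).2 hf ha).mono (by simp)

theorem Pk.comm_hom {B : Type*} [Group B] {L : List A} {L' : List B} (α : A →* Γ) (β : B →* Γ)
    (h : ∀ a ∈ L, ∀ b ∈ L', Commute (ψ (α a)) (ψ (β b))) : Pk ψ (L.length * L'.length) fun _ _ f =>
      ∀ a ∈ Subgroup.closure {s | s ∈ L}, ∀ b ∈ Subgroup.closure {s | s ∈ L'}, Commute (f (α a)) (f (β b)) :=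
  ((Pk.comm_gens (L.map α) (L'.map β) (by simpa using h)).imp fun _ _ _ hf _ ha _ hb =>
    hf _ (mem_closure_map α ha) _ (mem_closure_map β hb)).mono (by simp)

theorem inj_of_surj [Finite G] {J : Type*} [Group J] {Φ : G →* J} {θ : J →* G} (h1 : Surjective Φ)
    (h2 : Surjective θ) : Injective θ := fun x y e => by
  obtain ⟨x, rfl⟩ := h1 x
  obtain ⟨y, rfl⟩ := h1 y
  rw [Finite.injective_iff_surjective.2 (h2.comp h1) e]

theorem sl2_two (K : Type*) [Field K] [Finite K] :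
    ∃ a b : SpecialLinearGroup (Fin 2) K, Subgroup.closure {a, b} = ⊤ := by
  obtain ⟨ζ, h0, hζ⟩ := exists_prim K
  have k : ∀ M : Subgroup (SpecialLinearGroup (Fin 2) K), D2 ζ h0 ∈ M → ∀ a ha, D2 a ha ∈ M := fun M h a ha => by
    obtain ⟨i, rfl⟩ := hζ a ha
    exact D2_pow h0 i ▸ pow_mem h i
  by_cases h : ζ ^ 2 = 1
  · have h1 : X2 (1 : K) ∈ Subgroup.closure {X2 1, T2 K} := Subgroup.subset_closure (by simp)
    have h2 : T2 K ∈ Subgroup.closure {X2 1, T2 K} := Subgroup.subset_closure (by simp)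
    refine ⟨_, _, sl2_mem (fun s => gn_sq hζ (ad_X2.pre (Subgroup.closure {X2 1, T2 K})) h1 (by simp [h]) s) (k _ ?_) h2⟩
    rcases sq_eq_one_iff.1 h with rfl | rfl
    · exact (show D2 (1 : K) h0 = 1 from Subtype.ext (by simp [D2_val, one_fin_two])) ▸ one_mem _
    · exact T2_sq (F := K) ▸ mul_mem h2 h2
  have h1 : D2 ζ h0 ∈ Subgroup.closure {D2 ζ h0, X2 1 * T2 K} := Subgroup.subset_closure (by simp)
  obtain ⟨h2, h3⟩ := stein1' ad_X2 (D2_X2 h0) (T2_D2 h0 ▸ Act.inv (D2_X2 h0) (pow_ne_zero 2 h0))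
    (T2_D2 h0 ▸ (Commute.refl _).inv_right) h (gn_sq hζ) (by simpa using h) h1 (Subgroup.subset_closure (by simp))
  exact ⟨_, _, sl2_mem h2 (k _ h1) h3⟩

end general

variable {F : Type*} [Field F] [Fintype F] {q : ℕ} [hF : Fact (Fintype.card F = q ^ 2)] {n : ℕ}

local notation "σ" => cj F q
local notation "𝐡" => hermForm _ F q
local notation "𝐞" i:max => ev F _ i

theorem su2_two : ∃ L : List (SU 2 F q), L.length = 2 ∧ ∀ a, a ∈ Subgroup.closure {s | s ∈ L} := by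
  classical
  obtain ⟨e⟩ := nonempty_SU_two_equiv (F := F) (q := q) (K := fixedSubfield F q)
    (Nat.card_eq_fintype_card.symm.trans card_fixedSubfield)
  obtain ⟨a, b, h⟩ := sl2_two (fixedSubfield F q)
  refine ⟨[e.symm a, e.symm b], rfl, fun g => ?_⟩
  have := Subgroup.mem_map_of_mem e.symm.toMonoidHom (h.ge (Subgroup.mem_top (e g)))
  simpa [MonoidHom.map_closure, Set.image_pair, Set.setOf_or, Set.pair_comm (e.symm b)] using this

theorem map_c2 {H H' : Type*} [Group H] [Group H'] (f : H →* H') (c : (Fin n → F) → (Fin n → F) → H) (x y) :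
    f (c2 q c x y) = c2 q (fun x y => f (c x y)) x y := by
  unfold c2; split_ifs <;> simp

namespace C2

variable {H : Type*} [Group H] {c : (Fin n → F) → (Fin n → F) → H} (S : C2 q c) {x y z : Fin n → F}
include S

theorem tri_scale (hq : q ≠ 2) (h1 : Gd q x y) (h2 : Gd q x z) {l : F} (hl : Nm q l = 1) (h : Tri q c (l • x) y z) :
    Tri q c x y z := by
  obtain ⟨d, hd⟩ := S.scale hq h1.1 hl
  rwa [Tri, hd y h1, hd z h2, mul_assoc, mul_left_cancel_iff] at h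

theorem tri_smul (hc : ∀ g : SU n F q, ∃ β : _ → H, ∀ x y, OU q x y → c (g • x) (g • y) = β x * c x y * (β y)⁻¹)
    (h1 : Gd q x y) (h2 : Gd q y z) (h3 : Gd q x z) (h : Tri q c x y z) (g : SU n F q) :
    Tri q c (g • x) (g • y) (g • z) := by
  obtain ⟨β, e⟩ := hc g
  have k : ∀ {x y}, Gd q x y → c2 q c (g • x) (g • y) = β x * c2 q c x y * (β y)⁻¹ := fun h => by
    obtain ⟨u, a, b⟩ := S.exists_ou h
    rw [S.c2_eq h a b, S.c2_eq (h.smul g) (a.smul g) (b.smul g), e _ _ a, e _ _ b]; group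
  rw [Tri, k h1, k h2, k h3, ← h]; group

end C2

theorem three_cases (h3 : q = 3) {t : F} (ht : σ t = t) (h0 : t ≠ 0) (h1 : t ≠ 1) : t = -1 := by
  rw [cj_apply, h3] at ht
  exact mul_left_cancel₀ h0 (mul_left_cancel₀ (sub_ne_zero.2 h1) (by linear_combination ht))

theorem gd_bad {a l : F} (a1 : Nm q a ≠ 1) (ha : Nm q a = -1) (hl : Nm q l = 1) (h : Nm q a + Nm q a = 1) :
    Gd q (𝐞 0) ![a, a, 1, l * a] ∧ Gd q (𝐞 1) ![a, a, 1, l * a] := by
  have : 𝐡 ![a, a, 1, l * a] ![a, a, 1, l * a] = 1 := by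
    simp only [Nm] at ha hl h
    simp [herm_eq, Fin.sum_univ_four]
    linear_combination h + ha + a * σ a * hl
  exact ⟨⟨e_unit _, this, by simpa [herm_single_right]⟩, e_unit _, this, by simpa [herm_single_right]⟩

theorem tri3 {H : Type*} [Group H] {c : (Fin 4 → F) → (Fin 4 → F) → H} (S : C2 q c) (h3 : q = 3)
    (hc : ∀ g : SU 4 F q, ∃ β : _ → H, ∀ x y, OU q x y → c (g • x) (g • y) = β x * c x y * (β y)⁻¹)
    {a : F} (a0 : a ≠ 0) (a1 : Nm q a ≠ 1)
    (h : ∀ l, Nm q l = 1 → Nm q a + Nm q a = 1 → Tri q c (𝐞 0) (𝐞 1) ![a, a, 1, l * a]) {x y z : Fin 4 → F}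
    (h1 : Gd q x y) (h2 : Gd q y z) (h4 : Gd q x z) : Tri q c x y z := by
  have hq : q ≠ 2 := by omega
  have ha := three_cases h3 (cj_Nm a) (mt Nm_eq_zero.1 a0) a1
  have A : ∀ {x y z}, OU q x y → Gd q y z → Gd q x z → 𝐡 z x = a → 𝐡 z y = a → Tri q c x y z := by
    intro x y z h1 h2 h4 e1 e2
    by_cases e : Nm q a + Nm q a = 1
    swap; · exact S.tri_ou h1 h2 h4 (by rwa [e1, e2])
    obtain ⟨ρ, hρ⟩ : ∃ ρ, ρ = z - a • x - a • y := ⟨_, rfl⟩
    have r1 : 𝐡 ρ x = 0 := by simp [hρ, herm_sub_left, herm_smul_left, e1, h1.1, h1.2.2]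
    have r2 : 𝐡 ρ y = 0 := by simp [hρ, herm_sub_left, herm_smul_left, e2, h1.2.1, h1.symm.2.2]
    have r3 : 𝐡 ρ ρ = 0 := by
      conv_lhs => arg 5; rw [hρ]
      simp only [Nm] at e
      simp [herm_sub_right, herm_smul_right, r1, r2]
      simp [hρ, herm_sub_left, herm_smul_left, herm_swap e1, herm_swap e2, h2.2.1]
      linear_combination -e
    obtain rfl : z = a • x + a • y + ρ := by rw [hρ]; abel
    by_cases r0 : ρ = 0
    · obtain ⟨u, b1, b2⟩ := S.exists_ou h1.gd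
      exact S.nice h1.gd h2 h4 b1.2.1 b1.2.2 b2.symm.2.2 (by
        simp [r0, herm_add_right, herm_smul_right, b1.2.2, b2.symm.2.2])
    have li : ∀ {x y ρ : Fin 4 → F}, OU q x y → 𝐡 ρ x = 0 → 𝐡 ρ y = 0 → ρ ≠ 0 → LinearIndependent F ![x, y, ρ] :=
      fun {x y ρ} h r1 r2 r0 => Fintype.linearIndependent_iff.2 fun g hg => by
        have k1 := congrArg (𝐡 · x) hg
        have k2 := congrArg (𝐡 · y) hg
        simp [Fin.sum_univ_three, herm_add_left, herm_smul_left, r1, r2, h.1, h.2.1, h.2.2, h.symm.2.2,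
          herm_zero_left] at k1 k2
        simp [Fin.sum_univ_three, k1, k2, r0] at hg
        simp [Fin.forall_fin_succ, k1, k2, hg]
    have o : OU q (ev F 4 0) (𝐞 1) := e_ou (by simp)
    have s1 : 𝐡 ![0, 0, 1, a] (ev F 4 0) = 0 := herm_single_right _ _
    have s2 : 𝐡 ![0, 0, 1, a] (ev F 4 1) = 0 := herm_single_right _ _
    obtain ⟨M, m1, m2⟩ := H29.exists_isIsom_family (q := q) (li o s1 s2 (by simp)) (li h1 r1 r2 r0) (by
      have : 𝐡 ![0, 0, 1, a] ![0, 0, 1, a] = 0 := by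
        have ha' : a * σ a = -1 := ha
        simp [herm_eq, Fin.sum_univ_four]; linear_combination ha'
      simp [Fin.forall_fin_succ, h1.1, h1.2.1, h1.2.2, h1.symm.2.2, r1, r2, r3, herm_swap_zero r1, herm_swap_zero r2,
        s1, s2, herm_swap_zero s1, herm_swap_zero s2, this, e_unit, o.2.2, o.symm.2.2])
    have hw : 𝐡 (ev F 4 3) (𝐞 3) ≠ 0 := by simp [e_unit]
    have hl : M.det⁻¹ * σ M.det⁻¹ = 1 := by rw [map_inv₀, ← mul_inv, m1.det_mul_cj, inv_one]
    let g : SU 4 F q := mkSU _ (m1.mul (isIsom_quasi hw hl)) (by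
      rw [det_mul, det_ut, div_mul_cancel₀ _ hw, add_sub_cancel, mul_inv_cancel₀ m1.det_ne_zero])
    have hg : ∀ v, g • v = M *ᵥ (v + ((M.det⁻¹ - 1) * v 3) • 𝐞 3) := fun v => by
      change (M * _) *ᵥ v = _
      rw [← mulVec_mulVec, ut_mulVec, e_unit, herm_single_right, div_one]
    have gd := gd_bad a1 ha m1.det_mul_cj e
    have := S.tri_smul hc o.gd gd.2 gd.1 (h _ m1.det_mul_cj e) g
    rwa [hg, hg, hg, show ![a, a, 1, M.det * a] + _ = a • ev F 4 0 + a • (𝐞 1) + ![0, 0, 1, a] by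
      ext i; fin_cases i <;> simp [mul_assoc, sub_mul, m1.det_ne_zero], show (ev F 4 0) 3 = 0 by simp,
      show (ev F 4 1) 3 = 0 by simp, mul_zero, zero_smul, add_zero, add_zero, mulVec_add, mulVec_add, mulVec_smul,
      mulVec_smul, show M *ᵥ (𝐞 0) = x from m2 0, show M *ᵥ (𝐞 1) = y from m2 1,
      show M *ᵥ ![0, 0, 1, a] = ρ from m2 2] at this
  have B : ∀ {x y z}, OU q x y → Gd q y z → Gd q x z → Tri q c x y z := by
    intro x y z h1 h2 h4
    by_cases e : Nm q (𝐡 z x) + Nm q (𝐡 z y) = 1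
    swap; · exact S.tri_ou h1 h2 h4 e
    have k : ∀ {x}, Gd q x z → Nm q (𝐡 z x) ≠ 0 → ∃ l : F, Nm q l = 1 ∧ 𝐡 z (l • x) = a ∧
        ∀ y, Gd q x y → Gd q (l • x) y := fun {x} h h' => by
      have h0 := mt Nm_eq_zero.2 h'
      have h0' := cj_ne_zero (q := q).2 h0
      have e := three_cases h3 (cj_Nm _) h' h.2.2
      have hl : Nm q (σ (a / 𝐡 z x)) = 1 := by
        simp only [Nm, map_div₀, cj_cj] at ha e ⊢; field_simp; linear_combination ha - e
      refine ⟨_, hl, by rw [herm_smul_right, cj_cj, div_mul_cancel₀ _ h0], fun y hy => ⟨?_, hy.2.1, ?_⟩⟩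
      · rw [herm_smul_left, herm_smul_right, h.1, mul_one]; exact hl
      · have hl' : Nm q (a / 𝐡 z x) = 1 := by rw [← hl, Nm, Nm, cj_cj, mul_comm]
        rw [herm_smul_right, cj_cj, Nm_mul, hl', one_mul]; exact hy.2.2
    obtain ⟨l, l1, l2, l3⟩ := k h4 fun h => h2.2.2 (by simpa [h] using e)
    obtain ⟨m, m1, m2, m3⟩ := k h2 fun h => h4.2.2 (by simpa [h] using e)
    have g1 := l3 y h1.gd
    have g2 := m3 _ g1.symm
    exact S.tri_scale hq h1.gd h4 l1 (S.swap12 g1.symm (S.tri_scale hq g1.symm h2 m1 (S.swap12 g2.symm (A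
      ⟨g1.1, g2.1, by simp [herm_smul_left, herm_smul_right, h1.2.2]⟩ (m3 z h2) (l3 z h4) l2 m2))))
  exact S.tri_apex h1 h2 h4 a0 a1 fun w b1 b2 _ b3 => ⟨B b1 h1.symm b3, B b2 h4.symm b3⟩

theorem pk_step (hq : q ≠ 2) : Pk (Coprod.lift (tl F q 3).emb (hd F q (by omega : 3 ≤ 4)).emb)
    (if q = 3 then 4 else 0) fun J _ f => StepD (m := 2) le_rfl (f.comp Coprod.inl) (f.comp Coprod.inr) →
      ∃ Φ : SU 4 F q →* J, (∀ p, Φ ((tl F q 3).emb p) = f (.inl p)) ∧
        ∀ k, Φ ((hd F q (by omega : 3 ≤ 4)).emb k) = f (.inr k) := by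
  classical
  have h2 := two_le_q F q
  split_ifs with h3
  swap; · exact Pk.triv fun J _ f S => step3 S hq fun _ => by omega
  obtain ⟨a, a0, a1⟩ := exists_Nm_ne (F := F) hq
  let T := stc F q (r := 0) (m := 2) le_rfl
  have S0 : C2 q fun _ _ : Fin 4 → F => (1 : Unit) := ⟨le_rfl, fun _ _ _ _ _ _ => rfl, by intros; rfl⟩
  have k : ∀ {x y}, Gd q x y → Coprod.lift T.i T.j (c2 q T.cw x y) = (T.t x)⁻¹ * T.t y := fun h => by
    have h' := S0.exists_ou h
    rw [c2, dif_pos h', map_mul]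
    exact (congrArg₂ _ (TC.c_self h'.choose_spec.1) (TC.c_self h'.choose_spec.2)).trans (by group)
  have o : OU q (ev F 4 0) (𝐞 1) := e_ou (by simp)
  refine ((Pk.list (r := 1) (Finset.univ.filter fun l : F => Nm q l = 1 ∧ Nm q a + Nm q a = 1).toList fun l hl =>
    Pk.eq (ψ := Coprod.lift T.i T.j) (c2 q T.cw (𝐞 0) (𝐞 1) * c2 q T.cw (𝐞 1) ![a, a, 1, l * a])
      (c2 q T.cw (𝐞 0) ![a, a, 1, l * a]) ?_).imp fun J _ f hf S => ?_).mono ?_
  · simp only [Finset.mem_toList, Finset.mem_filter] at hl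
    have gd := gd_bad a1 (three_cases h3 (cj_Nm a) (mt Nm_eq_zero.1 a0) a1) hl.2.1 hl.2.2
    rw [map_mul, k o.gd, k gd.1, k gd.2]; group
  · have e : (fun x y => f (T.cw x y)) = T.c (f.comp Coprod.inl) (f.comp Coprod.inr) := by
      ext x y; rw [TC.c, show Coprod.lift _ _ = f by ext <;> simp]
    simp only [map_mul, map_c2, e] at hf
    obtain ⟨c, hc⟩ := S.c2'.sc hq (fun x y z => tri3 S.c2' h3 (TC.c_smul S.hc) a0 a1 fun l h h' =>
      hf l (by simp [h, h'])) (e_unit 0)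
    exact S.fin (fun _ => hq) c hc
  · rw [Finset.length_toList, mul_one, show 4 = q + 1 by omega, ← card_norm_eq_one (F := F),
      Nat.card_eq_fintype_card, Fintype.card_subtype]
    exact Finset.card_le_card fun l hl => by simp only [Finset.mem_filter] at hl ⊢; exact ⟨hl.1, hl.2.1⟩

end Cfsg.Agent.H77
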