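import Cfsg.Agent.H77.PU4
import Cfsg.Agent.H77.P42
import Cfsg.Agent.H77.UTwoC
import Cfsg.Agent.H3.PresSLn

/-! Short presentations of `SU_n(q)`, `n ≥ 4`. -/

set_option autoImplicit false
set_option linter.unusedSectionVars false

namespace Cfsg.Agent.H77

open Function H3 H10 Matrix Monoid Equiv

section general

variable {A B J G W R R' : Type*} [Group A] [Group B] [Group J] [Group G] [Group W] [MulAction W R] [MulAction W R']

/-- The conjugate of a homomorphism belonging to `r`. -/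
noncomputable def Bh (r0 : R) (ω : W →* J) (l : A →* J) (r : R) : A →* J :=
  (MulAut.conj (ω (sec W r0 r))).toMonoidHom.comp l

theorem Bh_apply (r0 : R) (ω : W →* J) (l : A →* J) (r : R) (g : A) : Bh r0 ω l r g = fam r0 ω (l g) r := rfl

theorem map_Bh (f : J →* G) (r0 : R) (ω : W →* J) (l : A →* J) (r : R) (g : A) :
    f (Bh r0 ω l r g) = Bh r0 (f.comp ω) (f.comp l) r g := map_fam ..

theorem Bh_comm {r0 : R} {r1 t : R'} {ω : W →* J} {l : A →* J} {l' : B →* J}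
    (h0 : ∀ a, ∀ s : W, s • r0 = r0 → Commute (ω s) (l a)) (h1 : ∀ b, ∀ s : W, s • r1 = r1 → Commute (ω s) (l' b))
    (ht : ∃ w : W, w • r1 = t) (h : ∀ a b, Commute (l a) (Bh r1 ω l' t b)) {r : R} {t' : R'}
    (hw : ∃ w : W, w • r0 = r ∧ w • t = t') : ∀ x ∈ (Bh r0 ω l r).range, ∀ y ∈ (Bh r1 ω l' t').range, Commute x y := by
  obtain ⟨w, rfl, rfl⟩ := hw
  rintro _ ⟨a, rfl⟩ _ ⟨b, rfl⟩
  rw [Bh_apply, Bh_apply, fam_eq (h0 a), ← fam_conj (h1 b) ht]
  exact (h a b).map (MulAut.conj (ω w))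

theorem surj_of_coprod {f : Coprod A B →* J} (hf : Surjective f) {Φ : G →* J}
    (h1 : ∀ a, f (.inl a) ∈ Φ.range) (h2 : ∀ b, f (.inr b) ∈ Φ.range) : Surjective Φ :=
  MonoidHom.range_eq_top.1 (top_unique ((MonoidHom.range_eq_top.2 hf).ge.trans (Coprod.range_eq f ▸
    sup_le (by rintro _ ⟨a, rfl⟩; exact h1 a) (by rintro _ ⟨a, rfl⟩; exact h2 a))))

theorem alt_int {n : ℕ} (M : Subgroup (Perm (Fin (n + 2)))) (h : ∀ i : Fin n,
    swap i.castSucc.castSucc i.castSucc.succ * swap i.succ.castSucc i.succ.succ ∈ M) (g : Perm (Fin (n + 2))) :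
    (Perm.sign g = 1 → g ∈ M) ∧ (Perm.sign g = -1 → g * swap 0 1 ∈ M) := by
  have k : ∀ j : Fin (n + 1), swap 0 1 * swap j.castSucc j.succ ∈ M := fun j => by
    induction j using Fin.induction with
    | zero => simpa using M.one_mem
    | succ i ih => simpa [mul_assoc] using M.mul_mem ih (h i)
  induction (Perm.mclosure_swap_castSucc_succ (n + 1)).ge (Submonoid.mem_top g) using
    Submonoid.closure_induction_right with
  | one => exact ⟨fun _ => M.one_mem, fun h => by simp at h⟩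
  | mul_right x _ y hy ih =>
    obtain ⟨j, rfl⟩ := hy
    rw [Perm.sign_mul, Perm.sign_swap j.castSucc_lt_succ.ne, mul_neg_one, neg_eq_iff_eq_neg, neg_inj]
    exact ⟨fun h => by simpa [mul_assoc] using M.mul_mem (ih.2 h) (k j),
      fun h => by simpa [mul_assoc] using M.mul_mem (ih.1 h) (M.inv_mem (k j))⟩

/-- Consecutive coordinates. -/
def cs (n k i : ℕ) (h : k + i ≤ n) (a : Fin k) : Fin n := ⟨a + i, by omega⟩

theorem cs_inj {n k i : ℕ} (h : k + i ≤ n) : Injective (cs n k i h) := fun a b e => Fin.ext (by simpa [cs] using e)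

theorem exists_shift {m n : ℕ} (h : m + 0 ≤ n) (c : Perm (Fin m)) : ∃ s : Perm (Fin n), Perm.sign s = Perm.sign c ∧
    (∀ x : Fin n, m ≤ x → s x = x) ∧ ∀ a, s (cs n m 0 h a) = cs n m 0 h (c a) :=
  ⟨c.viaEmbedding ⟨_, cs_inj h⟩, by rw [Perm.viaEmbedding, Perm.sign_extendDomain], fun x hx => Perm.viaEmbedding_apply_of_notMem _ _ _ (by
    rintro ⟨a, rfl⟩; simp [cs] at hx; omega), c.viaEmbedding_apply ⟨_, cs_inj h⟩⟩

theorem exists_two {n k k' i j : ℕ} (h0 : k + 0 ≤ n) (h0' : k' + k ≤ n) (h1 : k + i ≤ n) (h2 : k' + j ≤ n)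
    (hd : k + i ≤ j ∨ k' + j ≤ i) : ∃ w : Perm (Fin n), (k + k' + 2 ≤ n → Perm.sign w = 1) ∧
      w • cs n k 0 h0 = cs n k i h1 ∧ w • cs n k' k h0' = cs n k' j h2 := by
  let b : Fin (k + k') → Fin n := fun x => ⟨if x < k then x + i else x - k + j, by split_ifs <;> omega⟩
  have hb : Injective b := fun x y e => by
    simp only [b, Fin.ext_iff] at e ⊢; split_ifs at e <;> omega
  obtain ⟨w, w1, w2⟩ : ∃ w : Perm (Fin n), (k + k' + 2 ≤ n → Perm.sign w = 1) ∧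
      ∀ a, w (cs n _ 0 (by omega) a) = b a := by
    by_cases h : k + k' + 2 ≤ n
    · exact (exists_even' (cs_inj _) hb (by simpa)).imp fun _ h => ⟨fun _ => h.1, h.2⟩
    · exact (Perm.exists_extending_pair _ _ (cs_inj _) hb).imp fun _ h' => ⟨fun e => absurd e h, h'⟩
  exact ⟨w, w1, funext fun a => (w2 ⟨a, by omega⟩).trans (by simp [b, cs]),
    funext fun a => (w2 ⟨a + k, by omega⟩).trans (by simp [b, cs])⟩

theorem exists_one {n k i : ℕ} (h0 : k + 0 ≤ n) (h1 : k + i ≤ n) :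
    ∃ w : Perm (Fin n), (k + 2 ≤ n → Perm.sign w = 1) ∧ w • cs n k 0 h0 = cs n k i h1 :=
  (exists_two (k' := 0) (j := 0) h0 (by omega) h1 (by omega) (by omega)).imp fun _ h => ⟨h.1, h.2.1⟩

end general

variable {F : Type*} [Field F] [Fintype F] {q : ℕ} [hF : Fact (Fintype.card F = q ^ 2)] {k m n : ℕ}

local notation "𝐞" i:max => ev F _ i

theorem conj_bl' {g : SU n F q} {i j : ℕ} (h : k + i ≤ n) (h' : k + j ≤ n)
    (hg : ∀ a, g • (𝐞 (cs n k i h a)) = 𝐞 (cs n k j h' a)) (p : SU k F q) :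
    g * bl F q k i h p * g⁻¹ = bl F q k j h' p :=
  (Frm.conj_emb _ g p).trans (congrArg (fun A : Frm F q k n => A.emb p) (Frm.ext (funext hg)))

theorem pres_su4 (hq : q ≠ 2) : Pr (SU 4 F q) 4 29 := by
  obtain ⟨γ, hγ⟩ := (pres_su3 (F := F) hq).hp
  obtain ⟨s, hs⟩ := (hd F q (by omega : 3 ≤ 4)).exists_su (tl F q 3) (by omega)
  obtain ⟨L, h2, hL⟩ := su2_two (F := F) (q := q)
  let ψ : Coprod (SU 3 F q) (FreeGroup Unit) →* _ := Coprod.lift (bl F q 3 0 (by omega)) (FreeGroup.lift fun _ => s)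
  let ι : SU 3 F q →* Coprod (SU 3 F q) (FreeGroup Unit) :=
    (MulAut.conj (Coprod.inr (.of ()))).toMonoidHom.comp Coprod.inl
  have h0 : ∀ p, ψ (.inl p) = bl F q 3 0 (by omega) p := fun _ => rfl
  have h1 : ∀ p, ψ (ι p) = bl F q 3 1 le_rfl p := fun p => by
    simpa [ψ, ι] using conj_bl' (i := 0) (j := 1) _ _ hs p
  have hm : ∀ g, g ∈ (ι.range ⊔ Coprod.inl.range).map ψ := gen_bl' 1 (by omega) (by omega) _ fun i h g => by
    obtain rfl | rfl : i = 0 ∨ i = 1 := by omega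
    exacts [⟨_, Subgroup.mem_sup_right ⟨g, rfl⟩, h0 g⟩, ⟨_, Subgroup.mem_sup_left ⟨g, rfl⟩, h1 g⟩]
  have P := ((Pk.eq_gens (ψ := ψ) (L := L) (ι.comp (bl F q 2 0 (by omega))) (Coprod.inl.comp (bl F q 2 1 le_rfl))
    fun a _ => by simp only [MonoidHom.comp_apply, h0, h1, bl_bl]).and (Pk.comm_hom (L := L) (L' := L)
      (Coprod.inl.comp (bl F q 2 0 (by omega))) (ι.comp (bl F q 2 1 le_rfl)) fun a _ b _ => by
        simp only [MonoidHom.comp_apply, h0, h1, bl_bl]; exact bl_comm _ _ le_rfl _ _)).and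
      ((Pk.mem (.inr (.of ())) _ (hm _)).and (Pk.comp (pk_step hq) (Coprod.lift ι Coprod.inl) (MonoidHom.id _) (by
        ext <;> simp [h0, h1, bl_zero, bl_one])))
  refine (((hγ.coprod_free Unit).pk (fun g => (hm g).imp fun _ h => h.2) (P.imp fun J _ f hf θ hf' hθ => ?_)).pr
    (by simp)).mono (by rw [h2]; split_ifs <;> omega)
  obtain ⟨⟨a1, a2⟩, a3, a4⟩ := hf
  have c : ∀ p, p • ev F 3 0 = 𝐞 0 → ∀ a, Commute (f (ι p)) (f (.inl (bl F q 2 0 (by omega) a))) := fun p hp a => by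
    obtain ⟨p, rfl⟩ := exists_tl hp
    exact (a2 a (hL a) p (hL p)).symm
  obtain ⟨Φ, b1, b2⟩ := a4 ⟨fun g => a1 g (hL g), fun p hp => c p hp _, fun p hp => c p (hp 0 le_rfl)⟩
  refine inj_of_surj (Φ := Φ) (surj_of_coprod hf' (fun a => ⟨_, b2 a⟩) fun b => ?_) fun g =>
    (hm g).elim fun x h => ⟨f x, (DFunLike.congr_fun hθ x).trans h.2⟩
  refine FreeGroup.lift_unique (f.comp Coprod.inr) (fun _ => rfl) ▸ FreeGroup.range_lift_le ?_ ⟨b, rfl⟩
  rintro _ ⟨_, rfl⟩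
  refine (Subgroup.map_le_iff_le_comap.2 (sup_le ?_ ?_) : _ ≤ Φ.range) a3 <;> rintro _ ⟨a, rfl⟩
  exacts [⟨_, b1 a⟩, ⟨_, b2 a⟩]

section glue

variable {K J : Type*} [Group K] [MulAction K (Fin n)] [Group J] {ρ : K →* SU n F q} {ω : K →* J}
  {θ : J →* SU n F q} {κ : SU m F q →* J} {i j : ℕ}

/-- Permutation matrices. -/
def PM (ρ : K →* SU n F q) : Prop := ∀ w (i : Fin n), ρ w • ev F n i = ev F n (w • i)

theorem exists_rho (h : ∀ w : K, ((Perm.sign (MulAction.toPermHom K (Fin n) w) : ℤ) : F) = 1) :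
    ∃ ρ : K →* SU n F q, PM ρ := by
  have e : ∀ (w : K) (v : Fin n → F), permMatrixHom (MulAction.toPermHom K (Fin n) w) *ᵥ v = fun i => v (w⁻¹ • i) :=
    fun w v => permMatrix_mulVec ..
  refine ⟨MonoidHom.mk' (fun w => mkSU (permMatrixHom (MulAction.toPermHom K (Fin n) w)) (fun u v => ?_)
    ((det_permutation _).trans (by rw [Perm.sign_inv, h]))) fun a b => sm_injective ?_, fun w i => (e w _).trans ?_⟩
  · simp only [e, herm_eq]
    exact Equiv.sum_comp (MulAction.toPerm w⁻¹) fun i => u i * cj F q (v i)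
  · exact (congrArg _ (map_mul _ a b)).trans (map_mul _ _ _)
  · ext j; simp [Pi.single_apply, inv_smul_eq_iff]

theorem bh_val (hρ : PM ρ) (hω : ∀ w, θ (ω w) = ρ w) {h0 : k + 0 ≤ n} {h : k + i ≤ n}
    {l : SU k F q →* J} (hl : ∀ p, θ (l p) = bl F q k 0 h0 p) (ht : ∃ w : K, w • cs n k 0 h0 = cs n k i h) (p) :
    θ (Bh (cs n k 0 h0) ω l (cs n k i h) p) = bl F q k i h p := by
  simp only [Bh_apply, fam, map_mul, map_inv, hω, hl]
  exact conj_bl' _ _ (fun a => (hρ _ _).trans (congrArg _ (congrFun (sec_smul ht) a))) p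

theorem rho_comm (hρ : PM ρ) {h : k + i ≤ n} {s : K} (hs : s • cs n k i h = cs n k i h)
    (p) : Commute (ρ s) (bl F q k i h p) :=
  Frm.commute_emb _ (fun a => (hρ _ _).trans (congrArg _ (congrFun hs a))) p

theorem pk_fix {Γ : Type*} [Group Γ] {ψ : Γ →* SU n F q} (hρ : PM ρ) (h : m + 0 ≤ n)
    {α : SU m F q →* Γ} {β : K →* Γ} (hα : ∀ p, ψ (α p) = bl F q m 0 h p) (hβ : ∀ w, ψ (β w) = ρ w) {L : List K}
    (hL : ∀ s : K, (∀ x : Fin n, m ≤ x → s • x = x) ↔ s ∈ Subgroup.closure {s | s ∈ L}) :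
    Pk ψ L.length fun _ _ f => ∀ s : K, (∀ x : Fin n, m ≤ x → s • x = x) → f (β s) ∈ (f.comp α).range :=
  ((Pk.list L fun s hs => Pk.mem (β s) α.range (by
    obtain ⟨p, hp⟩ := exists_bl h (g := ρ s) fun x hx => by
      rw [hρ, (hL s).2 (Subgroup.subset_closure hs) x (by omega)]
    exact ⟨_, ⟨p, rfl⟩, by rw [hα, hβ, hp]⟩)).imp fun _ _ f hf s hs =>
      (Subgroup.closure_le ((f.comp α).range.comap (f.comp β))).2 (fun s hs => by
        simpa [MonoidHom.range_comp] using hf s hs) ((hL s).1 hs)).mono (by simp)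

/-- The data for gluing. -/
structure Gl (h : m + 0 ≤ n) (ρ : K →* SU n F q) (κ : SU m F q →* J) (ω : K →* J) (θ : J →* SU n F q) : Prop where
  hρ : PM ρ
  hκ : ∀ p, θ (κ p) = bl F q m 0 h p
  hω : ∀ w, θ (ω w) = ρ w
  mem : ∀ s : K, (∀ x : Fin n, m ≤ x → s • x = x) → ω s ∈ κ.range
  tr : ∀ i hi, ∃ w : K, w • cs n m 0 h = cs n m i hi

/-- The block subgroups. -/
noncomputable def Ub (n : ℕ) [MulAction K (Fin n)] (ω : K →* J) (l : SU k F q →* J) (i : ℕ) : Subgroup J :=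
  if h : k + i ≤ n then (Bh (cs n k 0 (by omega)) ω l (cs n k i h)).range else ⊥

theorem Ub_eq (l : SU k F q →* J) (h : k + i ≤ n) :
    (Bh (cs n k 0 (by omega)) ω l (cs n k i h)).range = Ub n ω l i := by rw [Ub, dif_pos h]

theorem Ub_comm {k' : ℕ} {l : SU k F q →* J} {l' : SU k' F q →* J}
    (h : ∀ (h : k + i ≤ n) (h' : k' + j ≤ n), ∀ x ∈ (Bh (cs n k 0 (by omega)) ω l (cs n k i h)).range,
      ∀ y ∈ (Bh (cs n k' 0 (by omega)) ω l' (cs n k' j h')).range, Commute x y) :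
    ∀ x ∈ Ub n ω l i, ∀ y ∈ Ub n ω l' j, Commute x y := by
  unfold Ub
  split_ifs with h1 h2
  · exact h h1 h2
  · rintro x - y rfl; exact Commute.one_right _
  all_goals rintro x rfl y -; exact Commute.one_left _

namespace Gl

variable {h : m + 0 ≤ n} (C : Gl h ρ κ ω θ)
include C

theorem inj (hi : m + i ≤ n) : Injective (Bh (cs n m 0 h) ω κ (cs n m i hi)) := fun a b e =>
  bl_inj hi (by rw [← bh_val C.hρ C.hω C.hκ (C.tr i hi), e, bh_val C.hρ C.hω C.hκ (C.tr i hi)])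

theorem eq_of {x y : J} (hx : x ∈ κ.range) (hy : y ∈ κ.range) (e : θ x = θ y) : x = y := by
  obtain ⟨x, rfl⟩ := hx
  obtain ⟨y, rfl⟩ := hy
  exact congrArg κ (bl_inj h (by rwa [← C.hκ, ← C.hκ]))

section
variable (hk : k + 0 ≤ m) (hj : k + j ≤ m) {h0 : k + 0 ≤ n}
  (hz : ∀ g, ∀ s : K, s • cs n k 0 h0 = cs n k 0 h0 → Commute (ω s) (κ (bl F q k 0 hk g)))
  (hs : ∃ s : K, (∀ x : Fin n, m ≤ x → s • x = x) ∧ s • cs n k 0 h0 = cs n k j (by omega))
include hz hs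

theorem shift : κ.comp (bl F q k j hj) = Bh (cs n k 0 h0) ω (κ.comp (bl F q k 0 hk)) (cs n k j (by omega)) := by
  obtain ⟨s, s1, s2⟩ := hs
  ext g
  rw [Bh_apply, ← s2, MonoidHom.comp_apply κ (bl F q k 0 hk), fam_eq (hz g)]
  refine C.eq_of ⟨_, rfl⟩ (mul_mem (mul_mem (C.mem s s1) ⟨_, rfl⟩) (inv_mem (C.mem s s1))) ?_
  simp only [map_mul, map_inv, C.hκ, C.hω, bl_bl, MonoidHom.comp_apply]
  exact (conj_bl' _ _ (fun a => (C.hρ _ _).trans (congrArg _ (congrFun s2 a))) g).symm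

theorem restr (hi : m + i ≤ n) : (Bh (cs n m 0 h) ω κ (cs n m i hi)).comp (bl F q k j hj) =
    Bh (cs n k 0 h0) ω (κ.comp (bl F q k 0 hk)) (cs n k (j + i) (by omega)) := by
  ext g
  have e : sec K (cs n m 0 h) (cs n m i hi) • cs n k j (by omega) = cs n k (j + i) (by omega) :=
    funext fun a => (congrFun (sec_smul (C.tr i hi)) ⟨a + j, by omega⟩).trans (by simp [cs, add_assoc])
  rw [Bh_apply _ _ (κ.comp _), ← e, MonoidHom.comp_apply κ, ← fam_conj (hz g) (hs.imp fun _ h => h.2)]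
  exact congrArg (fun x => _ * x * _) (DFunLike.congr_fun (C.shift hk hj hz hs) g)

end

theorem int (hi : m + i ≤ n) {s : K} (hs : ∀ x : Fin n, x < i ∨ m + i ≤ x → s • x = x) :
    ω s ∈ (Bh (cs n m 0 h) ω κ (cs n m i hi)).range := by
  have e := sec_smul (C.tr i hi)
  obtain ⟨p, hp⟩ := C.mem ((sec K (cs n m 0 h) (cs n m i hi))⁻¹ * s * sec K (cs n m 0 h) (cs n m i hi)) fun x hx => by
    rw [mul_smul, mul_smul, hs, inv_smul_smul]
    by_contra hc
    have := congrFun e ⟨(sec K (cs n m 0 h) (cs n m i hi) • x).1 - i, by omega⟩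
    rw [Pi.smul_apply, show cs n m i hi _ = sec K (cs n m 0 h) (cs n m i hi) • x from
      Fin.ext (by simp [cs]; omega), smul_left_cancel_iff, Fin.ext_iff] at this
    simp [cs] at this; omega
  exact ⟨p, by simp [Bh_apply, fam, hp, mul_assoc]⟩

end Gl

end glue

theorem alt_one {i : ℕ} (h0 : k + 0 ≤ n) (h1 : k + i ≤ n) (hn : k + 2 ≤ n) :
    ∃ w : alternatingGroup (Fin n), w • cs n k 0 h0 = cs n k i h1 :=
  (exists_one h0 h1).elim fun w h => ⟨⟨w, h.1 hn⟩, h.2⟩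

theorem alt_two {i j : ℕ} (hn : 5 ≤ n) (h1 : 2 + i ≤ n) (h2 : 2 + j ≤ n) (hd : i + 2 ≤ j) :
    ∃ w : alternatingGroup (Fin n), w • cs n 2 0 (by omega) = cs n 2 i h1 ∧ w • cs n 2 2 (by omega) = cs n 2 j h2 := by
  by_cases h : 6 ≤ n
  · exact (exists_two _ _ h1 h2 (by omega)).elim fun w h' => ⟨⟨w, h'.1 h⟩, h'.2⟩
  obtain rfl : n = 5 := by omega
  obtain ⟨rfl, rfl⟩ | ⟨rfl, rfl⟩ | ⟨rfl, rfl⟩ : (i = 0 ∧ j = 2) ∨ (i = 0 ∧ j = 3) ∨ (i = 1 ∧ j = 3) := by omega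
  · exact ⟨1, rfl, rfl⟩
  · exact ⟨⟨c3 2 3 4, Perm.mem_alternatingGroup.2 (by decide)⟩, by ext a; fin_cases a <;> rfl, by ext a; fin_cases a <;> rfl⟩
  · exact ⟨⟨finRotate 5, Perm.mem_alternatingGroup.2 (by decide)⟩, by ext a; fin_cases a <;> rfl, by ext a; fin_cases a <;> rfl⟩

theorem Gl.alt {J : Type*} [Group J] {N : ℕ} (hq : q ≠ 2) (hN : 1 ≤ N) (hn : N + 4 = n) {ρ} {κ : SU 3 F q →* J}
    {ω : alternatingGroup (Fin n) →* J} {θ} {h : 3 + 0 ≤ n} (C : Gl h ρ κ ω θ)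
    (hz : ∀ g, ∀ s, s • cs n 2 0 (by omega) = cs n 2 0 (by omega) → Commute (ω s) (κ (bl F q 2 0 (by omega) g)))
    (hc : ∀ a b, Commute (κ (bl F q 2 0 (by omega) a))
      (Bh (cs n 2 0 (by omega)) ω (κ.comp (bl F q 2 0 (by omega))) (cs n 2 2 (by omega)) b))
    (hs : StepD (m := 2) le_rfl (Bh (cs n 3 0 h) ω κ (cs n 3 (N + 1) (by omega)))
      (Bh (cs n 3 0 h) ω κ (cs n 3 N (by omega))) → ∃ Φ : SU 4 F q →* J,
        (∀ p, Φ ((tl F q 3).emb p) = Bh (cs n 3 0 h) ω κ (cs n 3 (N + 1) (by omega)) p) ∧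
        ∀ k, Φ ((hd F q (by omega : 3 ≤ 4)).emb k) = Bh (cs n 3 0 h) ω κ (cs n 3 N (by omega)) k) :
    ∃ Φ : SU n F q →* J, (∀ p, κ p ∈ Φ.range) ∧ ∀ w, ω w ∈ Φ.range := by
  have sh : ∀ j (hj : 2 + j ≤ 3), ∃ s : alternatingGroup (Fin n), (∀ x : Fin n, 3 ≤ x.1 → s • x = x) ∧
      s • cs n 2 0 (by omega) = cs n 2 j (by omega) := fun j hj => by
    obtain ⟨s, s1, s2, s3⟩ := exists_shift h (finRotate 3 ^ j)
    refine ⟨⟨s, s1.trans (by simp)⟩, s2, funext fun a => (s3 ⟨a, by omega⟩).trans ?_⟩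
    obtain rfl | rfl : j = 0 ∨ j = 1 := by omega
    all_goals fin_cases a <;> rfl
  have r := fun i hi j hj => C.restr (i := i) _ hj hz (sh j hj) hi
  let U := Ub n ω (κ.comp (bl F q 2 0 (by omega)))
  have r' : ∀ i hi, Std (Bh (cs n 3 0 h) ω κ (cs n 3 i hi)) fun j => U (j + i) := fun i hi j hj => by
    rw [r]; exact Ub_eq _ _
  have c : ∀ i j, i + 2 ≤ j → ∀ x ∈ U i, ∀ y ∈ U j, Commute x y := fun i j hij => Ub_comm fun h1 h2 =>
    Bh_comm hz hz (alt_one _ _ (by omega)) hc (alt_two (by omega) h1 h2 hij)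
  have s1 : Std (Bh (cs n 3 0 h) ω κ (cs n 3 (N + 1) (by omega))) fun j => U (j + 1 + N) := fun j hj =>
    (r' _ _ j hj).trans (congrArg U (by omega))
  obtain ⟨Φ, a1, a2⟩ := hs (Std.stepD (U := fun j => U (j + N)) hq le_rfl s1 (r' N _ 0 _) (fun g => by
    have := (r (N + 1) (by omega) 0 (by omega)).trans (Eq.trans (by congr 2; omega) (r N (by omega) 1 le_rfl).symm)
    exact DFunLike.congr_fun this g) fun j a _ => c _ _ (by omega))
  obtain rfl : n = 1 + N + 3 := by omega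
  obtain ⟨Φ, hΦ⟩ := phan_ind (F := F) hq 1 (by omega) N U (fun i j a _ => c i j a) (fun i hi => by
    have e := r' i (by omega) 1 le_rfl
    simp only [add_comm 1 i] at e
    refine ⟨⟨_, fun g hg => ?_, (r' i (by omega) 0 _).trans (by simp), e⟩, ?_⟩
    · rw [(injective_iff_map_eq_one _).1 (C.inj _) g hg]; exact one_mem _
    · rw [← e]
      exact (Nat.card_congr (MonoidHom.ofInjective fun _ _ e => bl_inj _ (C.inj _ e)).toEquiv).symm)
    ⟨Φ, Std.succ (U := fun j => U (j + N)) le_rfl s1 (r' N _ 0 _) a1 a2⟩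
  have k : ∀ i, 2 + i ≤ 1 + N + 3 → U i ≤ Φ.range := fun i hi => by
    rw [← hΦ i hi, MonoidHom.range_comp]
    exact Subgroup.map_le_range _ _
  refine ⟨Φ, fun p => range_le_of_bl hq (by omega) (fun j hj => ?_) ⟨p, rfl⟩, fun w => ?_⟩
  · rw [C.shift _ hj hz (sh j hj)]
    exact (Ub_eq _ _).le.trans (k j (by omega))
  obtain ⟨w', h1, h2⟩ := (alt_int ((Φ.range.comap ω).map (Subgroup.subtype _)) (fun i => ⟨⟨Equiv.swap _ _ * Equiv.swap _ _, by
    simp [Fin.ext_iff]⟩, Subgroup.mem_comap.2 (range_le_of_bl hq (by omega) (fun j hj =>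
      (r' i (by omega) j hj).le.trans (k _ (by omega))) (C.int (i := i) (by omega) fun x hx => by
        change Equiv.swap _ _ (Equiv.swap _ _ x) = x
        have : ∀ a b : Fin _, (i ≤ a.1 ∧ a.1 < 3 + i) ∧ i ≤ b.1 ∧ b.1 < 3 + i → Equiv.swap a b x = x := fun a b h =>
          swap_apply_of_ne_of_ne (Fin.ne_of_val_ne (by omega)) (Fin.ne_of_val_ne (by omega))
        rw [this, this] <;> simp <;> omega)), rfl⟩) w).1 w.2
  exact Subtype.ext h2 ▸ h1

theorem pres_sun (hq : q ≠ 2) (hn : 5 ≤ n) {d r : ℕ} (hP : Pr (alternatingGroup (Fin n)) d r) :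
    Pr (SU n F q) (3 + d) (r + if n = 5 then 29 else 31) := by
  obtain ⟨γ, hγ⟩ := (pres_su3 (F := F) hq).hp
  obtain ⟨δ, hδ⟩ := hP.hp
  obtain ⟨L, h2, hL⟩ := su2_two (F := F) (q := q)
  obtain ⟨ρ, hρ⟩ := exists_rho (F := F) (q := q) (n := n) (K := alternatingGroup (Fin n)) fun w => by
    rw [show Perm.sign (MulAction.toPermHom _ _ w) = 1 from w.2]; simp
  obtain ⟨N, hN⟩ : ∃ N, N + 4 = n := ⟨n - 4, by omega⟩
  have h : 3 + 0 ≤ n := by omega
  let ψ := Coprod.lift (bl F q 3 0 h) ρ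
  have tr : ∀ i hi, ∃ w : alternatingGroup (Fin n), w • cs n 3 0 h = cs n 3 i hi := fun i hi => alt_one _ _ hn
  have v : ∀ i hi p, ψ (Bh (cs n 3 0 h) Coprod.inr Coprod.inl (cs n 3 i hi) p) = bl F q 3 i hi p := fun i hi =>
    bh_val hρ (fun _ => rfl) (fun _ => rfl) (tr i hi)
  have hs : Surjective ψ := gen_bl' 1 (by omega) h ψ.range fun i h g => ⟨_, v i h g⟩
  obtain ⟨LS, l1, l2, l3⟩ := alt_stab ((cs_inj (by omega : 2 + 0 ≤ n)).ne (by decide : (0 : Fin 2) ≠ 1))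
  obtain ⟨L', m1, m2, m3⟩ := exists_alt_gens (Finset.univ.map ⟨_, cs_inj h⟩)
  obtain ⟨L3, m4, m5⟩ := exists_sub_gens (K := alternatingGroup (Fin n)) (fun _ h => (mem_Alt.1 h).2) m3
  have P := ((Pk.comm_hom (ψ := ψ) (L := LS) (L' := L) Coprod.inr (Coprod.inl.comp (bl F q 2 0 (by omega)))
    fun s hs g _ => by
      have := Prod.ext_iff.1 ((l3 s).2 (Subgroup.subset_closure hs))
      change Commute (ρ s) (bl F q 3 0 h (bl F q 2 0 _ g))
      rw [bl_bl]; exact rho_comm hρ (funext (Fin.forall_fin_two.2 this)) g).and (pk_fix (ψ := ψ) hρ h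
    (α := Coprod.inl) (β := Coprod.inr) (fun _ => rfl) (fun _ => rfl) (L := L3)
    fun s => Iff.trans ⟨fun hs => ⟨fun x hx => hs x (by
      by_contra hc; exact hx (Finset.mem_map.2 ⟨⟨x, by omega⟩, Finset.mem_univ _, rfl⟩)), s.2⟩,
        fun hs x hx => hs.1 x (by simp [cs, Fin.ext_iff]; omega)⟩ (m5 s))).and ((Pk.comm_hom (L := L) (L' := L)
    (Coprod.inl.comp (bl F q 2 0 (by omega))) (Bh (cs n 2 0 (by omega)) Coprod.inr
      (Coprod.inl.comp (bl F q 2 0 (by omega))) (cs n 2 2 (by omega))) fun a _ b _ => by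
        rw [bh_val (θ := ψ) hρ (fun _ => rfl) (fun p => bl_bl _ h p) (alt_one _ _ (by omega))]
        change Commute (bl F q 3 0 h (bl F q 2 0 _ a)) _
        rw [bl_bl]; exact bl_comm _ _ le_rfl _ _).and (Pk.comp (pk_step hq) (Coprod.lift
      (Bh (cs n 3 0 h) Coprod.inr Coprod.inl (cs n 3 (N + 1) (by omega)))
      (Bh (cs n 3 0 h) Coprod.inr Coprod.inl (cs n 3 N (by omega)))) (bl F q 4 N (by omega)) (by
        ext <;> simp [v, ← bl_zero, ← bl_one, bl_bl, add_comm])))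
  refine (((hγ.coprod hδ).pk hs (P.imp fun J _ f hf θ hf' hθ => ?_)).pr (by simp)).mono (by
    simp at l2 m2; rw [h2]; split_ifs <;> omega)
  obtain ⟨⟨a1, a2⟩, a3, a4⟩ := hf
  have hθ' := DFunLike.congr_fun hθ
  obtain ⟨Φ, b1, b2⟩ := Gl.alt (κ := f.comp Coprod.inl) (ω := f.comp Coprod.inr) hq (by omega) hN
    ⟨hρ, fun p => hθ' _, fun p => hθ' _, a2, tr⟩ (fun g s hs => a1 s ((l3 s).1 (Prod.ext (congrFun hs 0)
      (congrFun hs 1))) g (hL g)) (fun a b => by simpa only [map_Bh] using! a3 a (hL a) b (hL b)) (by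
        have e : ∀ t t' : SU 3 F q →* _, (f.comp (Coprod.lift t t')).comp Coprod.inl = f.comp t ∧
          (f.comp (Coprod.lift t t')).comp Coprod.inr = f.comp t' := fun _ _ => ⟨rfl, rfl⟩
        have e' : ∀ t, f.comp (Bh (cs n 3 0 h) Coprod.inr Coprod.inl t) =
          Bh (cs n 3 0 h) (f.comp Coprod.inr) (f.comp Coprod.inl) t := fun t => MonoidHom.ext (map_Bh _ _ _ _ _)
        simpa only [e, ← e'] using! a4)
  exact inj_of_surj (surj_of_coprod hf' b1 b2) fun g => (hs g).elim fun x h => ⟨f x, (hθ' x).trans h⟩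

theorem Gl.two {J : Type*} [Group J] {ρ} {κ : SU 4 F q →* J} {ω : Perm (Fin n) →* J} {θ} {h : 4 + 0 ≤ n}
    (C : Gl h ρ κ ω θ) {h3 : 3 + 0 ≤ n}
    (z3 : ∀ g, ∀ s, s • cs n 3 0 h3 = cs n 3 0 h3 → Commute (ω s) (κ (bl F q 3 0 (by omega) g))) (g s)
    (hs : s • cs n 2 0 (by omega) = cs n 2 0 (by omega)) : Commute (ω s) (κ (bl F q 2 0 (by omega) g)) := by
  have H : ∀ t, t • cs n 3 0 h3 = cs n 3 0 h3 → Commute (ω t) (κ (bl F q 2 0 (by omega) g)) := fun t ht => by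
    have := z3 (bl F q 2 0 (by omega) g) t ht
    rwa [bl_bl] at this
  have s0 : s (cs n 3 0 h3 0) = cs n 3 0 h3 0 := congrFun hs 0
  have s1 : s (cs n 3 0 h3 1) = cs n 3 0 h3 1 := congrFun hs 1
  obtain ⟨y, hy⟩ : ∃ y, s (cs n 3 0 h3 2) = y := ⟨_, rfl⟩
  by_cases e : y = cs n 3 0 h3 2
  · exact H s (by ext1 a; fin_cases a; exacts [s0, s1, hy.trans e])
  have e3 : 3 ≤ y.1 := by
    have := fun a (h : a ≠ 2) => s.injective.ne ((cs_inj h3).ne h)
    have a0 := this 0 (by decide)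
    have a1 := this 1 (by decide)
    rw [s0, hy] at a0
    rw [s1, hy] at a1
    simp [cs, Fin.ext_iff] at a0 a1 e; omega
  have m := C.mem (Equiv.swap (cs n 4 0 h 2) (cs n 4 0 h 3)) fun x hx =>
    swap_apply_of_ne_of_ne (Fin.ne_of_val_ne (by simp [cs]; omega)) (Fin.ne_of_val_ne (by simp [cs]; omega))
  have c1 : Commute _ (κ (bl F q 2 0 (by omega) g)) :=
    C.eq_of (mul_mem m ⟨_, rfl⟩) (mul_mem ⟨_, rfl⟩ m) (by
      simp only [map_mul, C.hκ, C.hω, bl_bl]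
      exact rho_comm C.hρ (by ext a; fin_cases a <;> simp [cs, swap_apply_def]) g)
  have k : ∀ a, Equiv.swap (cs n 4 0 h 3) y (cs n 3 0 h3 a) = cs n 3 0 h3 a := fun a =>
    swap_apply_of_ne_of_ne (Fin.ne_of_val_ne (by simp [cs]; omega)) (Fin.ne_of_val_ne (by simp [cs]; omega))
  have := ((H _ (funext k)).mul_left c1).mul_left (H ((Equiv.swap (cs n 4 0 h 3) y *
    Equiv.swap (cs n 4 0 h 2) (cs n 4 0 h 3))⁻¹ * s) (by
      rw [mul_smul, inv_smul_eq_iff]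
      ext1 a
      change s _ = Equiv.swap (cs n 4 0 h 3) y (Equiv.swap (cs n 4 0 h 2) (cs n 4 0 h 3) (cs n 3 0 h3 a))
      fin_cases a
      · exact s0.trans ((k 0).symm.trans (congrArg _ (by simp [cs, swap_apply_def])))
      · exact s1.trans ((k 1).symm.trans (congrArg _ (by simp [cs, swap_apply_def])))
      · exact hy.trans ((swap_apply_left _ _).symm.trans (congrArg _ (swap_apply_left _ _).symm))))
  rwa [← map_mul, ← map_mul, mul_inv_cancel_left] at this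

omit hF in
theorem pres_two [hF : Fact (Fintype.card F = 2 ^ 2)] (hn : 5 ≤ n) :
    Pr (SU n F 2) 6 (if n = 5 then 32 else 36) := by
  obtain ⟨γ, hγ⟩ := (pres_su42 hF.out).hp
  obtain ⟨δ, hδ⟩ := (pres_sym n (by omega)).2.hp
  obtain ⟨L, h2, hL⟩ := su2_two (F := F) (q := 2)
  obtain ⟨L', h2', hL'⟩ := su32_two hF.out
  obtain ⟨ρ, hρ⟩ := exists_rho (F := F) (q := 2) (n := n) (K := Perm (Fin n)) fun w => by
    rcases Int.units_eq_one_or (Perm.sign (MulAction.toPermHom _ (Fin n) w)) with e | e <;> rw [e] <;> simp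
    linear_combination -two0 (F := F)
  have h : 4 + 0 ≤ n := by omega
  have h3 : 3 + 0 ≤ n := by omega
  let ψ := Coprod.lift (bl F 2 4 0 h) ρ
  have tr : ∀ {k i} (h0 : k + 0 ≤ n) hi, ∃ w : Perm (Fin n), w • cs n k 0 h0 = cs n k i hi := fun _ _ =>
    (exists_one _ _).imp fun _ h => h.2
  have v : ∀ {k i} (hk : k + 0 ≤ 4) hi p, ψ (Bh (cs n k 0 (by omega)) Coprod.inr (Coprod.inl.comp (bl F 2 k 0 hk))
      (cs n k i hi) p) = bl F 2 k i hi p := fun hk hi => bh_val hρ (fun _ => rfl) (fun p => bl_bl _ h p) (tr _ hi)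
  have hs : Surjective ψ := gen_bl' 1 (by omega) h3 ψ.range fun i h g => ⟨_, v (by omega) h g⟩
  obtain ⟨LS, l1, -, l3⟩ := exists_sym_gens (Finset.univ.filter fun x : Fin n => 3 ≤ x.1)
  obtain ⟨L4, m1, -, m3⟩ := exists_sym_gens (Finset.univ.filter fun x : Fin n => x.1 < 4)
  have l4 : ∀ s : Perm (Fin n), s • cs n 3 0 h3 = cs n 3 0 h3 ↔ s ∈ Subgroup.closure {s | s ∈ LS} := fun s =>
    Iff.trans ⟨fun h (x : Fin n) hx => congrFun h ⟨x.1, by simpa using hx⟩, fun h => funext fun a => h _ (by simp [cs])⟩ (l3 s)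
  have P2 : ∀ k (hk : k + 0 ≤ 4) {L : List (SU k F 2)}, Pk ψ (if k + 3 ≤ n then L'.length * L.length else 0)
      fun _ _ f => ∀ hi : k + 3 ≤ n, ∀ a ∈ Subgroup.closure {s | s ∈ L'}, ∀ b ∈ Subgroup.closure {s | s ∈ L},
        Commute (f (Coprod.inl (bl F 2 3 0 (by omega) a))) (f (Bh (cs n k 0 (by omega)) Coprod.inr
          (Coprod.inl.comp (bl F 2 k 0 hk)) (cs n k 3 hi) b)) := fun k hk L => by
    split_ifs with hi
    swap; · exact Pk.triv fun _ _ _ h => absurd h hi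
    refine (Pk.comm_hom (Coprod.inl.comp (bl F 2 3 0 (by omega))) (Bh (cs n k 0 (by omega)) Coprod.inr
      (Coprod.inl.comp (bl F 2 k 0 hk)) (cs n k 3 hi)) fun a _ b _ => ?_).imp fun _ _ _ h _ => h
    rw [v]
    change Commute (bl F 2 4 0 h (bl F 2 3 0 _ a)) _
    rw [bl_bl]; exact bl_comm _ _ le_rfl _ _
  have P := ((Pk.comm_hom (ψ := ψ) (L := LS) (L' := L') Coprod.inr (Coprod.inl.comp (bl F 2 3 0 (by omega)))
    fun s hs g _ => by
      change Commute (ρ s) (bl F 2 4 0 h (bl F 2 3 0 _ g))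
      rw [bl_bl]; exact rho_comm hρ ((l4 s).2 (Subgroup.subset_closure hs)) g).and (pk_fix (ψ := ψ) hρ h
    (α := Coprod.inl) (β := Coprod.inr) (fun _ => rfl) (fun _ => rfl) (L := L4)
    fun s => Iff.trans (by simp) (m3 s))).and ((P2 2 (by omega) (L := L)).and (P2 3 (by omega) (L := L')))
  refine (((hγ.coprod hδ).pk hs (P.imp fun J _ f hf θ hf' hθ => ?_)).pr (by simp)).mono (by
    rw [h2, h2']; split_ifs <;> omega)
  obtain ⟨⟨a1, a2⟩, a3, a4⟩ := hf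
  have hθ' := DFunLike.congr_fun hθ
  obtain ⟨κ, hκ⟩ : ∃ κ, κ = f.comp Coprod.inl := ⟨_, rfl⟩
  obtain ⟨ω, hω⟩ : ∃ ω, ω = f.comp Coprod.inr := ⟨_, rfl⟩
  have C : Gl h ρ κ ω θ := hκ ▸ hω ▸ ⟨hρ, fun p => hθ' _, fun p => hθ' _, a2, fun _ => tr _⟩
  have z3 : ∀ g, ∀ s : Perm (Fin n), s • cs n 3 0 h3 = cs n 3 0 h3 → Commute (ω s) (κ (bl F 2 3 0 (by omega) g)) :=
    fun g s hs => hκ ▸ hω ▸ a1 s ((l4 s).1 hs) g (hL' g)
  have z2 := C.two z3
  have c : ∀ {k} (hk : k + 0 ≤ 4) (hi : k + 3 ≤ n), (∀ a b, Commute (f (Coprod.inl (bl F 2 3 0 (by omega) a)))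
      (f (Bh (cs n k 0 (by omega)) Coprod.inr (Coprod.inl.comp (bl F 2 k 0 hk)) (cs n k 3 hi) b))) → ∀ a b,
      Commute (κ.comp (bl F 2 3 0 (by omega)) a) (Bh (cs n k 0 (by omega)) ω (κ.comp (bl F 2 k 0 hk))
        (cs n k 3 hi) b) := fun hk hi h a b => by simpa only [map_Bh, hκ, hω] using! h a b
  have sh : ∀ k j (hj : k + j ≤ 4), ∃ s : Perm (Fin n), (∀ x : Fin n, 4 ≤ x.1 → s • x = x) ∧
      s • cs n k 0 (by omega) = cs n k j (by omega) := fun k j hj => by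
    obtain ⟨w, hw⟩ := (exists_one (n := 4) (by omega) hj).imp fun _ h => h.2
    obtain ⟨s, -, s2, s3⟩ := exists_shift h w
    exact ⟨s, s2, funext fun a => (s3 (cs 4 k 0 (by omega) a)).trans (congrArg (cs n 4 0 h) (congrFun hw a))⟩
  let U := Ub n ω (κ.comp (bl F 2 2 0 (by omega)))
  let V := Ub n ω (κ.comp (bl F 2 3 0 (by omega)))
  have r : ∀ i hi, Std3 (Bh (cs n 4 0 h) ω κ (cs n 4 i hi)) (fun j => U (j + i)) fun j => V (j + i) := fun i hi =>
    ⟨fun j hj => by rw [C.restr _ hj z2 (sh _ j hj)]; exact Ub_eq _ _,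
      fun j hj => by rw [C.restr _ hj z3 (sh _ j hj)]; exact Ub_eq _ _⟩
  obtain ⟨N, rfl⟩ : ∃ N, n = N + 4 := ⟨n - 4, by omega⟩
  obtain ⟨Φ, -, hΦ⟩ := phan_two (F := F) N U V (fun i hi => ⟨_, C.inj _, r i (by omega)⟩)
    (fun i j hij x hx y hy => (Ub_comm (fun h1 h2 => Bh_comm z3 z2 (tr _ _)
      (c _ _ fun a b => a3 hn a (hL' a) b (hL b))
      ((exists_two _ _ h1 h2 (by omega)).imp fun _ h => h.2)) y hy x hx).symm)
    fun i j hij => Ub_comm fun h1 h2 => Bh_comm z3 z3 (tr _ _)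
      (c _ (by omega) fun a b => a4 (by omega) a (hL' a) b (hL' b))
      ((exists_two _ _ h1 h2 (by omega)).imp fun _ h => h.2)
  have k : ∀ i, 3 + i ≤ N + 4 → V i ≤ Φ.range := fun i hi => by
    rw [← hΦ i hi, MonoidHom.range_comp]
    exact Subgroup.map_le_range _ _
  refine inj_of_surj (surj_of_coprod (Φ := Φ) hf' (fun p => ?_) fun w => ?_) fun g =>
    (hs g).elim fun x h => ⟨f x, (hθ' x).trans h⟩
  · refine DFunLike.congr_fun hκ p ▸ gen_bl' 1 (by omega) (by omega) (Φ.range.comap κ) (fun j hj g => k j (by omega) ?_) p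
    exact ((congrArg _ (C.shift _ hj z3 (sh _ j hj))).trans (Ub_eq _ _)).le ⟨g, rfl⟩
  refine DFunLike.congr_fun hω w ▸ ((Submonoid.closure_le (S := (Φ.range.comap ω).toSubmonoid)).2 ?_
    ((Perm.mclosure_swap_castSucc_succ (N + 3)).ge (Submonoid.mem_top w)) :)
  rintro _ ⟨i, rfl⟩
  obtain ⟨p, hp⟩ := C.int (i := min i N) (s := Equiv.swap i.castSucc i.succ) (by omega) fun x hx =>
    swap_apply_of_ne_of_ne (Fin.ne_of_val_ne (by simp; omega)) (Fin.ne_of_val_ne (by simp; omega))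
  change ω (Equiv.swap _ _) ∈ Φ.range
  exact hp ▸ gen_bl' 1 (by omega) (by omega) (Φ.range.comap _)
    (fun j hj g => k _ (by omega) (((r _ _).2 j hj).le ⟨g, rfl⟩)) p

theorem pres_su_all (hn : 4 ≤ n) : Pr (SU n F q) 6 (if n ≤ 5 then 35 else 38) := by
  by_cases hq : q = 2
  · subst hq
    obtain rfl | h := hn.eq_or_lt
    · exact ((pres_su42 hF.out).pad 2).mono (by simp)
    · exact (pres_two h).mono (by split_ifs <;> omega)
  obtain rfl | rfl | h : n = 4 ∨ n = 5 ∨ 5 < n := by omega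
  · exact ((pres_su4 hq).pad 2).mono (by simp)
  · exact ((pres_sun hq le_rfl (pr_alt_small 3)).pad 1).mono (by simp)
  · exact (pres_sun hq h.le (pres_alt n (by omega)).1).mono (by split_ifs <;> omega)

end Cfsg.Agent.H77
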