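import Cfsg.Agent.H77.TC
import Mathlib.GroupTheory.Subgroup.Centralizer

/-!
Extending partial homomorphisms along simply connected graphs, for subgroups of a fixed group.
-/

set_option autoImplicit false

namespace Cfsg.Agent.H77

variable {Γ Ω H : Type*} [Group Γ] [MulAction Γ Ω] [Group H]

/-- Maps that are multiplicative on a subgroup. -/
def PH (L : Subgroup Γ) (f : Γ → H) : Prop := ∀ x ∈ L, ∀ y ∈ L, f (x * y) = f x * f y

/-- The homomorphism given by a multiplicative map. -/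
def PH.hom {L : Subgroup Γ} {f : Γ → H} (h : PH L f) : L →* H :=
  MonoidHom.mk' (fun x => f x) fun x y => h x x.2 y y.2

open Classical in
/-- Extension by one. -/
noncomputable def tot {L : Subgroup Γ} (f : L →* H) (g : Γ) : H := if h : g ∈ L then f ⟨g, h⟩ else 1

theorem tot_eq {L : Subgroup Γ} (f : L →* H) {g : Γ} (h : g ∈ L) : tot f g = f ⟨g, h⟩ := dif_pos h

theorem ph_tot {L : Subgroup Γ} (f : L →* H) : PH L (tot f) := fun x hx y hy => by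
  rw [tot_eq f hx, tot_eq f hy, tot_eq f (L.mul_mem hx hy), ← map_mul]; rfl

theorem PH.comm {L : Subgroup Γ} {f : Γ → H} (h : PH L f) {x y : Γ} (hx : x ∈ L) (hy : y ∈ L)
    (e : Commute x y) : Commute (f x) (f y) := (h x hx y hy).symm.trans (e.eq ▸ h y hy x hx)

/-- The elements whose image commutes with a given element. -/
def PH.cen {L : Subgroup Γ} {f : Γ → H} (h : PH L f) (y : H) : Subgroup Γ :=
  ((Subgroup.centralizer {y}).comap h.hom).map L.subtype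

theorem PH.mem_cen {L : Subgroup Γ} {f : Γ → H} (h : PH L f) {y : H} {x : Γ} :
    x ∈ h.cen y ↔ x ∈ L ∧ Commute (f x) y :=
  ⟨fun ⟨z, h1, h2⟩ => h2 ▸ ⟨z.2, Subgroup.mem_centralizer_singleton_iff.1 h1⟩,
    fun h1 => ⟨⟨x, h1.1⟩, Subgroup.mem_centralizer_singleton_iff.2 h1.2, rfl⟩⟩

/-- Triangles conjugate into an orbit of `K`. -/
def Good (G K : Subgroup Γ) (v x y z : Ω) : Prop :=
  ∃ g ∈ G, ∃ k ∈ K, ∃ k' ∈ K, g • v = x ∧ g • k • v = y ∧ g • k' • v = z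

/-- Geometric data for an extension step. -/
structure SG (G P K : Subgroup Γ) (v : Ω) (R : Ω → Ω → Prop) (S : Set Γ) : Prop where
  hP : P ≤ G
  hK : K ≤ G
  hS : ∀ s ∈ S, s ∈ K
  stab : ∀ g ∈ G, g • v = v ↔ g ∈ P
  symm : ∀ x y, R x y → R y x
  inv : ∀ g ∈ G, ∀ x y, R x y → R (g • x) (g • y)
  nbr : ∀ y, R v y → ∃ p ∈ P, ∃ s ∈ S, p • s • v = y
  nbrK : ∀ k ∈ K, R v (k • v) → ∃ p ∈ K, ∃ s ∈ S, p • v = v ∧ p • s • v = k • v
  adj : ∀ s ∈ S, R v (s • v)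
  orb : ∀ x y, R x y → ∃ g ∈ G, g • v = x
  lnk1 : ∀ g ∈ G, ∃ z, R v z ∧ R z (g • v) ∧ ∀ z', R v z' → R z' (g • v) →
    ∃ w, R v w ∧ R w (g • v) ∧ R z w ∧ R z' w
  lnk2 : ∀ y y', R y y' → ∃ z, R v z ∧ R z y ∧ R z y'
  fill : ∀ x y z, R x y → R y z → R x z → Good G K v x y z ∨ ∃ w, R w x ∧ R w y ∧ R w z ∧
    Good G K v w x y ∧ Good G K v w y z ∧ Good G K v w x z

namespace SG

variable {G P K : Subgroup Γ} {v : Ω} {R : Ω → Ω → Prop} {S : Set Γ} (D : SG G P K v R S)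

/-- The associated graph data. -/
def tc : TC G Ω P K where
  i := Subgroup.inclusion D.hP
  j := Subgroup.inclusion D.hK
  v := v
  R := R
  S := {k | k.1 ∈ S}
  inj := Subgroup.inclusion_injective _
  fix p := (D.stab _ (D.hP p.2)).2 p.2
  stab g h := ⟨⟨g, (D.stab _ g.2).1 h⟩, rfl⟩
  inv g := D.inv g g.2
  nbr y h := by
    obtain ⟨p, h1, s, h2, h3⟩ := D.nbr y h
    exact ⟨⟨p, h1⟩, ⟨s, D.hS s h2⟩, h2, h3⟩
  orb x y h := by
    obtain ⟨g, h1, h2⟩ := D.orb x y h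
    exact ⟨⟨g, h1⟩, h2⟩

theorem conn (g : G) : Relation.ReflTransGen D.tc.R D.tc.v (g • D.tc.v) := by
  obtain ⟨z, h1, h2, -⟩ := D.lnk1 g g.2
  exact (Relation.ReflTransGen.single h1).tail h2

include D in
theorem gen (N : Subgroup Γ) (h1 : P ≤ N) (h2 : ∀ s ∈ S, s ∈ N) : G ≤ N := fun g hg =>
  D.tc.top_of_conn D.conn (N.subgroupOf G) (fun p => h1 p.2) (fun k hk => h2 k hk) ⟨g, hg⟩

include D in
theorem ext {φ κ : Γ → H} (hφ : PH P φ) (hκ : PH K κ) (ag : ∀ p ∈ P, p ∈ K → φ p = κ p)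
    (cm : ∀ p ∈ P, ∀ s ∈ S, ∀ s' ∈ S, p • s • v = s' • v → Commute p s ∧ Commute (φ p) (κ s)) :
    ∃ Φ : Γ → H, PH G Φ ∧ (∀ p ∈ P, Φ p = φ p) ∧ ∀ k ∈ K, R v (k • v) → Φ k = κ k := by
  have hc : D.tc.Cmp hφ.hom hκ.hom := fun p p' s hs s' hs' e => by
    have e1 : p.1 * s.1 = s'.1 * p'.1 := congrArg Subtype.val e
    obtain ⟨c1, c2⟩ := cm p p.2 s hs s' hs' (by
      rw [← mul_smul, e1, mul_smul, (D.stab _ (D.hP p'.2)).2 p'.2])
    have e2 : p'.1 * p.1⁻¹ = s'.1⁻¹ * s.1 := by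
      rw [mul_inv_eq_iff_eq_mul, mul_assoc, ← c1.eq, e1, inv_mul_cancel_left]
    have e3 := ag _ (P.mul_mem p'.2 (P.inv_mem p.2)) (e2 ▸ K.mul_mem (K.inv_mem s'.2) s.2)
    change hφ.hom (p' * p⁻¹) = _ at e3
    rw [e2, map_mul, map_inv, mul_inv_eq_iff_eq_mul] at e3
    rw [e3]
    change _ = _ * (hκ.hom (s'⁻¹ * s) * _)
    rw [map_mul, map_inv, mul_assoc, mul_inv_cancel_left]
    exact c2
  have hΨ : ∀ k : K, R v (k.1 • v) → D.tc.Ψ hφ.hom hκ.hom (D.tc.j k) = hκ.hom k := fun k hk => by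
    obtain ⟨p, h1, s, h2, h3, h4⟩ := D.nbrK k k.2 hk
    exact TC.Ψ_K hc (fun p k e => by
      have e1 : p.1 = k.1 := congrArg Subtype.val e
      exact (ag p p.2 (e1 ▸ k.2)).trans (congrArg κ e1)) (k1 := ⟨p, h1⟩) (s := ⟨s, D.hS s h2⟩) h2 h3 h4
  obtain ⟨c, hc'⟩ : ∃ c, c = D.tc.c hφ.hom hκ.hom := ⟨_, rfl⟩
  have cj : ∀ (g : G) (k k' : K), R (g.1 • k.1 • v) (g.1 • k'.1 • v) →
      c (g.1 • k.1 • v) (g.1 • k'.1 • v) = D.tc.a hφ.hom (g * D.tc.j k) * (hκ.hom k)⁻¹ *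
        (D.tc.a hφ.hom (g * D.tc.j k') * (hκ.hom k')⁻¹)⁻¹ := fun g k k' h => by
    have e : ∀ k : K, g.1 • k.1 • v = (g * D.tc.j k) • D.tc.v := fun k => (mul_smul _ _ _).symm
    rw [e, e] at h ⊢
    have := D.tc.R_div h
    rw [hc', TC.c_eq hc h]
    rw [mul_inv_rev, mul_assoc _ g⁻¹, inv_mul_cancel_left, ← map_inv, ← map_mul] at this ⊢
    rw [hΨ (k⁻¹ * k') this, map_mul, map_inv]
    group
  have t0 : ∀ x y z, R x y → R y z → R x z → Good G K v x y z → c x y * c y z = c x z := by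
    rintro _ _ _ h1 h2 h3 ⟨g, hg, k, hk, k', hk', rfl, rfl, rfl⟩
    have a1 := cj ⟨g, hg⟩ 1 ⟨k, hk⟩ (by simpa using h1)
    have a2 := cj ⟨g, hg⟩ 1 ⟨k', hk'⟩ (by simpa using h3)
    simp only [OneMemClass.coe_one, one_smul] at a1 a2
    rw [a1, a2, cj ⟨g, hg⟩ ⟨k, hk⟩ ⟨k', hk'⟩ h2]; group
  have t : ∀ x y z, R x y → R y z → R x z → c x y * c y z = c x z := fun x y z h1 h2 h3 => by
    rcases D.fill x y z h1 h2 h3 with h | ⟨w, a1, a2, a3, b1, b2, b3⟩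
    · exact t0 _ _ _ h1 h2 h3 h
    · rw [← mul_right_inj (c w x), ← mul_assoc, t0 _ _ _ a1 h1 a2 b1, t0 _ _ _ a2 h2 a3 b2,
        t0 _ _ _ a1 h3 a3 b3]
  have ex : ∀ y, ∃ a, ∀ z, R v z → R z y → c v z * c z y = a := fun y => by
    by_cases h : ∃ z, R z y
    · obtain ⟨g, hg, rfl⟩ := D.orb y _ (D.symm _ _ h.choose_spec)
      obtain ⟨z, h1, h2, h3⟩ := D.lnk1 g hg
      refine ⟨c v z * c z (g • v), fun z' a1 a2 => ?_⟩
      obtain ⟨w, b1, b2, b3, b4⟩ := h3 z' a1 a2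
      rw [← t _ _ _ b4 b2 a2, ← t _ _ _ b3 b2 h2, ← mul_assoc, ← mul_assoc, t _ _ _ a1 b4 b1,
        t _ _ _ h1 b3 b1]
    · exact ⟨1, fun z _ hz => absurd ⟨z, hz⟩ h⟩
  choose f hf using ex
  obtain ⟨Φ, h1, h2⟩ := TC.exists_hom hc D.conn (fun k hk => D.adj k hk) f fun y y' h => by
    obtain ⟨z, a1, a2, a3⟩ := D.lnk2 y y' h
    rw [← hf y z a1 a2, ← hf y' z a1 a3, ← hc', mul_assoc, t _ _ _ a2 h a3]
  refine ⟨tot Φ, ph_tot Φ, fun p hp => (tot_eq _ (D.hP hp)).trans (h1 ⟨p, hp⟩), fun k hk h => ?_⟩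
  obtain ⟨p, s, hs, p', e⟩ := D.tc.exists_dec (g := D.tc.j ⟨k, hk⟩) h
  refine (tot_eq _ (D.hK hk)).trans ((congrArg Φ e.symm).trans (Eq.trans ?_ (hΨ ⟨k, hk⟩ h)))
  rw [← e, TC.Ψ_eq hc _ _ hs, map_mul, map_mul, h1, h1, h2 s hs]

end SG

end Cfsg.Agent.H77
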