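import Cfsg.Agent.H77.SG
import Cfsg.Agent.H27.Sp

/-!
The symplectic group as an iterated extension of small subgroups: geometry.
-/

set_option autoImplicit false

namespace Cfsg.Agent.H77

open Matrix H27 Sum

variable {F : Type*} [Field F] {n : ℕ}

local notation "Γ" => Matrix.symplecticGroup (Fin n) F
local notation "𝐕" => Fin n ⊕ Fin n → F
local notation "𝐁" => sympBilin n F

theorem exists_avoid3 (hF : ∃ a : F, a ≠ 0 ∧ a ≠ 1) {V : Type*} [AddCommGroup V] [Module F V]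
    (W : Submodule F V) {a b c : V →ₗ[F] F} (ha : ∃ u ∈ W, a u ≠ 0) (hb : ∃ u ∈ W, b u ≠ 0)
    (hc : ∃ u ∈ W, c u ≠ 0) : ∃ u ∈ W, a u ≠ 0 ∧ b u ≠ 0 ∧ c u ≠ 0 := by
  have two : ∀ {a b : V →ₗ[F] F}, (∃ u ∈ W, a u ≠ 0) → (∃ u ∈ W, b u ≠ 0) →
      ∃ u ∈ W, a u ≠ 0 ∧ b u ≠ 0 := fun {a b} ⟨u, h1, h2⟩ ⟨v, h3, h4⟩ => by
    by_cases e : b u = 0
    · by_cases e' : a v = 0
      · exact ⟨u + v, W.add_mem h1 h3, by simpa [e'], by simpa [e]⟩
      · exact ⟨v, h3, e', h4⟩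
    · exact ⟨u, h1, h2, e⟩
  obtain ⟨t, t0, t1⟩ := hF
  obtain ⟨u, h1, h2, h3⟩ := two ha hb
  obtain ⟨v, h4, h5, h6⟩ := two ha hc
  obtain ⟨w, h7, h8, h9⟩ := two hb hc
  by_cases e1 : c u = 0
  swap; · exact ⟨u, h1, h2, h3, e1⟩
  by_cases e2 : b v = 0
  swap; · exact ⟨v, h4, h5, e2, h6⟩
  by_cases e3 : a (u + v) = 0
  · refine ⟨u + t • v, W.add_mem h1 (W.smul_mem _ h4), fun e => ?_, by simpa [e2], by simp [e1, t0, h6]⟩
    simp only [map_add, map_smul, smul_eq_mul] at e e3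
    exact mul_ne_zero (sub_ne_zero.2 t1) h5 (by linear_combination e - e3)
  · exact ⟨u + v, W.add_mem h1 h4, e3, by simpa [e2], by simpa [e1]⟩

/-- The index of a basis vector. -/
def six (a : Fin n ⊕ Fin n) : ℕ := a.elim Fin.val Fin.val

@[simp] theorem six_inl (i : Fin n) : six (inl i) = i := rfl
@[simp] theorem six_inr (i : Fin n) : six (inr i) = i := rfl

variable (F) in
/-- Basis vectors. -/
abbrev sbv (a : Fin n ⊕ Fin n) : 𝐕 := Pi.single a 1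

local notation "𝐞" i:max => sbv F (inl i)
local notation "𝐟" i:max => sbv F (inr i)

theorem B_e (i : Fin n) (u : 𝐕) : 𝐁 (𝐞 i) u = -u (inr i) := by
  rw [sympBilin_apply, sympForm_single_inl_left]

theorem B_f (i : Fin n) (u : 𝐕) : 𝐁 (𝐟 i) u = u (inl i) := by
  rw [sympBilin_apply, sympForm_single_inr_left]

theorem B_self (u : 𝐕) : 𝐁 u u = 0 := sympBilin_isAlt u

theorem B_swap (u v : 𝐕) : 𝐁 u v = -𝐁 v u := (sympBilin_isAlt.neg_eq v u).symm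

theorem B_smul (g : Γ) (u v : 𝐕) : 𝐁 (g • u) (g • v) = 𝐁 u v := by
  rw [sympBilin_apply, sympBilin_apply]; exact sp_sympForm g u v

theorem B_ne {u v : 𝐕} (h : 𝐁 u v ≠ 0) : 𝐁 v u ≠ 0 := by rw [B_swap]; simpa

theorem B_sbv {a : Fin n ⊕ Fin n} {u : 𝐕} : 𝐁 (sbv F a) u = 0 ↔ u a.swap = 0 := by
  cases a <;> simp [B_e, B_f]

variable (F) in
/-- Pointwise stabilisers of sets of basis vectors. -/
def Fx (I : Fin n ⊕ Fin n → Prop) : Subgroup Γ where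
  carrier := {g | ∀ a, I a → g • sbv F a = sbv F a}
  one_mem' _ _ := one_smul _ _
  mul_mem' h h' a ha := by rw [mul_smul, h' a ha, h a ha]
  inv_mem' h a ha := by rw [inv_smul_eq_iff, h a ha]

variable (F n) in
/-- Coordinate subspaces. -/
def Pp (p : ℕ → Prop) : Submodule F 𝐕 where
  carrier := {x | ∀ a, p (six a) → x a = 0}
  zero_mem' _ _ := rfl
  add_mem' h h' a ha := by simp [h a ha, h' a ha]
  smul_mem' c x h a ha := by simp [h a ha]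

variable (F n) in
/-- Pointwise stabilisers of sets of hyperbolic pairs. -/
abbrev Fp (p : ℕ → Prop) : Subgroup Γ := Fx F fun a => p (six a)

theorem Fx_le {I J : Fin n ⊕ Fin n → Prop} (h : ∀ a, J a → I a) : Fx F I ≤ Fx F J :=
  fun _ hg a ha => hg a (h a ha)

theorem sbv_mem {p : ℕ → Prop} {a : Fin n ⊕ Fin n} (h : ¬ p (six a)) : sbv F a ∈ Pp F n p :=
  fun b hb => Pi.single_eq_of_ne (fun e : b = a => h (e ▸ hb)) _

theorem Fx_coord {I : Fin n ⊕ Fin n → Prop} {g : Γ} (hg : g ∈ Fx F I) {a : Fin n ⊕ Fin n}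
    (ha : I a.swap) (x : 𝐕) : (g • x) a = x a := by
  have : 𝐁 (sbv F a.swap) (g • x - x) = 0 := by
    rw [map_sub, sub_eq_zero]; nth_rw 1 [← hg _ ha]; exact B_smul _ _ _
  rwa [B_sbv, swap_swap, Pi.sub_apply, sub_eq_zero] at this

theorem Pp_smul {I : Fin n ⊕ Fin n → Prop} {g : Γ} (hg : g ∈ Fx F I) {p : ℕ → Prop}
    (h : ∀ a, p (six a) → I a) {x : 𝐕} (hx : x ∈ Pp F n p) : g • x ∈ Pp F n p := fun a ha => by
  rw [Fx_coord hg (h _ (by cases a <;> exact ha)), hx a ha]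

theorem Fx_fix {I : Fin n ⊕ Fin n → Prop} {g : Γ} (hg : g ∈ Fx F I) {x : 𝐕}
    (hx : ∀ a, ¬ I a → x a = 0) : g • x = x := by
  rw [pi_eq_sum_univ' x, Finset.smul_sum]
  refine Finset.sum_congr rfl fun a _ => ?_
  by_cases e : I a
  · rw [smul_comm, hg a e]
  · simp [hx a e]

theorem Fx_comm {I J : Fin n ⊕ Fin n → Prop} (h : ∀ a, I a.swap ∨ J a) {g g' : Γ} (hg : g ∈ Fx F I)
    (hg' : g' ∈ Fx F J) : Commute g g' := sp_ext fun x => by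
  have e1 := Fx_fix hg' (x := g • x - x) fun a ha => by
    simp [Fx_coord hg ((h a).resolve_right ha)]
  have e2 := Fx_fix hg (x := g' • x - x) fun a ha => by
    simp [Fx_coord hg' ((h a.swap).resolve_left (by simpa using ha))]
  change (g * g') • x = (g' * g) • x
  rw [smul_sub, sub_eq_iff_eq_add] at e1 e2
  rw [mul_smul, mul_smul, e1, e2]; abel

theorem exists_B_ne {p : ℕ → Prop} {x : 𝐕} (hx : x ∈ Pp F n p) (x0 : x ≠ 0) :
    ∃ u ∈ Pp F n p, 𝐁 x u ≠ 0 := by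
  obtain ⟨a, ha⟩ := Function.ne_iff.1 x0
  exact ⟨sbv F a.swap, sbv_mem fun e => ha (hx a (by cases a <;> exact e)), B_ne (by
    simpa [B_sbv] using ha)⟩

theorem witt_rel (p : ℕ → Prop) {ι : Type} {u v : ι → 𝐕} (hu : LinearIndependent F u)
    (hv : LinearIndependent F v) (h1 : ∀ i, u i ∈ Pp F n p) (h2 : ∀ i, v i ∈ Pp F n p)
    (h : ∀ i j, 𝐁 (u i) (u j) = 𝐁 (v i) (v j)) :
    ∃ g ∈ Fp F n p, ∀ i, g • u i = v i := by
  have k : ∀ {u : ι → 𝐕}, LinearIndependent F u → (∀ i, u i ∈ Pp F n p) → LinearIndependent F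
      (Sum.elim u fun a : {a : Fin n ⊕ Fin n // p (six a)} => sbv F a.1) := fun hu h1 =>
    hu.sum_type ((Pi.linearIndependent_single_one _ F).comp _ Subtype.val_injective)
      (Disjoint.mono (Submodule.span_le.2 (Set.range_subset_iff.2 h1)) (Submodule.span_le.2
        (Set.range_subset_iff.2 fun a => sbv_mem (p := fun i => ¬ p i) (not_not.2 a.2)))
        (Submodule.disjoint_def.2 fun x h h' => funext fun a => (em _).elim (h a) (h' a)))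
  have k2 : ∀ {x : 𝐕}, x ∈ Pp F n p → ∀ a : {a : Fin n ⊕ Fin n // p (six a)}, 𝐁 (sbv F a.1) x = 0 :=
    fun hx a => B_sbv.2 (hx _ (by obtain ⟨a | a, h⟩ := a <;> exact h))
  obtain ⟨g, hg⟩ := sp_witt_family (k hu h1) (k hv h2) (by
    simp only [← sympBilin_apply]
    rintro (i | i) (j | j)
    · exact h i j
    · exact (B_swap _ _).trans ((congrArg _ ((k2 (h1 i) j).trans (k2 (h2 i) j).symm)).trans
        (B_swap _ _).symm)
    · exact (k2 (h1 j) i).trans (k2 (h2 j) i).symm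
    · rfl)
  exact ⟨g, fun a ha => hg (inr ⟨a, ha⟩), fun i => hg (inl i)⟩

theorem witt1 (p : ℕ → Prop) {x y : 𝐕} (hx : x ∈ Pp F n p) (hy : y ∈ Pp F n p) (x0 : x ≠ 0)
    (y0 : y ≠ 0) : ∃ g ∈ Fp F n p, g • x = y :=
  (witt_rel p (u := fun _ : Unit => x) (v := fun _ => y) (by simpa) (by simpa) (fun _ => hx)
    (fun _ => hy) fun _ _ => by rw [B_self, B_self]).imp fun _ h => ⟨h.1, h.2 ()⟩

theorem witt2 (p : ℕ → Prop) {x y x' y' : 𝐕} (hx : x ∈ Pp F n p) (hy : y ∈ Pp F n p)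
    (hx' : x' ∈ Pp F n p) (hy' : y' ∈ Pp F n p) (h : 𝐁 x y = 𝐁 x' y') (h0 : 𝐁 x' y' ≠ 0) :
    ∃ g ∈ Fp F n p, g • x = x' ∧ g • y = y' :=
  (witt_rel p (u := ![x, y]) (v := ![x', y']) (linearIndependent_pair_of_sympForm_ne_zero (by
    rwa [← sympBilin_apply, h])) (linearIndependent_pair_of_sympForm_ne_zero (by
      rwa [← sympBilin_apply])) (by simp [Fin.forall_fin_succ, *]) (by simp [Fin.forall_fin_succ, *])
    (by simp [Fin.forall_fin_succ, B_self, h, B_swap y x, B_swap y' x'])).imp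
    fun _ h => ⟨h.1, h.2 0, h.2 1⟩

theorem li3 {r x y : 𝐕} (r0 : r ≠ 0) (h1 : 𝐁 x r = 0) (h2 : 𝐁 y r = 0) (h : 𝐁 x y ≠ 0) :
    LinearIndependent F ![r, x, y] := Fintype.linearIndependent_iff.2 fun c hc => by
  simp only [Fin.sum_univ_three, cons_val] at hc
  have a1 := congrArg (𝐁 x) hc
  have a2 := congrArg (𝐁 y) hc
  simp [h1, h2, h, B_self, B_ne h] at a1 a2
  simp [a1, a2, r0] at hc
  simp [Fin.forall_fin_succ, a1, a2, hc]

theorem witt3 (p : ℕ → Prop) {r x y r' x' y' : 𝐕} (hr : r ∈ Pp F n p) (hx : x ∈ Pp F n p)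
    (hy : y ∈ Pp F n p) (hr' : r' ∈ Pp F n p) (hx' : x' ∈ Pp F n p) (hy' : y' ∈ Pp F n p)
    (r0 : r ≠ 0) (r0' : r' ≠ 0) (a1 : 𝐁 x r = 0) (a2 : 𝐁 y r = 0) (a3 : 𝐁 x' r' = 0)
    (a4 : 𝐁 y' r' = 0) (h : 𝐁 x y = 𝐁 x' y') (h0 : 𝐁 x' y' ≠ 0) :
    ∃ g ∈ Fp F n p, g • r = r' ∧ g • x = x' ∧ g • y = y' :=
  (witt_rel p (li3 r0 a1 a2 (h ▸ h0)) (li3 r0' a3 a4 h0) (by simp [Fin.forall_fin_succ, *])
    (by simp [Fin.forall_fin_succ, *]) (by simp [Fin.forall_fin_succ, B_self, h, B_swap y x,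
      B_swap y' x', B_swap r x, B_swap r y, B_swap r' x', B_swap r' y', a1, a2, a3, a4])).imp
    fun _ h => ⟨h.1, h.2 0, h.2 1, h.2 2⟩

variable (F n) in
/-- The abelian subgroups of the amalgam. -/
abbrev SM (i : ℕ) : Subgroup Γ := Fx F fun a => a.isLeft ∨ (six a ≠ i ∧ six a ≠ i + 1)

variable (F n) in
/-- Vector stabilisers. -/
abbrev SB (k : ℕ) : Subgroup Γ := Fx F fun a => k < six a ∨ (a.isLeft ∧ six a = k)

section Step

variable {i k : Fin n} (hk : k.1 = i + 1)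
include hk

theorem exists_SM {y : 𝐕} (hy : y ∈ Pp F n fun l => l ≠ i ∧ l ≠ i + 1) (h1 : y (inr i) = 0)
    (h2 : y (inr k) ≠ 0) : ∃ m ∈ SM F n i, m • y (inr k) • sbv F (inr k) = y := by
  have ik : i ≠ k := fun e => by simp [e] at hk
  obtain ⟨g, a1, a2, a3, a4⟩ := witt3 (fun l => l ≠ i ∧ l ≠ i + 1) (r := 𝐞 i) (x := 𝐞 k)
    (y := y (inr k) • 𝐟 k) (r' := 𝐞 i) (x' := 𝐞 k) (y' := y) (sbv_mem (by simp)) (sbv_mem (by simp [hk]))
    (Submodule.smul_mem _ _ (sbv_mem (by simp [hk]))) (sbv_mem (by simp)) (sbv_mem (by simp [hk])) hy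
    (by simp) (by simp) (by simp [B_e]) (by simp [B_f, ik, ik.symm]) (by simp [B_e])
    (by rw [B_swap, B_e, h1]; simp) (by simp [B_e]) (by simpa [B_e])
  refine ⟨g, ?_, a4⟩
  rintro (a | a) ha
  · by_cases e : a = i
    · exact e ▸ a2
    by_cases e' : a = k
    · exact e' ▸ a3
    exact a1 _ ⟨fun h => e (Fin.ext h), fun h => e' (Fin.ext (h.trans hk.symm))⟩
  · exact a1 _ (by simpa using ha)

theorem exists_s (c : F) : ∃ m ∈ SM F n i, m • sbv F (inr k) = 𝐟 k + 𝐞 i + c • 𝐞 k := by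
  simpa using exists_SM hk (y := 𝐟 k + 𝐞 i + c • 𝐞 k) (Submodule.add_mem _ (Submodule.add_mem _
    (sbv_mem (by simp [hk])) (sbv_mem (by simp))) (Submodule.smul_mem _ _ (sbv_mem (by simp [hk]))))
    (by simp [Pi.single_apply, Fin.ext_iff, hk]) (by simp)

variable (F k) in
/-- The vectors of the last hyperbolic planes orthogonal to `e_k`. -/
noncomputable def SW : Submodule F 𝐕 := Pp F n (k.1 < ·) ⊓ LinearMap.ker (𝐁 (𝐞 k))

variable (k) in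
/-- The first graph. -/
def R1 (x y : 𝐕) : Prop := x - 𝐟 k ∈ SW F k ∧ y - 𝐟 k ∈ SW F k ∧ ∃ u ∈ SW F k, 𝐁 u x ≠ 𝐁 u y

omit hk in
theorem SW_sub {x y : 𝐕} (hx : x - 𝐟 k ∈ SW F k) (hy : y - 𝐟 k ∈ SW F k) : y - x ∈ SW F k := by
  simpa using (SW F k).sub_mem hy hx

omit hk in
theorem SW_add {x u : 𝐕} (hx : x - 𝐟 k ∈ SW F k) (hu : u ∈ SW F k) : x + u - 𝐟 k ∈ SW F k := by
  rw [add_sub_right_comm]; exact (SW F k).add_mem hx hu

omit hk in
theorem SW_smul {g : Γ} (hg : g ∈ SB F n k) {u : 𝐕} (hu : u ∈ SW F k) : g • u ∈ SW F k :=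
  ⟨Pp_smul hg (fun _ => Or.inl) hu.1, by
    rw [SetLike.mem_coe, LinearMap.mem_ker, ← hg (inl k) (by simp), B_smul]; exact hu.2⟩

omit hk in
theorem SW_smul' {g : Γ} (hg : g ∈ SB F n k) {x : 𝐕} (hx : x - 𝐟 k ∈ SW F k) :
    g • x - 𝐟 k ∈ SW F k := by
  have := (SW F k).add_mem (SW_smul hg hx) (show g • sbv F (inr k) - 𝐟 k ∈ SW F k from
    ⟨Submodule.sub_mem _ (Pp_smul hg (fun _ => Or.inl) (sbv_mem (by simp))) (sbv_mem (by simp)), by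
      simp [B_e, Fx_coord hg]⟩)
  rwa [smul_sub, sub_add_sub_cancel] at this

theorem ei_mem : (𝐞 i) ∈ SW F k ∧ (𝐟 i) ∈ SW F k :=
  ⟨⟨sbv_mem (by simp [hk]), by simp [B_e]⟩, sbv_mem (by simp [hk]), by
    simp [B_e, Pi.single_apply, Fin.ext_iff, hk]⟩

theorem exists_far (hF : ∃ a : F, a ≠ 0 ∧ a ≠ 1) {x y z t : 𝐕} (hx : x - 𝐟 k ∈ SW F k)
    (hy : y - 𝐟 k ∈ SW F k) (hz : z - 𝐟 k ∈ SW F k) (ht : t - 𝐟 k ∈ SW F k) :
    ∃ w, R1 k x w ∧ R1 k y w ∧ R1 k z w ∧ R1 k t w := by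
  have key : ∀ y, y - 𝐟 k ∈ SW F k → ∃ a ∈ SW F k, (∃ u ∈ SW F k, 𝐁 a u ≠ 0) ∧ 𝐁 a y = 𝐁 a x :=
    fun y hy => by
      by_cases h : ∃ u ∈ SW F k, 𝐁 (y - x) u ≠ 0
      · exact ⟨_, SW_sub hx hy, h, by rw [← sub_eq_zero, ← map_sub, B_self]⟩
      · push Not at h
        exact ⟨_, (ei_mem hk).1, ⟨_, (ei_mem hk).2, by simp [B_e]⟩, by
          rw [← sub_eq_zero, ← map_sub, B_swap, h _ (ei_mem hk).1, neg_zero]⟩
  obtain ⟨a, a1, a2, a3⟩ := key y hy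
  obtain ⟨b, b1, b2, b3⟩ := key z hz
  obtain ⟨c, c1, c2, c3⟩ := key t ht
  obtain ⟨u, h1, h2, h3, h4⟩ := exists_avoid3 hF _ a2 b2 c2
  have := SW_add hx h1
  exact ⟨x + u, ⟨hx, this, a, a1, by simpa⟩, ⟨hy, this, a, a1, by simpa [a3]⟩,
    ⟨hz, this, b, b1, by simpa [b3]⟩, ht, this, c, c1, by simpa [c3]⟩

omit hk in
theorem SW_dec {y : 𝐕} (hy : y - 𝐟 k ∈ SW F k) : ∃ w ∈ Pp F n (k.1 ≤ ·), ∃ c : F,
    y = 𝐟 k + w + c • 𝐞 k := ⟨y - 𝐟 k - y (inl k) • 𝐞 k, fun a ha => by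
  rcases ha.eq_or_lt with h | h
  · obtain rfl | rfl : a = inl k ∨ a = inr k := by
      rcases a with a | a <;> simp [Fin.ext_iff, h]
    · simp
    · simpa [B_e] using neg_eq_zero.1 ((B_e _ _).symm.trans hy.2)
  · rw [Pi.sub_apply, hy.1 a h, Pi.smul_apply, sbv_mem (p := (k.1 < ·)) (by simp) a h]; simp,
  _, by abel⟩

omit hk in
theorem orb1 {x : 𝐕} (hx : x - 𝐟 k ∈ SW F k) : ∃ g ∈ SB F n k, g • sbv F (inr k) = x := by
  have h : x (inr k) = 1 := by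
    simpa [sub_eq_zero] using neg_eq_zero.1 ((B_e _ _).symm.trans hx.2)
  obtain ⟨g, h1, h2, h3⟩ := witt2 (k.1 < ·) (x := 𝐞 k) (y := 𝐟 k) (x' := 𝐞 k) (y' := x) (sbv_mem (by simp))
    (sbv_mem (by simp)) (sbv_mem (by simp)) (by
      simpa using Submodule.add_mem _ hx.1 (sbv_mem (a := inr k) (by simp))) (by simp [B_e, h])
      (by simp [B_e, h])
  refine ⟨g, fun a ha => ha.elim (h1 a) ?_, h3⟩
  rcases a with a | a <;> simp only [isLeft_inl, six_inl, Fin.val_inj, true_and, isLeft_inr]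
  · rintro rfl; exact h2
  · simp

theorem good1 {x y z : 𝐕} (hx : x - 𝐟 k ∈ SW F k) (hy : y - 𝐟 k ∈ SW F k) (hz : z - 𝐟 k ∈ SW F k)
    (h : 𝐁 (y - x) (z - x) ≠ 0) : Good (SB F n k) (SM F n i ⊔ Fp F n (· ≠ i)) (𝐟 k) x y z := by
  obtain ⟨g, hg, rfl⟩ := orb1 hx
  obtain ⟨w, w1, c, e1⟩ := SW_dec (SW_smul' (inv_mem hg) hy)
  obtain ⟨w', w2, c', e2⟩ := SW_dec (SW_smul' (inv_mem hg) hz)
  rw [inv_smul_eq_iff] at e1 e2
  have h0 : 𝐁 w w' ≠ 0 := by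
    rw [e1, e2, ← smul_sub, ← smul_sub, B_smul] at h
    simpa [add_assoc, B_e, B_swap w (𝐞 k), w1 (inr k) le_rfl, w2 (inr k) le_rfl] using h
  obtain ⟨p, p1, p2, p3⟩ := witt2 (k.1 ≤ ·) (x := 𝐞 i) (y := (-𝐁 w w') • 𝐟 i) (sbv_mem (by simp [hk]))
    (Submodule.smul_mem _ _ (sbv_mem (by simp [hk]))) w1 w2 (by simp [B_e]) h0
  obtain ⟨r, r1, r2⟩ := witt1 (· ≠ i) (x := 𝐞 i) (y := (-𝐁 w w') • 𝐟 i) (sbv_mem (by simp))
    (Submodule.smul_mem _ _ (sbv_mem (by simp))) (by simp) (by simpa)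
  obtain ⟨s, s1, s2⟩ := exists_s hk c
  obtain ⟨s', s3, s4⟩ := exists_s hk c'
  have a1 := p1 (inl k) le_rfl
  have a2 := p1 (inr k) le_rfl
  refine ⟨g * p, mul_mem hg (Fx_le (by rintro a (h | h) <;> omega) p1), s, Subgroup.mem_sup_left s1,
    r * s', mul_mem (Subgroup.mem_sup_right r1) (Subgroup.mem_sup_left s3), by rw [mul_smul, a2], ?_, ?_⟩
  · rw [e1, s2, mul_smul, smul_add p, smul_add p, smul_comm p, a1, a2, p2]
  · rw [e2, mul_smul r, s4, smul_add r, smul_add r, smul_comm r, r2, r1 (inl k) (by simp [hk]),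
      r1 (inr k) (by simp [hk]), mul_smul, smul_add p, smul_add p, smul_comm p c', a1, a2, p3]

theorem nbr1 (p : ℕ → Prop) (hi : ¬ p i) (hp : p k) {w : 𝐕} (hw : w ∈ Pp F n p) {c : F}
    (h : R1 k (𝐟 k) (𝐟 k + w + c • 𝐞 k)) : ∃ g ∈ Fp F n p, ∃ s ∈ {m ∈ SM F n i | ∃ c : F,
      m • sbv F (inr k) = 𝐟 k + 𝐞 i + c • 𝐞 k}, g • s • sbv F (inr k) = 𝐟 k + w + c • 𝐞 k := by
  obtain ⟨g, h1, h2⟩ := witt1 p (x := 𝐞 i) (sbv_mem hi) hw (by simp) (by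
    rintro rfl
    obtain ⟨u, h1, h2⟩ := h.2.2
    exact h2 (by simp [B_swap u (𝐞 k), LinearMap.mem_ker.1 h1.2]))
  obtain ⟨s, s1, s2⟩ := exists_s hk c
  exact ⟨g, h1, s, ⟨s1, c, s2⟩, by
    rw [s2, smul_add, smul_add, smul_comm, h2, h1 (inl k) hp, h1 (inr k) hp]⟩

theorem sg1 (hF : ∃ a : F, a ≠ 0 ∧ a ≠ 1) : SG (SB F n k) (Fp F n (k.1 ≤ ·)) (SM F n i ⊔ Fp F n (· ≠ i))
    (𝐟 k) (R1 k) {m ∈ SM F n i | ∃ c : F, m • sbv F (inr k) = 𝐟 k + 𝐞 i + c • 𝐞 k} := by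
  have hK : SM F n i ⊔ Fp F n (· ≠ i) ≤ Fx F fun a => (six a ≠ i ∧ six a ≠ k) ∨ a = inl k :=
    sup_le (Fx_le (by rintro a (h | rfl) <;> simp_all)) (Fx_le (by
      rintro a (h | rfl) <;> simp [*]))
  have hK' : SM F n i ⊔ Fp F n (· ≠ i) ≤ SB F n k := hK.trans (Fx_le (by
    rintro (a | a) <;> simp [Fin.ext_iff] <;> omega))
  have f0 : 𝐟 k - 𝐟 k ∈ SW F k := by simp
  have sy : ∀ x y : 𝐕, R1 k x y → R1 k y x := fun x y ⟨h1, h2, u, h3, h4⟩ => ⟨h2, h1, u, h3, h4.symm⟩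
  refine ⟨Fx_le (by rintro a (h | h) <;> omega), hK', fun s hs => Subgroup.mem_sup_left hs.1,
    fun g hg => ⟨fun h a ha => ?_, fun h => h _ le_rfl⟩, sy,
    fun g hg x y ⟨h1, h2, u, h3, h4⟩ => ⟨SW_smul' hg h1, SW_smul' hg h2, _, SW_smul hg h3, by
      rwa [B_smul, B_smul]⟩, fun y h => ?_, fun g hg h => ?_, fun s ⟨h1, c, h2⟩ => ⟨f0,
      SW_smul' (hK' (Subgroup.mem_sup_left h1)) f0, _, (ei_mem hk).2, by
        simp [h2, B_f, Pi.single_apply, Fin.ext_iff, hk]⟩, fun x y h => orb1 h.1, fun g hg => ?_,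
    fun y y' h => ?_, fun x y z h1 h2 h3 => ?_⟩
  · rcases ha.eq_or_lt with e | e
    · rcases a with a | a
      · exact hg _ (Or.inr ⟨rfl, e.symm⟩)
      · rwa [show a = k from Fin.ext e.symm]
    · exact hg _ (Or.inl e)
  · obtain ⟨w, h1, c, rfl⟩ := SW_dec h.2.1
    exact nbr1 hk _ (by omega) le_rfl h1 h
  · obtain ⟨w, h1, c, e⟩ := SW_dec h.2.1
    rw [e] at h ⊢
    obtain ⟨p, h2, s, h3, h4⟩ := nbr1 hk (· ≠ i) (by simp) (by omega) (fun a ha => by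
      by_cases e' : six a = k
      · exact h1 a e'.ge
      · have := Fx_coord (hK hg) (a := a) (Or.inl (by cases a <;> exact ⟨ha, e'⟩)) (𝐟 k)
        rw [e] at this
        simpa [sbv_mem (F := F) (p := (· ≠ k.1)) (a := inl k) (by simp) a e'] using this) h
    exact ⟨p, Subgroup.mem_sup_right h2, s, h3, h2 _ (by simp [hk]), h4⟩
  · have := SW_smul' hg f0
    obtain ⟨z, h1, h2, -⟩ := exists_far hk hF f0 this f0 f0
    refine ⟨z, h1, sy _ _ h2, fun z' a1 a2 => ?_⟩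
    obtain ⟨w, b1, b2, b3, b4⟩ := exists_far hk hF f0 this h1.2.1 a2.1
    exact ⟨w, b1, sy _ _ b2, b3, b4⟩
  · obtain ⟨z, h1, h2, h3, -⟩ := exists_far hk hF f0 h.1 h.2.1 f0
    exact ⟨z, h1, sy _ _ h2, sy _ _ h3⟩
  by_cases h0 : 𝐁 (y - x) (z - x) = 0
  swap; · exact Or.inl (good1 hk h1.1 h2.1 h3.2.1 h0)
  have key : ∀ {x y : 𝐕}, R1 k x y → ∃ u ∈ SW F k, 𝐁 (y - x) u ≠ 0 := fun ⟨_, _, u, h1, h2⟩ =>
    ⟨u, h1, B_ne (by rw [map_sub, sub_ne_zero]; exact h2.symm)⟩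
  obtain ⟨u, a1, a2, a3, a4⟩ := exists_avoid3 hF _ (key h1) (key h2) (key h3)
  have hw := SW_add h1.1 a1
  obtain ⟨a, rfl⟩ : ∃ a, y = x + a := ⟨y - x, by abel⟩
  obtain ⟨b, rfl⟩ : ∃ b, z = x + b := ⟨z - x, by abel⟩
  have b1 := SW_sub h1.1 h1.2.1
  have b2 := SW_sub h3.1 h3.2.1
  simp only [add_sub_cancel_left, add_sub_add_left_eq_sub] at h0 a2 a3 a4 b1 b2
  refine Or.inr ⟨x + u, ⟨hw, h1.1, a, b1, by simpa⟩, ⟨hw, h2.1, a, b1, by simpa [B_self]⟩,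
    ⟨hw, h3.2.1, b, b2, by simpa [B_self]⟩, good1 hk hw h1.1 h2.1 ?_, good1 hk hw h2.1 h3.2.1 ?_,
    good1 hk hw h1.1 h3.2.1 ?_⟩
  · simpa [B_self] using B_ne a2
  · simpa [B_self, h0, B_swap u b, neg_add_eq_sub] using a3
  · simpa [B_self] using B_ne a4

variable (k) in
/-- The second graph. -/
def R2 (x y : 𝐕) : Prop := x ∈ Pp F n (k.1 < ·) ∧ y ∈ Pp F n (k.1 < ·) ∧ 𝐁 x y ≠ 0

omit hk in
theorem exists_t {c : F} (hc : c ≠ 0) : ∃ s ∈ Fp F n (· ≠ k.1), s • sbv F (inl k) = c • 𝐟 k :=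
  witt1 _ (sbv_mem (by simp)) (Submodule.smul_mem _ _ (sbv_mem (by simp))) (by simp) (by simpa)

theorem orbK {y : 𝐕} (hy : y ∈ Pp F n fun l => l ≠ i ∧ l ≠ i + 1) (h1 : y (inr i) = 0)
    (h2 : y (inr k) ≠ 0) : ∃ m ∈ SM F n i, ∃ s ∈ {s ∈ Fp F n (· ≠ k.1) | ∃ c : F, c ≠ 0 ∧
      s • sbv F (inl k) = c • 𝐟 k}, m • s • sbv F (inl k) = y := by
  obtain ⟨m, a1, a2⟩ := exists_SM hk hy h1 h2
  obtain ⟨s, a3, a4⟩ := exists_t (k := k) h2
  exact ⟨m, a1, s, ⟨a3, _, h2, a4⟩, by rw [a4, a2]⟩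

theorem good2 {x y z : 𝐕} (h1 : R2 k x y) (h2 : R2 k x z) :
    Good (Fp F n (k.1 < ·)) (SM F n i ⊔ Fp F n (· ≠ k)) (𝐞 k) x y z := by
  have ik : i ≠ k := fun e => by simp [e] at hk
  obtain ⟨c, hc⟩ : ∃ c, c = -𝐁 x y := ⟨_, rfl⟩
  have c0 : c ≠ 0 := hc ▸ neg_ne_zero.2 h1.2.2
  obtain ⟨r, hr⟩ : ∃ r, z = (𝐁 y z / c) • x + (-𝐁 x z / c) • y + r :=
    ⟨z - _, (add_sub_cancel _ _).symm⟩
  have a1 := congrArg (𝐁 x) hr
  have a2 := congrArg (𝐁 y) hr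
  simp only [map_add, map_smul, B_self, B_swap y x, ← hc, smul_eq_mul, show 𝐁 x y = -c by simp [hc]]
    at a1 a2
  replace a1 : 𝐁 x r = 0 := mul_left_cancel₀ c0 (by field_simp at a1; linear_combination -a1)
  replace a2 : 𝐁 y r = 0 := mul_left_cancel₀ c0 (by field_simp at a2; linear_combination -a2)
  have m1 := sbv_mem (F := F) (p := (k.1 < ·)) (a := inl k) (by simp)
  have m2 := Submodule.smul_mem _ c (sbv_mem (F := F) (p := (k.1 < ·)) (a := inr k) (by simp))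
  obtain ⟨g, hg, d, g1, g2, g3⟩ : ∃ g ∈ Fp F n (k.1 < ·), ∃ d : F, g • d • sbv F (inl i) = r ∧
      g • sbv F (inl k) = x ∧ g • c • sbv F (inr k) = y := by
    by_cases r0 : r = 0
    · obtain ⟨g, b1, b2⟩ := witt2 _ m1 m2 h1.1 h1.2.1 (by simp [B_e, hc]) h1.2.2
      exact ⟨g, b1, 0, by simp [r0], b2⟩
    · obtain ⟨g, b1, b2⟩ := witt3 _ (r := 𝐞 i) (sbv_mem (by simp [hk])) m1 m2 (by
        simpa [← eq_sub_of_add_eq' hr.symm] using Submodule.sub_mem _ h2.2.1 (Submodule.add_mem _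
          (Submodule.smul_mem _ (𝐁 y z / c) h1.1) (Submodule.smul_mem _ (-𝐁 x z / c) h1.2.1)))
        h1.1 h1.2.1 (by simp) r0 (by simp [B_e]) (by simp [B_f, ik.symm]) a1 a2 (by simp [B_e, hc])
        h1.2.2
      exact ⟨g, b1, 1, by simpa using b2⟩
  obtain ⟨s, s1, s2⟩ := exists_t (k := k) c0
  obtain ⟨m, b1, s', b2, b3⟩ := orbK hk (y := (𝐁 y z / c) • 𝐞 k + (-𝐁 x z / c) • c • 𝐟 k + d • 𝐞 i)
    (Submodule.add_mem _ (Submodule.add_mem _ (Submodule.smul_mem _ _ (sbv_mem (by simp [hk])))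
      (Submodule.smul_mem _ _ (Submodule.smul_mem _ _ (sbv_mem (by simp [hk])))))
      (Submodule.smul_mem _ _ (sbv_mem (by simp)))) (by simp [ik]) (by simp [c0, h2.2.2])
  refine ⟨g, hg, s, Subgroup.mem_sup_right s1, m * s', mul_mem (Subgroup.mem_sup_left b1)
    (Subgroup.mem_sup_right b2.1), g2, by rw [s2, g3], ?_⟩
  rw [mul_smul, b3, smul_add, smul_add, g1, smul_comm, g2, smul_comm, g3, ← hr]

theorem sg2 (hF : ∃ a : F, a ≠ 0 ∧ a ≠ 1) : SG (Fp F n (k.1 < ·)) (SB F n k) (SM F n i ⊔ Fp F n (· ≠ k))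
    (𝐞 k) (R2 k) {s ∈ Fp F n (· ≠ k.1) | ∃ c : F, c ≠ 0 ∧ s • sbv F (inl k) = c • 𝐟 k} := by
  have hK : SM F n i ⊔ Fp F n (· ≠ k) ≤ Fx F fun a => (six a ≠ i ∧ six a ≠ i + 1) ∨ a = inl i :=
    sup_le (Fx_le (by rintro a (h | rfl) <;> simp_all)) (Fx_le (by rintro a (h | rfl) <;> simp_all))
  have hK' : SM F n i ⊔ Fp F n (· ≠ k) ≤ Fp F n (k.1 < ·) := hK.trans (Fx_le fun a h => by omega)
  have m1 := sbv_mem (F := F) (p := (k.1 < ·)) (a := inl k) (by simp)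
  have m2 := sbv_mem (F := F) (p := (k.1 < ·)) (a := inr k) (by simp)
  have sy : ∀ x y : 𝐕, R2 k x y → R2 k y x := fun x y ⟨h1, h2, h3⟩ => ⟨h2, h1, B_ne h3⟩
  have n0 : ∀ {x y : 𝐕}, R2 k x y → x ≠ 0 := fun h e => h.2.2 (by simp [e])
  have av : ∀ {x y z : 𝐕}, x ∈ Pp F n (k.1 < ·) → y ∈ Pp F n (k.1 < ·) → z ∈ Pp F n (k.1 < ·) →
      x ≠ 0 → y ≠ 0 → z ≠ 0 → ∃ w, R2 k x w ∧ R2 k y w ∧ R2 k z w := fun a b c a0 b0 c0 =>
    (exists_avoid3 hF _ (exists_B_ne a a0) (exists_B_ne b b0) (exists_B_ne c c0)).imp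
      fun _ h => ⟨⟨a, h.1, h.2.1⟩, ⟨b, h.1, h.2.2.1⟩, c, h.1, h.2.2.2⟩
  have st : ∀ g ∈ Fp F n (k.1 < ·), g • sbv F (inl k) = 𝐞 k → g ∈ SB F n k := fun g hg h a ha =>
    ha.elim (hg a) (by
      rcases a with a | a <;> simp only [isLeft_inl, six_inl, Fin.val_inj, true_and, isLeft_inr]
      · rintro rfl; exact h
      · simp)
  refine ⟨Fx_le fun _ => Or.inl, hK', fun s hs => Subgroup.mem_sup_right hs.1,
    fun g hg => ⟨st g hg, fun h => h _ (by simp)⟩, sy, fun g hg x y ⟨h1, h2, h3⟩ =>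
      ⟨Pp_smul hg (fun _ => id) h1, Pp_smul hg (fun _ => id) h2, by rwa [B_smul]⟩, fun y h => ?_,
    fun g hg h => ?_, fun s ⟨h1, c, c0, h2⟩ => ⟨m1, h2 ▸ Submodule.smul_mem _ _ m2, by
      simpa [h2, B_e]⟩, fun x y h => witt1 _ m1 h.1 (by simp) (n0 h), fun g hg => ?_,
    fun y y' h => ?_, fun x y z h1 _ h3 => Or.inl (good2 hk h1 h3)⟩
  · have h0 : y (inr k) ≠ 0 := by simpa [B_e] using h.2.2
    obtain ⟨s, s1, s2⟩ := exists_t (k := k) h0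
    obtain ⟨p, p1, p2, p3⟩ := witt2 _ m1 (Submodule.smul_mem _ (y (inr k)) m2) m1 h.2.1
      (by simp [B_e]) h.2.2
    exact ⟨p, st p p1 p2, s, ⟨s1, _, h0, s2⟩, by rw [s2, p3]⟩
  · obtain ⟨m, h1, s, h2, h3⟩ := orbK hk (Pp_smul (hK hg) (fun _ => Or.inl) (sbv_mem (a := inl k) (by
      simp [hk]))) (by simp [Fx_coord (hK hg)]) (by simpa [B_e] using h.2.2)
    exact ⟨m, Subgroup.mem_sup_left h1, s, h2, h1 _ (by simp), h3⟩
  · have hy := Pp_smul hg (fun _ => id) m1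
    have y0 : g • sbv F (inl k) ≠ 0 := (smul_ne_zero_iff_ne g).2 (by simp)
    generalize g • sbv F (inl k) = y at hy y0
    obtain ⟨u, u1, u0, u2⟩ : ∃ u ∈ SW F k, u ≠ 0 ∧ 𝐁 y u = 0 := by
      by_cases e : y (inr i) = 0
      · exact ⟨_, (ei_mem hk).1, by simp, by rw [B_swap, B_e, e]; simp⟩
      · exact ⟨y (inl i) • 𝐞 i + y (inr i) • 𝐟 i, (SW F k).add_mem ((SW F k).smul_mem _ (ei_mem hk).1)
          ((SW F k).smul_mem _ (ei_mem hk).2), fun h => e (by simpa using congrFun h (inr i)), by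
            rw [B_swap]; simp [B_e, B_f, mul_comm]⟩
    obtain ⟨z, a1, a2, a3⟩ := av m1 hy u1.1 (by simp) y0 u0
    refine ⟨z, a1, sy _ _ a2, fun z' b1 b2 => ?_⟩
    obtain ⟨w, c1, c2, c3⟩ := av m1 hy b2.1 (by simp) y0 (n0 b2)
    by_cases e : 𝐁 z w = 0
    swap; · exact ⟨w, c1, sy _ _ c2, ⟨a1.2.1, c1.2.1, e⟩, c3⟩
    obtain ⟨t, t0, ht⟩ : ∃ t : F, t ≠ 0 ∧ 𝐁 z' w + t * 𝐁 z' u ≠ 0 := by
      obtain ⟨t, t0, t1⟩ := hF
      by_contra h
      push Not at h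
      exact mul_ne_zero (sub_ne_zero.2 t1) c3.2.2 (by linear_combination t * h 1 one_ne_zero - h t t0)
    have hw := Submodule.add_mem _ c1.2.1 (Submodule.smul_mem _ t u1.1)
    exact ⟨w + t • u, ⟨m1, hw, by simpa [LinearMap.mem_ker.1 u1.2] using c1.2.2⟩,
      sy _ _ ⟨hy, hw, by simpa [u2] using c2.2.2⟩, ⟨a1.2.1, hw, by simpa [e, t0] using B_ne a3.2.2⟩,
      b2.1, hw, by simpa⟩
  · obtain ⟨z, h1, h2, h3⟩ := av m1 h.1 h.2.1 (by simp) (n0 h) (n0 (sy _ _ h))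
    exact ⟨z, h1, sy _ _ h2, sy _ _ h3⟩

end Step

theorem genB (hF : ∃ a : F, a ≠ 0 ∧ a ≠ 1) {i : ℕ} (hi : i + 1 < n) (N : Subgroup Γ)
    (h1 : Fp F n (i + 1 ≤ ·) ≤ N) (h2 : SM F n i ≤ N) : SB F n (i + 1) ≤ N :=
  (sg1 (i := ⟨i, by omega⟩) (k := ⟨i + 1, hi⟩) rfl hF).gen N h1 fun _ h => h2 h.1

theorem genA (hF : ∃ a : F, a ≠ 0 ∧ a ≠ 1) (N : Subgroup Γ) (i : ℕ) (hi : i < n)
    (h1 : ∀ j ≤ i, Fp F n (· ≠ j) ≤ N) (h2 : ∀ j < i, SM F n j ≤ N) : Fp F n (i + 1 ≤ ·) ≤ N := by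
  induction i with
  | zero => exact (Fx_le fun a h => by omega).trans (h1 0 le_rfl)
  | succ i ih =>
    exact (sg2 (i := ⟨i, by omega⟩) (k := ⟨i + 1, hi⟩) rfl hF).gen N (genB hF hi N (ih (by omega)
      (fun j hj => h1 j (by omega)) fun j hj => h2 j (by omega)) (h2 i (by omega)))
      fun _ h => h1 _ le_rfl h.1

variable {H : Type*} [Group H]

/-- Compatible pairs of maps. -/
def Cp {G : Type*} [Group G] (L L' : Subgroup G) (f f' : G → H) : Prop :=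
  ∃ κ, PH (L ⊔ L') κ ∧ (∀ g ∈ L, κ g = f g) ∧ ∀ g ∈ L', κ g = f' g

theorem Cp.comm {G : Type*} [Group G] {L L' : Subgroup G} {f f' : G → H} (h : Cp L L' f f') {x y : G}
    (hx : x ∈ L) (hy : y ∈ L') (e : Commute x y) : Commute (f x) (f' y) := by
  obtain ⟨κ, h1, h2, h3⟩ := h
  rw [← h2 x hx, ← h3 y hy]
  exact h1.comm (Subgroup.mem_sup_left hx) (Subgroup.mem_sup_right hy) e

theorem sp_slim (hF : ∃ a : F, a ≠ 0 ∧ a ≠ 1) (σ μ : ℕ → Γ → H) (hn : 1 < n)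
    (hSS : ∀ j < n, ∀ l < n, j ≠ l → Cp (Fp F n (· ≠ j)) (Fp F n (· ≠ l)) (σ j) (σ l))
    (hMM : ∀ j l, j ≠ l → j + 1 < n → l + 1 < n → Cp (SM F n j) (SM F n l) (μ j) (μ l))
    (hMS : ∀ j l, j + 1 < n → l < n → Cp (SM F n j) (Fp F n (· ≠ l)) (μ j) (σ l)) (i : ℕ) (hi : i < n) :
    ∃ φ : Γ → H, PH (Fp F n (i + 1 ≤ ·)) φ ∧ (∀ j ≤ i, ∀ g ∈ Fp F n (· ≠ j), φ g = σ j g) ∧
      ∀ j < i, ∀ g ∈ SM F n j, φ g = μ j g := by
  induction i with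
  | zero =>
    obtain ⟨κ, h1, -, h2⟩ := hMS 0 0 hn hi
    have : Fp F n (0 + 1 ≤ ·) ≤ SM F n 0 ⊔ Fp F n (· ≠ 0) :=
      (Fx_le fun a h => by omega).trans le_sup_right
    exact ⟨κ, fun x hx y hy => h1 x (this hx) y (this hy), by simpa using h2, by simp⟩
  | succ i ih =>
    obtain ⟨φ, a1, a2, a3⟩ := ih (by omega)
    have sA : ∀ j ≤ i, Fp F n (· ≠ j) ≤ Fp F n (i + 1 ≤ ·) := fun j hj => Fx_le fun a h => by omega
    have mA : ∀ j < i, SM F n j ≤ Fp F n (i + 1 ≤ ·) := fun j hj => Fx_le fun a h => by omega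
    obtain ⟨κ, b1, b2, b3⟩ := hMS i i hi (by omega)
    have D1 := sg1 (i := ⟨i, by omega⟩) (k := ⟨i + 1, hi⟩) rfl hF
    have D2 := sg2 (i := ⟨i, by omega⟩) (k := ⟨i + 1, hi⟩) rfl hF
    dsimp only at D1 D2
    have cB : ∀ p ∈ SB F n i, ∀ m ∈ SM F n i, Commute p m := fun p hp m hm => Fx_comm (by
      rintro (a | a) <;> simp; omega) hp hm
    obtain ⟨φ', c1, c2, c3⟩ := D1.ext a1 b1 (fun p h1 h2 => by
      have : p ∈ Fp F n (· ≠ i) := fun a ha => by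
        by_cases e : six a ≤ i
        · exact (sup_le (Fx_le fun a h => by omega) (Fx_le fun a h => by omega) :
            _ ≤ Fp F n (· < i)) h2 a (by omega)
        · exact h1 a (by omega)
      rw [a2 i le_rfl p this, b3 p this]) (by
      rintro p hp s ⟨s1, c, s2⟩ s' ⟨-, c', s4⟩ e
      have e1 := hp (inl ⟨i + 1, hi⟩) le_rfl
      rw [s2, s4, smul_add, smul_add, smul_comm, e1, hp (inr ⟨i + 1, hi⟩) le_rfl, add_assoc, add_assoc,
        add_right_inj] at e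
      have e2 := congrFun e (inl ⟨i + 1, hi⟩)
      rw [Pi.add_apply, Fx_coord hp le_rfl] at e2
      simp at e2
      rw [e2, add_left_inj] at e
      have hB : p ∈ SB F n i := fun a ha => ha.elim (hp a) (by
        rcases a with a | a <;> simp only [isLeft_inl, six_inl, true_and, isLeft_inr]
        · rintro rfl; exact e
        · simp)
      refine ⟨cB p hB s s1, ?_⟩
      rcases i with _ | i
      · have : p ∈ Fp F n (· ≠ 0) := fun a ha => hp a (by omega)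
        rw [a2 0 le_rfl p this, ← b3 p this]
        exact b1.comm (Subgroup.mem_sup_right this) (Subgroup.mem_sup_left s1) (cB p hB s s1)
      have k : ∀ j ≤ i, SM F n j ≤ a1.cen (κ s) := fun j hj g hg => a1.mem_cen.2 ⟨mA j (by omega) hg, by
        rw [a3 j (by omega) g hg, b2 s s1]
        exact (hMM j (i + 1) (by omega) (by omega) hi).comm hg s1 (Fx_comm (by
          rintro (a | a) <;> simp) hg s1)⟩
      exact (a1.mem_cen.1 (genB hF (by omega) _ (genA hF _ i (by omega) (fun j hj g hg =>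
        a1.mem_cen.2 ⟨sA j (by omega) hg, by
          rw [a2 j (by omega) g hg, b2 s s1]
          exact ((hMS (i + 1) j hi (by omega)).comm s1 hg (Fx_comm (by
            rintro (a | a) <;> simp <;> omega) s1 hg)).symm⟩) fun j hj => k j hj.le) (k i le_rfl) hB)).2)
    have mB : SM F n i ≤ SB F n (i + 1) := le_sup_left.trans D1.hK
    have c4 : ∀ g ∈ SM F n i, φ' g = μ i g := fun g hg => by
      have adj : ∀ g ∈ SM F n i, (g • sbv F (inr ⟨i + 1, hi⟩)) (inl ⟨i, by omega⟩) ≠ 0 → φ' g = κ g :=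
        fun g hg h => c3 g (Subgroup.mem_sup_left hg) ⟨by simp, SW_smul' (mB hg) (by simp), _,
          (ei_mem (i := ⟨i, by omega⟩) rfl).2, by simpa [B_f] using h.symm⟩
      rw [← b2 g hg]
      by_cases e : (g • sbv F (inr ⟨i + 1, hi⟩)) (inl ⟨i, by omega⟩) = 0
      swap; · exact adj g hg e
      obtain ⟨s, s1, s2⟩ := exists_s (i := ⟨i, by omega⟩) (k := ⟨i + 1, hi⟩) rfl (0 : F)
      have := mul_mem hg (inv_mem s1)
      rw [← inv_mul_cancel_right g s, c1 _ (mB this) _ (mB s1), b1 _ (Subgroup.mem_sup_left this) _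
        (Subgroup.mem_sup_left s1), adj s s1 (by simp [s2]), adj _ this]
      rw [zero_smul, add_zero, smul_eq_iff_eq_inv_smul, smul_add, inv_mem s1 (inl _) (by simp),
        ← sub_eq_iff_eq_add] at s2
      simp [mul_smul, ← s2, smul_sub, hg (inl _), e]
    obtain ⟨κ', d1, d2, d3⟩ := hMS i (i + 1) hi hi
    obtain ⟨Φ, e1, e2, e3⟩ := D2.ext c1 d1 (fun p h1 h2 => by
      have h3 := (sup_le (Fx_le (by rintro (a | a) <;> simp; omega)) (Fx_le (by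
        rintro (a | a) <;> simp <;> omega)) : _ ≤ Fx F fun a => six a < i ∨ (a.isLeft ∧ six a = i)) h2
      have : p ∈ SM F n i := fun a ha => by
        by_cases e : six a ≤ i
        · exact h3 a (by rcases a with a | a <;> simp at ha e ⊢ <;> omega)
        · exact h1 a (by rcases a with a | a <;> simp at ha e ⊢ <;> omega)
      rw [c4 p this, d2 p this]) (by
      rintro p hp s ⟨s1, c, c0, s2⟩ s' ⟨-, c', -, s4⟩ e
      have e2 := congrFun e (inr ⟨i + 1, hi⟩)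
      simp [Fx_coord hp, s2, s4] at e2
      rw [s2, s4, smul_comm, e2, smul_right_inj (e2 ▸ c0)] at e
      have hA : p ∈ Fp F n (i + 1 ≤ ·) := (D1.stab p hp).1 e
      refine ⟨Fx_comm (by rintro (a | a) <;> simp <;> omega) hA s1, ?_⟩
      rw [c2 p hA, d3 s s1]
      exact (a1.mem_cen.1 (genA hF _ i (by omega) (fun j hj g hg => a1.mem_cen.2 ⟨sA j hj hg, by
        rw [a2 j hj g hg]
        exact (hSS j (by omega) _ hi (by omega)).comm hg s1 (Fx_comm (by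
          rintro (a | a) <;> simp <;> omega) hg s1)⟩) (fun j hj g hg => a1.mem_cen.2 ⟨mA j hj hg, by
        rw [a3 j hj g hg]
        exact (hMS j _ (by omega) hi).comm hg s1 (Fx_comm (by
          rintro (a | a) <;> simp <;> omega) hg s1)⟩) hA)).2)
    refine ⟨Φ, e1, fun j hj g hg => ?_, fun j hj g hg => ?_⟩
    · rcases hj.eq_or_lt with rfl | hj
      swap; · rw [e2 g (D1.hP (sA j (by omega) hg)), c2 g (sA j (by omega) hg), a2 j (by omega) g hg]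
      have sB : Fp F n (· ≠ i + 1) ≤ Fp F n (i + 1 < ·) := le_sup_right.trans D2.hK
      have m1 := sbv_mem (F := F) (p := (i + 1 < ·)) (a := inl ⟨i + 1, hi⟩) (by simp)
      have adj : ∀ g ∈ Fp F n (· ≠ i + 1), 𝐁 (𝐞 ⟨i + 1, hi⟩) (g • 𝐞 ⟨i + 1, hi⟩) ≠ 0 → Φ g = κ' g :=
        fun g hg h => e3 g (Subgroup.mem_sup_right hg) ⟨m1, Pp_smul (sB hg) (fun _ => id) m1, h⟩
      obtain ⟨u, u1, u2, u3, -⟩ := exists_avoid3 hF _
        (exists_B_ne (p := (· ≠ i + 1)) (sbv_mem (a := inl ⟨i + 1, hi⟩) (by simp)) (by simp))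
        (exists_B_ne (Pp_smul hg (fun _ => id) (sbv_mem (a := inl ⟨i + 1, hi⟩) (by simp)))
          ((smul_ne_zero_iff_ne g).2 (by simp)))
        (exists_B_ne (sbv_mem (a := inl ⟨i + 1, hi⟩) (by simp)) (by simp))
      obtain ⟨s, s1, rfl⟩ := witt1 _ (sbv_mem (a := inl ⟨i + 1, hi⟩) (by simp)) u1 (by simp)
        fun e => u2 (by simp [e])
      have := mul_mem (inv_mem s1) hg
      rw [← d3 g hg, ← mul_inv_cancel_left s g, e1 _ (sB s1) _ (sB this), d1 _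
        (Subgroup.mem_sup_right s1) _ (Subgroup.mem_sup_right this), adj s s1 u2, adj _ this]
      rw [← B_smul s, mul_smul, smul_inv_smul]
      exact B_ne u3
    · rcases (Nat.lt_succ_iff.1 hj).eq_or_lt with rfl | hj
      · rw [e2 g (mB hg), c4 g hg]
      · rw [e2 g (D1.hP (mA j hj hg)), c2 g (mA j hj hg), a3 j hj g hg]

end Cfsg.Agent.H77
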